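import Cfsg.Agent.H5.NG
import Cfsg.Agent.H4.SD1

set_option autoImplicit false

namespace CfsgSE

universe u

/-- `SE.ng` in the form used by `H4/SD1`. -/
theorem SE.ngh {G Ω : Type u} [Group G] [Finite G] [MulAction G Ω] (S : SE G Ω) : NGh G Ω :=
  fun _ _ _ _ _ _ hp a b c d e f g h i => S.ng hp a b c d e f g h i

end CfsgSE
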