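import Cfsg.Agent.H5.NG2

set_option autoImplicit false
set_option linter.unusedSectionVars false
set_option linter.unusedVariables false
set_option maxHeartbeats 400000

/-! The no-good-pair lemma `SE.ng`, and the faithful quotient of an `SE` action. -/

namespace CfsgSE

open Subgroup CfsgH5 CfsgH6 CfsgFT CfsgSZ CfsgSZ.PS
open scoped commutatorElement

universe u

section quot
variable (G Ω : Type u) [Group G] [Finite G] [MulAction G Ω]

/-- the permutation group induced by `G` on `Ω`. -/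
abbrev PImg : Type u := (MulAction.toPermHom G Ω).range

/-- the map onto the induced permutation group. -/
def pim : G →* PImg G Ω := (MulAction.toPermHom G Ω).rangeRestrict

variable {G Ω}

theorem pim_surj : Function.Surjective (pim G Ω) := MonoidHom.rangeRestrict_surjective _
theorem pimg_finite : Finite (PImg G Ω) := Finite.of_surjective _ pim_surj
theorem pim_smul (g : G) (a : Ω) : pim G Ω g • a = g • a := rfl
theorem pim_eq_one {g : G} : pim G Ω g = 1 ↔ ∀ a : Ω, g • a = a :=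
  ⟨fun h a => by rw [← pim_smul, h, one_smul], fun h => Subtype.ext (Equiv.ext h)⟩
theorem pimg_faithful (g : PImg G Ω) (h : ∀ a : Ω, g • a = a) : g = 1 := by
  obtain ⟨g, rfl⟩ := pim_surj g
  exact pim_eq_one.2 h
theorem card_pimg_lt {g : G} (h : ∀ a : Ω, g • a = a) (h1 : g ≠ 1) :
    Nat.card (PImg G Ω) < Nat.card G := by
  haveI := pimg_finite (G := G) (Ω := Ω)
  refine lt_of_le_of_ne (Nat.card_le_card_of_surjective _ pim_surj) fun e => h1 ?_
  have := (pim_surj (G := G) (Ω := Ω)).bijective_of_nat_card_le e.ge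
  exact this.1 (by rw [pim_eq_one.2 h, map_one])
theorem St_pim (a : Ω) : (St G a).map (pim G Ω) = St (PImg G Ω) a := by
  ext y
  obtain ⟨y, rfl⟩ := pim_surj y
  exact ⟨fun ⟨x, h1, h2⟩ => h2 ▸ h1, fun h => ⟨y, h, rfl⟩⟩
theorem St2_pim (a b : Ω) :
    (St G a ⊓ St G b).map (pim G Ω) = St (PImg G Ω) a ⊓ St (PImg G Ω) b := by
  ext y
  obtain ⟨y, rfl⟩ := pim_surj y
  exact ⟨fun ⟨x, h1, h2⟩ => h2 ▸ h1, fun h => ⟨y, h, rfl⟩⟩

namespace SE
variable (S : SE G Ω) {a b : Ω}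
include S

theorem iv_pim (h : a ≠ b) {t : G} (ht : Iv t) : Iv (pim G Ω t) :=
  ⟨by rw [← map_mul, ht.sq, map_one], fun e =>
    h (S.uniq t ht a b (pim_eq_one.1 e a) (pim_eq_one.1 e b))⟩

theorem pim_lift (h : a ≠ b) {t : PImg G Ω} (ht : Iv t) : ∃ s : G, Iv s ∧ pim G Ω s = t := by
  obtain ⟨g, rfl⟩ := pim_surj t
  have e : pim G Ω (g * g) = 1 := by rw [map_mul, ht.sq]
  obtain ⟨k, hk⟩ := S.odd_of_fix (pim_eq_one.1 e a) (pim_eq_one.1 e b) h
  have e2 : pim G Ω (g ^ (2 * k + 1)) = pim G Ω g := by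
    rw [pow_succ, pow_mul, sq, map_mul, map_pow, e, one_pow, one_mul]
  refine ⟨g ^ (2 * k + 1), ⟨?_, fun f => ht.ne (by rw [← e2, f, map_one])⟩, e2⟩
  rw [← (Commute.refl g).mul_pow, ← hk, pow_orderOf_eq_one]

theorem pimg (h : a ≠ b) : SE (PImg G Ω) Ω where
  ex t ht := by
    obtain ⟨s, s1, rfl⟩ := S.pim_lift h ht
    exact S.ex s s1
  uniq t ht := by
    obtain ⟨s, s1, rfl⟩ := S.pim_lift h ht
    exact S.uniq s s1
  ev c := let ⟨t, t1, t2⟩ := S.ev c; ⟨pim G Ω t, S.iv_pim h t1, t2⟩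

theorem pim_ne (h : a ≠ b) {s t : G} (hs : Iv s) (ht : Iv t) (hne : s ≠ t) (hc : s * t = t * s) :
    pim G Ω s ≠ pim G Ω t := fun e =>
  (S.iv_pim h (ht.mul hs hc hne)).ne (by rw [map_mul, e, ← map_mul, ht.sq, map_one])

theorem odd_comap (h : a ≠ b) {M : Subgroup (PImg G Ω)} (ho : Odd (Nat.card M)) :
    Odd (Nat.card (M.comap (pim G Ω))) :=
  haveI := pimg_finite (G := G) (Ω := Ω)
  odd_of_no_iv fun _ y1 y2 => (S.iv_pim h y2).not_mem ho y1

end SE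
end quot

theorem ng_aux {p : ℕ} (hp : p.Prime) (n : ℕ) : ∀ {G Ω : Type u} [Group G] [Finite G]
    [MulAction G Ω], Nat.card G = n → SE G Ω → ∀ {e c : Ω} {j t : G} {R : Subgroup G}, Iv j →
    j • e = e → Iv t → t ≠ j → t * j = j * t → c ≠ e → SylIn p R (St G c ⊓ St G (j • c)) →
    j ∈ N R → R ≤ St G e → ∃ M : Subgroup G, Odd (Nat.card M) ∧
      (∀ s : G, Iv s → s • e = e → s ∈ N M) ∧ ∀ x ∈ R, j * x * j⁻¹ = x⁻¹ → x ∈ M := by
  induction n using Nat.strong_induction_on with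
  | _ n ih =>
  intro G Ω _ _ _ hn S e c j t R hj he ht hne hc hce hR hjR hRe
  haveI := Fact.mk hp
  have te : t • e = e := S.smul_eq hj he hc
  by_cases hf : ∃ g : G, (∀ a : Ω, g • a = a) ∧ g ≠ 1
  · obtain ⟨g, g1, g2⟩ := hf
    haveI := pimg_finite (G := G) (Ω := Ω)
    have h1 := hR.map (pim G Ω)
    rw [St2_pim] at h1
    obtain ⟨M, m1, m2, m3⟩ := ih _ (hn ▸ card_pimg_lt g1 g2) rfl (S.pimg hce) (e := e) (c := c)
      (S.iv_pim hce hj) he (S.iv_pim hce ht) (S.pim_ne hce ht hj hne hc)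
      (by rw [← map_mul, hc, map_mul]) hce h1
      (mem_N_of_conj (by
        rintro _ ⟨x, x1, rfl⟩
        exact ⟨_, conj_mem_of_mem_N hjR x1, by simp⟩))
      (by rintro _ ⟨x, x1, rfl⟩; exact hRe x1)
    refine ⟨M.comap (pim G Ω), S.odd_comap hce m1, fun s s1 s2 => mem_N_of_conj fun x hx => ?_,
      fun x x1 x2 => m3 _ ⟨x, x1, rfl⟩ (by rw [← map_inv, ← map_mul, ← map_mul, x2, map_inv])⟩
    rw [mem_comap, map_mul, map_mul, map_inv]
    exact conj_mem_of_mem_N (m2 _ (S.iv_pim hce s1) s2) hx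
  by_cases hx : ∀ x ∈ R, j * x * j⁻¹ = x⁻¹ → x = 1
  · exact ⟨⊥, by simp, fun s _ _ => by simp [N_bot], fun x a b => by simp [hx x a b]⟩
  push Not at hx hf
  obtain ⟨x, x1, x2, x3⟩ := hx
  obtain ⟨U, u1, u2, a, R', a1, r1, r2, r3, r4, d1, d2, w, w1, w2, w3⟩ :=
    S.ng_step hp hj he hce hR hjR hRe x1 x2 x3
  have jU := d2 j hj he
  have tU := d2 t ht te
  have ne : N U ≠ ⊤ := fun f => u1 (eq_bot_iff.2 fun y hy => hf y fun b => by
    have Ue := S.le_St u2 hj jU he tU ht hne hc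
    obtain ⟨g, rfl⟩ := S.trans e b
    exact le_St_smul Ue (f ▸ mem_top g) hy)
  have lt : Nat.card (N U) < Nat.card G := by
    rw [← card_top (G := G)]; exact card_lt_of_lt (lt_top_iff_ne_top.2 ne)
  have RU : R' ≤ N U := r1.le.trans d1
  let e' : Pts Ω (N U) := ⟨e, j, jU, hj, he⟩
  let a' : Pts Ω (N U) := ⟨a, w, w1, w2, w3⟩
  obtain ⟨M, m1, m2, m3⟩ := ih _ (hn ▸ lt) rfl (S.sub (N U)) (e := e') (c := a') (j := ⟨j, jU⟩)
    (t := ⟨t, tU⟩) (R := R'.subgroupOf (N U)) (iv_coe.1 hj) (Subtype.ext he) (iv_coe.1 ht)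
    (fun f => hne (congrArg Subtype.val f)) (Subtype.ext hc) (fun f => a1 (congrArg Subtype.val f))
    ⟨fun y hy => ⟨mem_St_sub.2 (r1.le hy).1, mem_St_sub.2 (r1.le hy).2⟩,
      r1.isPGroup.comap_subtype, fun T t1 t2 t3 => by
        have := r1.eq_of_le (T := T.map (N U).subtype)
          (by rintro _ ⟨y, y1, rfl⟩; exact ⟨mem_St_sub.1 (t1 y1).1, mem_St_sub.1 (t1 y1).2⟩)
          (t2.map _) (fun y hy => ⟨⟨y, RU hy⟩, t3 hy, rfl⟩)
        rw [← this, subgroupOf, comap_map_eq_self_of_injective (N U).subtype_injective]⟩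
    (mem_N_of_conj fun y hy => mem_subgroupOf.2 (conj_mem_of_mem_N r2 (mem_subgroupOf.1 hy)))
    (fun y hy => mem_St_sub.2 (r3 hy))
  refine ⟨M.map (N U).subtype, by rwa [card_map_of_injective (N U).subtype_injective],
    fun s s1 s2 => mem_N_of_conj ?_, fun y y1 y2 =>
      ⟨⟨y, RU (r4 (mem_ngY y1 y2))⟩, m3 _ (r4 (mem_ngY y1 y2)) (Subtype.ext y2), rfl⟩⟩
  rintro _ ⟨y, y1, rfl⟩
  exact ⟨_, conj_mem_of_mem_N (m2 ⟨s, d2 s s1 s2⟩ (iv_coe.1 s1) (Subtype.ext s2)) y1, rfl⟩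

variable {G Ω : Type u} [Group G] [Finite G] [MulAction G Ω]

/-- an odd subgroup normalised by the involutions at `e` meets `E_e` inside `O(G_e)`. -/
theorem mem_Opc_of_nrm {e : Ω} {M : Subgroup G} (ho : Odd (Nat.card M))
    (h : ∀ s : G, Iv s → s • e = e → s ∈ N M) {x : G} (h1 : x ∈ M) (h2 : x ∈ EE G e) :
    x ∈ Opc 2 (EE G e) ∧ x ∈ Opc 2 (St G e) := by
  have a : M ⊓ EE G e ≤ Opc 2 (EE G e) := pt_le_Opc inf_le_right
    ((nrm_of_le_N (EE_le_iff.2 h)).inf (Nrm.self _)) (ho.of_dvd_nat (card_dvd_of_le' inf_le_left))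
  exact ⟨a ⟨h1, h2⟩, Opi_le_Opi_of_normalIn ⟨EE_le, nrm_EE e⟩ (a ⟨h1, h2⟩)⟩

/-- **no good pair**: the inverted elements of the Sylow subgroup of a good pair lie in
`O(E_e)`. -/
theorem SE.ng' (S : SE G Ω) {p : ℕ} (hp : p.Prime) {e c : Ω} {j t : G} {R : Subgroup G}
    (hj : Iv j) (he : j • e = e) (ht : Iv t) (hne : t ≠ j) (hc : t * j = j * t) (hce : c ≠ e)
    (hR : SylIn p R (St G c ⊓ St G (j • c))) (hjR : j ∈ N R) (hRe : R ≤ St G e) :
    ∀ x ∈ R, j * x * j⁻¹ = x⁻¹ → x ∈ Opc 2 (EE G e) ∧ x ∈ Opc 2 (St G e) := fun x x1 x2 => by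
  obtain ⟨M, m1, m2, m3⟩ := ng_aux hp _ rfl S hj he ht hne hc hce hR hjR hRe
  refine mem_Opc_of_nrm m1 m2 (m3 x x1 x2) ?_
  have o : Odd (orderOf x) := pt_odd_mem (S.odd_D (S.moves hj he hce).symm) (hR.le x1)
  have a : j * x ∈ EE G e := mem_EE (hj.mul_of_inv o x2) (by
    rw [mul_smul, show x • e = e from hRe x1, he])
  simpa using mul_mem (inv_mem (mem_EE hj he)) a

theorem SE.ng (S : SE G Ω) {p : ℕ} (hp : p.Prime) {e c : Ω} {j t : G} {R : Subgroup G}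
    (hj : Iv j) (he : j • e = e) (ht : Iv t) (hne : t ≠ j) (hc : t * j = j * t) (hce : c ≠ e)
    (hR : SylIn p R (St G c ⊓ St G (j • c))) (hjR : j ∈ N R) (hRe : R ≤ St G e) :
    ∀ x ∈ R, j * x * j⁻¹ = x⁻¹ → x ∈ Opc 2 (St G e) := fun x x1 x2 =>
  (S.ng' hp hj he ht hne hc hce hR hjR hRe x x1 x2).2

end CfsgSE
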