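import Cfsg.Agent.H5.JSA1
import Cfsg.Agent.H8.MatLocA

set_option autoImplicit false
set_option linter.unusedSectionVars false

/-! S3403, piece (SA): transvections, the case of `672` points. -/

namespace CfsgJ

open CfsgH5 CfsgH6 CfsgFT Subgroup CfsgH1.Q4 CfsgH5.Der MulAction

universe u

variable {G Ω : Type u} [Group G] [Finite G] [MulAction G Ω] [Finite Ω] {P : Ω → Subgroup G}
  {L M A : Subgroup G} {i j k : Ω} {s w : G}

theorem sa_pow5 : ∀ a b : ZMod 11, a ^ 5 = 1 → b ^ 5 = 1 → b ≠ 1 → ∃ n : Fin 5, b ^ n.1 = a := by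
  decide

namespace LS

variable (h : LS G Ω P) (hA : ∀ L, ML P L → FA P L)
include h hA

theorem sa_le11 (hL : ML P L) (hi : P i ≤ L) (h1 : A ≤ C (P i)) (h2 : A ≤ N L) :
    (C L).relIndex A ≤ 11 := by
  obtain ⟨j, hj, hjL⟩ := hL.1.two' i
  rw [← h.sa_stab hA hL hj.symm hi hjL, ← inf_relIndex_right, inf_assoc, inf_eq_right.2 h1,
    inf_relIndex_right, ← ncard_orbit]
  have : orbit A j ⊆ {i | P i ≤ L} \ {i} := fun k hk => by
    obtain ⟨g, hg, rfl⟩ := mem_orb.1 hk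
    exact ⟨(h.on_N (h2 hg)).2 hjL, fun e =>
      hj (smul_left_cancel g (Eq.trans e (h.fix_C (h1 hg)).symm))⟩
  have := Set.ncard_le_ncard this
  rwa [Set.ncard_diff_singleton_of_mem (by exact hi), (hA L hL).npts] at this

theorem sa_tv (L M : Subgroup G) (hL : ML P L) (hM : ML P M) (hne : L ≠ M) (i : Ω)
    (hiL : P i ≤ L) (hiM : P i ≤ M) (w : G) (hw : w ∈ C L) (w1 : w ≠ 1) (wM : w ∈ N M) :
    orderOf w = 11 ∧ Nat.card ↥(C (P i) ⊓ C1 w) ≤ 121 ∧ 121 ∣ Nat.card Ω - 1 := by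
  have hp : Nat.Prime 11 := by norm_num
  haveI := Fact.mk hp
  have wK := C_anti hiL hw
  obtain ⟨p, hpi, c, hc, e⟩ := h.b M hM i hiM w wK wM
  have cK := C_anti hiM hc
  have pc : p * c = c * p := mem_C.1 cK p hpi
  have i0 : ∀ x, x ∈ C L → x ∈ C M → x = 1 := fun x a b => by
    by_contra x1
    exact hne (h.W_inf hL hM x1 a b)
  have iL : ∀ x, x ∈ P i → x ∈ C L → x = 1 := fun x a b => h.inf_C hL.1 (hA L hL).cen (hiL a) b
  have o : orderOf w = 11 := orderOf_eq_prime (i0 _ (pow_mem hw 11) (by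
    rw [e, Commute.mul_pow pc, h.pow11 hpi, one_mul]; exact pow_mem hc 11)) w1
  have p1 : p ≠ 1 := fun f => w1 (i0 w hw (by rwa [e, f, one_mul]))
  have c1 : c ≠ 1 := fun f => w1 (iL w (by rwa [e, f, mul_one]) hw)
  obtain ⟨A, hAe⟩ : ∃ A, A = C (P i) ⊓ C1 w := ⟨_, rfl⟩
  rw [← hAe]
  have mA : ∀ {x}, x ∈ A ↔ x ∈ C (P i) ∧ x * w = w * x := fun {x} => by
    rw [hAe, mem_inf, mem_C1]
  have AK : A ≤ C (P i) := fun x hx => (mA.1 hx).1
  have AL : A ≤ N L := fun x hx => h.C1_le_N hL w1 hw (mem_C1.2 (mA.1 hx).2)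
  have AM : A ≤ N M := fun x hx => h.C1_le_N hM c1 hc (mem_C1.2 (by
    have := (mA.1 hx).2
    rw [e, ← mul_assoc, ← mem_C.1 (AK hx) p hpi, mul_assoc, mul_assoc] at this
    exact mul_left_cancel this))
  have b1 : Nat.card ↥(C L ⊓ A) ≤ 11 := by
    rw [← relIndex_of_inf_eq_bot (X := C M) (Y := C L ⊓ A)
      (eq_bot_iff.2 fun x hx => i0 x hx.2.1 hx.1)]
    exact h.sa_le11 hA hM hiM (inf_le_right.trans AK) (inf_le_right.trans AM)
  have b2 : Nat.card A ≤ 121 := by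
    rw [← card_inf_mul_relIndex (C L)]
    exact Nat.mul_le_mul b1 (h.sa_le11 hA hL hiL AK AL)
  refine ⟨o, b2, ?_⟩
  have cw : Nat.card (zpowers w) = 11 := by rw [Nat.card_zpowers, o]
  have wA : zpowers w ≤ A := zpowers_le.2 (mA.2 ⟨wK, rfl⟩)
  have zw : zpowers w = C L ⊓ A :=
    eq_of_le_of_card_le (le_inf (zpowers_le.2 hw) wA) (cw ▸ b1)
  have n1 : ¬ 11 ^ 2 ∣ Nat.card (C L) := fun d => by
    obtain ⟨S, s1, hS⟩ := exists_sylIn_ge (zpowers_le.2 hw) (isPGroup_of_card_eq_prime cw)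
    obtain ⟨⟨z, hz⟩, z1⟩ := ne_bot_iff_exists_ne_one.1 (inf_C_ne_bot_of_isPGroup hp hS.isPGroup
      hS.isPGroup (Nrm.self S) (hS.ne_bot hp ((dvd_pow_self 11 two_ne_zero).trans d)))
    have wS := s1 (mem_zpowers w)
    have := eq_zpowers_of_prime_card (cw ▸ hp) (zw.ge ⟨hS.le hz.1,
      mA.2 ⟨C_anti hiL (hS.le hz.1), (mem_C.1 hz.2 w wS).symm⟩⟩) fun f => z1 (Subtype.ext f)
    have wC : w ∈ C S := zpowers_le.2 hz.2 (this.le (mem_zpowers w))
    have l : S ≤ zpowers w := fun x hx => zw.ge ⟨hS.le hx,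
      mA.2 ⟨C_anti hiL (hS.le hx), mem_C.1 wC x hx⟩⟩
    have := ((hS.hall hp).dvd_card d (piN_prime_pow hp (Set.mem_singleton _) 2)).trans (card_dvd_of_le' l)
    rw [cw] at this
    norm_num at this
  have cA : Nat.card A = 11 ^ 2 := le_antisymm b2 (by
    have := card_sup_of_inf_eq_bot (X := zpowers w) (Y := P i)
      (.inl (nrm_of_le_C (zpowers_le.2 wK)))
      (eq_bot_iff.2 fun x hx => iL x hx.2 (zpowers_le.2 hw hx.1))
    rw [cw, h.card] at this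
    exact this.ge.trans (card_le_of_le (sup_le wA fun x hx =>
      mA.2 ⟨h.ab i hx, mem_C.1 wK x hx⟩)))
  obtain ⟨j, hj, hjL⟩ := hL.1.two' i
  obtain ⟨l, hl, hlM⟩ := hM.1.two' i
  obtain ⟨t, ht, t5, t1, -⟩ := (hA L hL).tor i j hj.symm hiL hjL
  obtain ⟨u, hu, u5, u1, -⟩ := (hA M hM).tor i l hl.symm hiM hlM
  have tK := h.sa_notC hA hL hiL ht t5
  obtain ⟨φ, -, hφ⟩ := h.aut i
  have f5 : ∀ x : stabilizer G i, orderOf x.1 = 5 → (φ x : ZMod 11) ^ 5 = 1 := fun x f => by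
    rw [← Units.val_pow_eq_pow_val, ← map_pow,
      show x ^ 5 = 1 from Subtype.ext (f ▸ pow_orderOf_eq_one x.1), map_one, Units.val_one]
  obtain ⟨n, hn⟩ := sa_pow5 _ _ (f5 ⟨t, t1⟩ t5) (f5 ⟨u, u1⟩ u5)
      fun f => h.sa_notC hA hM hiM hu u5 ((hφ _).1 (Units.ext f))
  rw [← Units.val_pow_eq_pow_val, ← map_pow, Units.val_inj] at hn
  obtain ⟨r, hr⟩ : ∃ r, r = (⟨u, u1⟩ : stabilizer G i) ^ n.1 := ⟨_, rfl⟩
  rw [← hr] at hn
  have rM : r.1 ∈ M := hr ▸ pow_mem hu _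
  obtain ⟨k, hk⟩ : ∃ k, k = r.1⁻¹ * t := ⟨_, rfl⟩
  have kK : k ∈ C (P i) := hk ▸ (hφ (r⁻¹ * ⟨t, t1⟩)).1 (by rw [map_mul, map_inv, hn]; simp)
  obtain ⟨q, hq⟩ : ∃ q, q = r.1⁻¹ * p * r.1⁻¹⁻¹ * p⁻¹ := ⟨_, rfl⟩
  have qP : q ∈ P i := hq ▸ mul_mem (conj_mem_of_mem_N (inv_mem (h.fix_iff.1 r.2)) hpi)
    (inv_mem hpi)
  have q1 : q ≠ 1 := fun f => tK ((hφ ⟨t, t1⟩).1 (hn ▸ (hφ r).2 (by
    rw [h.eq_zpowers hpi p1, C_zpowers, ← mem_C1_comm, ← C1_inv, mem_C1_iff_conj']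
    exact mul_inv_eq_one.1 (hq ▸ f))))
  have kw : k * w * k⁻¹ = q * w := by
    calc _ = r.1⁻¹ * (t * w) * t⁻¹ * r.1 := by rw [hk]; group
      _ = r.1⁻¹ * p * (c * r.1) := by rw [mem_C.1 hw t ht, e]; group
      _ = _ := by rw [← mem_C.1 hc _ rM, hq, e]; group
  have kq : q * k = k * q := mem_C.1 kK q qP
  have km : ∀ m : ℕ, k ^ m * w * (k ^ m)⁻¹ = q ^ m * w := fun m => by
    induction m with
    | zero => simp
    | succ m ih =>
      calc _ = k * (k ^ m * w * (k ^ m)⁻¹) * k⁻¹ := by group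
        _ = (k * q ^ m) * w * k⁻¹ := by rw [ih]; group
        _ = q ^ m * (k * w * k⁻¹) := by rw [← (Commute.pow_left kq m).eq]; group
        _ = _ := by rw [kw]; group
  have k11 : k ^ 11 ∈ A := mA.2 ⟨pow_mem kK 11, mul_inv_eq_iff_eq_mul.1
    (by rw [km, h.pow11 qP, one_mul])⟩
  have kA : k ∉ A := fun f => q1 (by
    rw [(mA.1 f).2, mul_inv_cancel_right] at kw
    exact (mul_eq_right.1 kw.symm))
  have kN : k ∈ N A := mem_N_of_conj fun x hx => by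
    have a1 : k * x * k⁻¹ ∈ C (P i) := Nrm.self _ k kK x (AK hx)
    refine mA.2 ⟨a1, mul_left_cancel (a := q) ?_⟩
    rw [← mul_assoc, mem_C.1 a1 q qP, mul_assoc, ← mul_assoc q, ← kw]
    calc _ = k * (x * w) * k⁻¹ := by group
      _ = _ := by rw [(mA.1 hx).2]; group
  have pX : IsPGroup 11 ↥(A ⊔ zpowers k) := isPGroup_sup hp (isPGroup_of_card_eq cA)
    (CfsgH8.Mat.isPGroup_zpowers' (k := 3) (by
      have := orderOf_dvd_card' k11
      rw [cA, orderOf_dvd_iff_pow_eq_one, ← pow_mul] at this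
      exact this)) (.inr (nrm_zpowers_iff.2 kN))
  obtain ⟨m, hm⟩ := IsPGroup.iff_card.1 pX
  have lt := card_lt_of_lt (left_lt_sup.2 fun f => kA (f (mem_zpowers k)))
  rw [cA, hm, Nat.pow_lt_pow_iff_right hp.one_lt] at lt
  have d := (pow_dvd_pow 11 lt).trans (hm ▸ card_dvd_of_le' (sup_le AK (zpowers_le.2 kK)))
  rw [h.sa_cardK hA L hL] at d
  by_contra n2
  have := (hp.pow_dvd_iff_le_factorization (n := _) (k := 3) (mul_ne_zero
    (by have := h.sa_big hA; omega) (card_ne_zero _))).1 d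
  rw [Nat.factorization_mul (by have := h.sa_big hA; omega) (card_ne_zero _),
    Finsupp.add_apply] at this
  rw [hp.pow_dvd_iff_le_factorization (card_ne_zero _)] at n1
  rw [show 121 = 11 ^ 2 from rfl,
    hp.pow_dvd_iff_le_factorization (by have := h.sa_big hA; omega)] at n2
  omega

theorem sa_w61 (hn : Nat.card Ω = 672) (L : Subgroup G) (hL : ML P L) : IsCyclic (C L) := by
  have hp : Nat.Prime 61 := by norm_num
  haveI := Fact.mk hp
  obtain ⟨i, -, -, hi, -⟩ := hL.1.two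
  have d : Nat.card (C L) ∣ 660 := by
    have := card_dvd_of_free (E := C L) (S := {i | P i ≤ L}ᶜ)
      (fun e he x hx c => hx ((h.on_N (C_le_N _ he)).1 c))
      fun e he x hx c => by_contra fun e1 => hx (h.wfix L hL e he e1 x c)
    rwa [Set.ncard_compl, (hA L hL).npts, hn] at this
  have n61 : ¬ 61 ∣ Nat.card (C L) := fun c => by
    have := c.trans d
    norm_num at this
  have cK := h.sa_cardK hA L hL i
  rw [hn] at cK
  obtain ⟨R, hR⟩ := exists_sylIn 61 (C (P i))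
  have cR : Nat.card R = 61 := CfsgH8.Mat.card_of_sylIn (k := 1) (m := 11 * Nat.card (C L)) hp hR
    (by rw [cK]; ring) fun c => ((Nat.Prime.dvd_mul hp).1 c).elim (by norm_num) n61
  have nP : Nrm R (P i) := nrm_of_le_C hR.le
  have cE : Nat.card ↥(R ⊔ P i) = 671 := by
    rw [card_sup_of_inf_eq_bot (.inl nP) (inf_eq_bot_of_coprime' (by rw [cR, h.card]; norm_num)),
      cR, h.card]
  have EK : R ⊔ P i ≤ C (P i) := sup_le hR.le (h.ab i)
  have d1 : (N R).relIndex (C (P i)) ∣ 660 := by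
    refine (relIndex_dvd_of_le_left _ (sup_le (le_N R)
      ((le_C_symm hR.le).trans (C_le_N R)))).trans ?_
    rwa [relIndex_eq_of_mul EK (n := Nat.card (C L)) (by rw [cE, cK])]
  have d2 := CfsgH8.Mat.sylIn_modEq hp hR
  have d3 : (N R).relIndex (C (P i)) = 1 := by
    have := Nat.le_of_dvd (by norm_num) d1
    obtain ⟨a, ha⟩ : ∃ a, (N R).relIndex (C (P i)) = 61 * a + 1 :=
      ⟨(N R).relIndex (C (P i)) / 61, by rw [Nat.ModEq] at d2; omega⟩
    rw [ha] at d1 this ⊢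
    have : a ≤ 10 := by omega
    interval_cases a <;> omega
  have nW : Nrm (C L) R := nrm_of_le_N ((C_anti hi).trans (relIndex_eq_one.1 d3))
  have z : C L ⊓ C R = ⊥ := eq_bot_iff.2 fun w hw => by_contra fun w1 => by
    obtain ⟨r, hr, r1⟩ := exists_mem_orderOf_eq (X := R) hp (by rw [cR])
    obtain ⟨p, hpi, c, hc, e⟩ := h.b L hL i hi r (hR.le hr)
      (h.C1_le_N hL w1 hw.1 (mem_C1.2 (mem_C.1 hw.2 r hr)))
    have : r ^ 11 ∈ C L := by
      rw [e, Commute.mul_pow (mem_C.1 (C_anti hi hc) p hpi), h.pow11 hpi, one_mul]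
      exact pow_mem hc 11
    exact n61 (r1 ▸ orderOf_dvd_card' (mem_of_pow_mem_of_coprime' (by rw [r1]; norm_num) this))
  obtain ⟨x, hx, e⟩ := (isCyclic_quo_iff ((Nrm.self _).inf nW.C)).1
    (isCyclic_quo_C_of_prime_card (cR ▸ hp) nW)
  rw [z, bot_sup_eq] at e
  exact isCyclic_iff_zpowers.2 ⟨x, le_antisymm (zpowers_le.2 hx) e⟩

theorem sa : SA G Ω P :=
  { h with
    fa := hA
    ktr2 := h.sa_ktr2 hA
    star := fun _ hL _ _ hij hi hj _ hk e => h.star hL hij hi hj hk e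
    cardK := h.sa_cardK hA
    big := h.sa_big hA
    m11 := h.sa_m11 hA
    m5 := h.sa_m5 hA
    even := h.sa_even hA
    notN := h.sa_notN hA
    tv := h.sa_tv hA
    w61 := h.sa_w61 hA }

end LS

end CfsgJ
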