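import Cfsg.Agent.H5.JSB1
import Cfsg.Agent.H5.WielFrob

set_option autoImplicit false
set_option linter.unusedSectionVars false

/-! S3403, piece (SB): the Frobenius group on the lines through a point. -/

namespace CfsgJ

open CfsgH5 CfsgH6 CfsgFT Subgroup CfsgH1.Q4 CfsgH5.Der MulAction

universe u

variable {G Ω : Type u} [Group G] [Finite G] [MulAction G Ω] [Finite Ω] {P : Ω → Subgroup G}
  {L M : Subgroup G} {i j k : Ω} {s w z : G}

namespace LS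

variable (h : LS G Ω P) (hB : ∀ L, ML P L → FB P L)
include h hB

theorem sb_ti (hL : ML P L) (hM : ML P M) (hz : z ∈ L) (hz' : z ∈ M) (h2 : orderOf z = 2)
    (hi : P i ≤ L) (hi' : P i ≤ M) (s1 : s ≠ 1) (sz : s ∈ C1 z) (si : s • i = i)
    (s5 : s ^ 5 ∈ C (P i)) (sL : s ∈ N L) (sM : s ∈ N M) : L = M := by
  have a : ∀ x, x ≠ 1 → x ∈ C1 z → x ∈ C (P i) → x ∈ N L → x ∈ N M → L = M :=
    fun x a b c d e => h.W_inf hL hM a ((h.sb_stab hB hL hz h2 hi).le ⟨d, c, b⟩)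
      ((h.sb_stab hB hM hz' h2 hi').le ⟨e, c, b⟩)
  by_cases e : s ^ 5 = 1
  · by_cases c : s ∈ C (P i)
    · exact a s s1 sz c sL sM
    · haveI := Fact.mk Nat.prime_five
      exact h.t1 s (orderOf_eq_prime e s1) i si c L M hL hM hi hi' sL sM
  · exact a _ e (pow_mem sz 5) s5 (pow_mem sL 5) (pow_mem sM 5)

theorem sb_key (hL : ML P L) (hz : z ∈ L) (h2 : orderOf z = 2) (hi : P i ≤ L) (zi : z • i = i) :
    ∃ F E : Subgroup G, F ≤ C1 z ∧ Nat.card F = {M | ML P M ∧ P i ≤ M ∧ z ∈ M}.ncard ∧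
      SemiReg F E ∧ Nrm E F ∧ C L ≤ E ∧ Odd (Nat.card E) ∧ ∃ t ∈ L, orderOf t = 5 ∧ t ∈ E := by
  obtain ⟨A, mA⟩ : ∃ A : Subgroup G, ∀ g, g ∈ A ↔ g ∈ C1 z ∧ g • i = i ∧ g ^ 5 ∈ C (P i) := by
    obtain ⟨φ, -, hφ⟩ := h.aut i
    refine ⟨C1 z ⊓ ((powMonoidHom 5).comp φ).ker.map (stabilizer G i).subtype, fun g =>
      and_congr_right fun _ => ⟨?_, fun ⟨a, b⟩ => ⟨⟨g, a⟩, ?_, rfl⟩⟩⟩
    · rintro ⟨g, a, rfl⟩
      exact ⟨g.2, (hφ (g ^ 5)).1 ((map_pow φ g 5).trans a)⟩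
    · exact (map_pow φ _ 5).symm.trans ((hφ (⟨g, a⟩ ^ 5)).2 b)
  have hH : ∀ a ∈ N L ⊓ A, a ∉ (⊥ : Subgroup G) → ∀ g ∈ A, g * a * g⁻¹ ∈ N L ⊓ A →
      g ∈ N L ⊓ A := fun a ha a1 g hg e => by
    obtain ⟨g1, g2, -⟩ := (mA _).1 (inv_mem hg)
    obtain ⟨a2, a3, a4⟩ := (mA _).1 ha.2
    have := h.sb_ti hB hL (h.ml_cj hL g⁻¹) hz (mem_C1_iff_conj.1 g1 ▸ conj_mem_cj.2 hz) h2 hi
      (g2 ▸ h.on_smul.2 hi) a1 a2 a3 a4 ha.1 (by rw [← cj_N, mem_cj, inv_inv]; exact e.1)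
    exact ⟨(N L).inv_mem_iff.1 (CfsgFT.mem_N.2 this.symm), hg⟩
  obtain ⟨F, mF, sF⟩ := WF.wielandt (T := ⊥) bot_le
    (fun g _ t ht => by rw [mem_bot.1 ht, mul_one, mul_inv_cancel]; exact one_mem _)
    inf_le_right hH
  have n : Nrm (N L ⊓ A) F := fun e he x hx => (mF _).2
    ⟨Nrm.self A e he.2 x ((mF x).1 hx).1, fun g hg => by
      rw [show g * (e * x * e⁻¹) * g⁻¹ = g * e * x * (g * e)⁻¹ by group]
      exact ((mF x).1 hx).2 _ (mul_mem hg he.2)⟩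
  have b : F ⊓ (N L ⊓ A) = ⊥ := eq_bot_iff.2 fun x hx => by
    simpa using ((mF x).1 hx.1).2 1 (one_mem _) (by simpa using hx.2)
  have a1 : C (P i) ⊓ C1 z ≤ A := fun g hg => (mA g).2 ⟨hg.2, h.fix_C hg.1, pow_mem hg.1 5⟩
  obtain ⟨t, ht, t5, t1, t2⟩ := (hB L hL).tz z hz h2 i hi zi
  refine ⟨F, N L ⊓ A, fun x hx => ((mA x).1 ((mF x).1 hx).1).1, ?_, semiReg_iff.2 ?_, n,
    (h.sb_stab hB hL hz h2 hi).ge.trans (inf_le_inf_left _ a1), ?_, t, ht, t5, le_N _ ht,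
    (mA t).2 ⟨mem_C1.2 t2.symm, t1, by rw [← t5, pow_orderOf_eq_one]; exact one_mem _⟩⟩
  · rw [h.sb_ncard hB hL hz h2 hi zi a1 fun g hg => ⟨((mA g).1 hg).2.1, ((mA g).1 hg).1⟩,
      ← inf_relIndex_right, SDP.relIndex_right ⟨n, b, sF⟩]
  · exact fun e he e1 k hk c => b.le ⟨hk, hH e he e1 k ((mF k).1 hk).1
      (by rwa [c, mul_inv_cancel_right])⟩
  · rw [← Nat.not_even_iff_odd, even_iff_two_dvd]
    intro c
    obtain ⟨u, hu, u2⟩ := exists_mem_orderOf_eq Nat.prime_two c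
    have := ((mA u).1 hu.2).2.2
    rw [show u ^ 5 = u * u * (u * u) * u by simp only [pow_succ, pow_zero, one_mul, mul_assoc],
      sa_sq u2, one_mul, one_mul] at this
    exact sa_ne u2 (h.sb_kodd hB i u this (sa_sq u2))

theorem sb_frob (L : Subgroup G) (hL : ML P L) (z : G) (hz : z ∈ L) (h2 : orderOf z = 2) (i : Ω)
    (hi : P i ≤ L) (zi : z • i = i) :
    ∃ c : ℕ, 1 < c ∧ c % 5 = 1 ∧ c.Coprime (Nat.card (C L)) ∧
      {M | ML P M ∧ P i ≤ M ∧ z ∈ M}.ncard = c ∧ {j : Ω | z • j = j}.ncard = 1 + 11 * c ∧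
      Nat.card ↥(C (P i) ⊓ C1 z) = c * Nat.card (C L) ∧
      ∃ F ≤ C1 z, Nat.card F = c ∧ Group.IsNilpotent F := by
  obtain ⟨F, E, a, b, c, d, e, -, t, -, t5, tE⟩ := h.sb_key hB hL hz h2 hi zi
  have o := h.sb_one_lt hB hL hz h2 hi zi
  refine ⟨_, o, ?_, b ▸ (c.coprime d).coprime_dvd_right (card_dvd_of_le' e), rfl,
    h.sb_nfix hB h2 zi, ?_, F, a, b, c.nilpotent d (ne_bot_of tE fun e => by simp [e] at t5)⟩
  · have := (orderOf_dvd_card' tE).trans (c.card_dvd d)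
    rw [t5, b] at this
    omega
  · rw [h.sb_ncard hB hL hz h2 hi zi le_rfl (inf_le_inf_right _ fun g => h.fix_C), mul_comm,
      ← h.sb_stab hB hL hz h2 hi, card_inf_mul_relIndex]

theorem sb_Z (hL : ML P L) : ∃ E : Subgroup G, IsZGroup E ∧ C L ≤ E ∧ Odd (Nat.card E) ∧
    ∃ t ∈ L, orderOf t = 5 ∧ t ∈ E := by
  obtain ⟨z, hz, h2⟩ := exists_mem_orderOf_eq (X := L) Nat.prime_two
    (by rw [(hB L hL).card]; norm_num)
  obtain ⟨i, -, -⟩ := h.two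
  obtain ⟨i, -, hi, zi⟩ := h.sb_fix hB hL hz h2 i
  obtain ⟨F, E, -, b, c, d, e, f, g⟩ := h.sb_key hB hL hz h2 hi zi
  exact ⟨E, c.isZGroup d (one_lt_card.1 (b ▸ h.sb_one_lt hB hL hz h2 hi zi)) f, e, f, g⟩

theorem sb_five (hL : ML P L) : ¬ 5 ∣ Nat.card (C L) := fun c => by
  obtain ⟨E, a, b, -, t, ht, t5, tE⟩ := h.sb_Z hB hL
  obtain ⟨v, hv, v5⟩ := exists_mem_orderOf_eq Nat.prime_five c
  have p : ∀ {x : G}, orderOf x = 5 → IsPGroup 5 (zpowers x) := fun e =>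
    IsPGroup.of_card (n := 1) (by rw [Nat.card_zpowers, e, pow_one])
  have := eq_of_isCyclic_of_card_eq (isCyclic_of_isZGroup Nat.prime_five a
    (sup_le (zpowers_le.2 (b hv)) (zpowers_le.2 tE)) (isPGroup_sup Nat.prime_five (p v5) (p t5)
      (.inl (nrm_of_le_C (by rw [C_zpowers]; exact zpowers_le.2 (C_le_C1 ht hv))))))
    le_sup_left le_sup_right (by rw [Nat.card_zpowers, Nat.card_zpowers, v5, t5])
  have := h.inf_C hL.1 (hB L hL).cen ht (zpowers_le.2 hv (this ▸ mem_zpowers t))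
  simp [this] at t5

theorem sb_nc (hL : ML P L) (hM : ML P M) (hs : s ∈ L) (h3 : orderOf s = 3) (hw : w ∈ C L) :
    w * s ∉ C M := fun c => by
  have s1 : s ∉ C L := fun e => by simp [h.inf_C hL.1 (hB L hL).cen hs e] at h3
  obtain ⟨t, ht, t5, e⟩ := (hB L hL).three s hs h3
  have tM : t ∈ N M := h.C1_le_N hM (fun e : w * s = 1 => s1 ((mul_mem_cancel_left hw).1 (e ▸ one_mem _))) c
    (mem_C1_comm.1 (mul_mem (C_le_C1 ht hw) (mem_C1.2 e.symm)))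
  obtain ⟨i, -, -, hi, -, ti, -⟩ := (hB L hL).five t ht t5
  obtain ⟨a, b, ab, a1, b1, a2, b2⟩ : ∃ a b, a ≠ b ∧ P a ≤ M ∧ P b ≤ M ∧ t • a = a ∧ t • b = b := by
    by_cases e : t ∈ C M
    · obtain ⟨a, b, ab, a1, b1⟩ := hM.1.two
      exact ⟨a, b, ab, a1, b1, h.fix_W e a1, h.fix_W e b1⟩
    · obtain ⟨m, hm, v, hv, rfl, m5⟩ := FB.dec h.toGeo hM.1 (hB M hM) tM Nat.prime_five t5 e
      obtain ⟨a, b, ab, a1, b1, a2, b2⟩ := (hB M hM).five m hm m5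
      exact ⟨a, b, ab, a1, b1, (h.smul_W hv a1).trans a2, (h.smul_W hv b1).trans b2⟩
  have f := fun k => h.fix5 (k := k) hL t5 hi ti
    (h.sb_notC hB hL hi ht (by rw [t5]; norm_num)) (le_N _ ht)
  rw [h.uniq M L hM hL a b ab a1 b1 (f a a2) (f b b2)] at c
  exact s1 ((mul_mem_cancel_left hw).1 c)

theorem sb_three (hL : ML P L) : ¬ 3 ∣ Nat.card (C L) := fun c => by
  haveI := Fact.mk Nat.prime_three
  obtain ⟨E, a, b, o, -⟩ := h.sb_Z hB hL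
  obtain ⟨S, hS⟩ := exists_sylIn 3 (C L)
  have cS := isCyclic_of_isZGroup Nat.prime_three a (hS.le.trans b) hS.isPGroup
  obtain ⟨u, hu, u3⟩ := exists_mem_orderOf_eq (X := L) Nat.prime_three
    (by rw [(hB L hL).card]; norm_num)
  have i0 : L ⊓ C L = ⊥ := eq_bot_iff.2 fun x hx => h.inf_C hL.1 (hB L hL).cen hx.1 hx.2
  have LS : L ≤ C S := le_C_symm hS.le
  have d1 : DP S (zpowers u) (S ⊔ zpowers u) := dp_sup ((zpowers_le.2 hu).trans LS)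
    (eq_bot_iff.2 fun x hx => i0.le ⟨zpowers_le.2 hu hx.2, hS.le hx.1⟩)
  generalize S ⊔ zpowers u = U at d1
  have d2 : DP L (C L) (N L) := ⟨le_rfl, i0, le_antisymm (sup_le (le_N _) (C_le_N _)) fun g hg => by
    obtain ⟨m, hm, w, hw, rfl⟩ := (hB L hL).split g hg
    exact mul_mem_sup hm hw⟩
  have uL : U ≤ N L := d1.sup ▸ sup_le (hS.le.trans (C_le_N _)) (zpowers_le.2 (le_N _ hu))
  have key : ∀ x ∈ U, ∀ M, ML P M → x ∈ C M → x ∈ S := fun x hx M hM e => by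
    obtain ⟨s, hs, v, hv, rfl⟩ := d1.exists_mul hx
    by_cases v1 : v = 1
    · rwa [v1, mul_one]
    · exact absurd e (h.sb_nc hB hL hM (zpowers_le.2 hu hv) (orderOf_eq_prime (by
        rw [← u3, ← Nat.card_zpowers]
        exact orderOf_dvd_iff_pow_eq_one.1 (orderOf_dvd_card' hv)) v1) (hS.le hs))
  obtain ⟨s, hs, s1⟩ := ex_ne (hS.ne_bot Nat.prime_three c)
  have nU : N U ≤ N L := fun g hg => by
    have e : g * s * g⁻¹ ∈ C (cj g L) := cj_C g L ▸ conj_mem_cj.2 (hS.le hs)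
    exact CfsgFT.mem_N.2 (h.W_inf (h.ml_cj hL g) hL (conj_ne_one g s1) e
      (hS.le (key _ (conj_mem_of_mem_N hg (d1.left_le hs)) _ (h.ml_cj hL g) e)))
  have sU : SylIn 3 U (N L) := by
    refine sylIn_of_not_dvd uL ?_ fun e => hS.not_dvd_relIndex ?_
    · rw [← d1.sup]
      exact isPGroup_sup Nat.prime_three hS.isPGroup
        (IsPGroup.of_card (n := 1) (by rw [Nat.card_zpowers, u3, pow_one])) (.inr d1.sdp.nrm)
    have e1 := card_mul_relIndex uL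
    rw [← d1.card, ← d2.card, ← card_mul_relIndex hS.le, Nat.card_zpowers, u3, (hB L hL).card,
      mul_assoc] at e1
    have := Nat.eq_of_mul_eq_mul_left (card_pos S) (e1.trans (mul_left_comm _ _ _))
    omega
  have := ((sylIn_of_sylIn_N (M := ⊤) Nat.prime_three (sU.of_le (le_inf le_top (le_N U))
    (inf_le_right.trans nU))).dp_of_ab Nat.prime_three
    (d1.ab (ab_of_isCyclic cS) (ab_zpowers u))).inf
  rw [D_top, h.perf] at this
  refine s1 (this.le ⟨⟨d1.left_le hs, trivial⟩, d1.left_le hs, le_C_symm (fun g hg => ?_) hs⟩)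
  obtain ⟨m, hm, w, hw, rfl⟩ := (hB L hL).split g (nU hg.2)
  refine mul_mem (LS hm) (hS.inf_N_le_C_of_isCyclic Nat.prime_three cS (fun q hq e e' => ?_)
    ⟨hw, mem_N_of_conj fun x hx => ?_⟩)
  · rw [(Nat.prime_dvd_prime_iff_eq hq Nat.prime_two).1 e'] at e
    exact (odd_of_le o b).not_two_dvd_nat e
  · have e := Nrm.self _ w hw x (hS.le hx)
    refine key _ ?_ L hL e
    have := conj_mem_of_mem_N hg.2 (d1.left_le hx)
    rwa [show m * w * x * (m * w)⁻¹ = m * (w * x * w⁻¹) * m⁻¹ by group,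
      (comm_of_C hm e).eq, mul_inv_cancel_right] at this

theorem sb : SB G Ω P where
  toLS := h
  fb := hB
  w30 L hL := by
    obtain ⟨E, -, b, o, -⟩ := h.sb_Z hB hL
    exact Nat.Coprime.mul_right (Nat.Coprime.mul_right (odd_of_le o b).coprime_two_right
      ((Nat.prime_three.coprime_iff_not_dvd.2 (h.sb_three hB hL)).symm))
      (Nat.prime_five.coprime_iff_not_dvd.2 (h.sb_five hB hL)).symm
  mem := h.sb_mem hB
  kodd := h.sb_kodd hB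
  ztr := h.sb_ztr hB
  frob := h.sb_frob hB

end LS

end CfsgJ
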