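import Mathlib
import Cfsg.Agent.H6.Derang

set_option autoImplicit false
set_option linter.style.haveILetI false

namespace CfsgH5

open MulAction

variable {G Ω : Type*} [Group G] [MulAction G Ω]

/-- No non-identity element fixes three distinct points. -/
def NoThree (G Ω : Type*) [Group G] [MulAction G Ω] : Prop :=
  ∀ (g : G) (a b c : Ω), a ≠ b → a ≠ c → b ≠ c → g • a = a → g • b = b → g • c = c → g = 1

theorem noThree_of_card_le [Finite Ω]
    (hfix : ∀ g : G, g ≠ 1 → Nat.card (fixedBy Ω g) ≤ 2) : NoThree G Ω := by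
  intro g a b c hab hac hbc ha hb hc
  by_contra hg
  have h := hfix g hg
  have h3 : ({a, b, c} : Set Ω) ⊆ fixedBy Ω g := by
    intro x hx
    simp only [Set.mem_insert_iff, Set.mem_singleton_iff] at hx
    rcases hx with rfl | rfl | rfl <;> assumption
  have h4 := Set.ncard_le_ncard h3 (Set.toFinite _)
  rw [Set.ncard_eq_three.mpr ⟨a, b, c, hab, hac, hbc, rfl⟩] at h4
  have : Nat.card (fixedBy Ω g) = (fixedBy Ω g).ncard := rfl
  omega

theorem sum_fixedBy_orbit [Fintype G] [Finite Ω] (β : Ω) :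
    ∑ g : G, Nat.card (fixedBy (orbit G β) g) = Nat.card G := by
  haveI : Nonempty (orbit G β) := ⟨⟨β, mem_orbit_self β⟩⟩
  rw [CfsgH6.burnside_nat, CfsgH6.card_orbit_quotient_eq_one inferInstance, one_mul]

theorem two_mul_card_orbit_le [Finite G] {β : Ω} {x : G} (hx : x ≠ 1) (hxβ : x • β = β) :
    2 * Nat.card (orbit G β) ≤ Nat.card G := by
  have h1 : Nat.card (orbit G β) * Nat.card (stabilizer G β) = Nat.card G := by
    rw [← Nat.card_prod]
    exact Nat.card_congr (orbitProdStabilizerEquivGroup G β)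
  have h2 : 2 ≤ Nat.card (stabilizer G β) := by
    haveI : Nontrivial (stabilizer G β) := ⟨⟨x, hxβ⟩, 1, fun h => hx (congrArg Subtype.val h)⟩
    exact Finite.one_lt_card
  rw [← h1, mul_comm]
  exact Nat.mul_le_mul_left _ h2

/-- If every non-identity element of `H` fixes at most one point of the `H`-invariant set
`{ω | P ω}`, then there is at most one non-regular orbit. -/
theorem mem_orbit_of_fix_aux {H : Type*} [Group H] [MulAction H Ω] [Finite H] [Finite Ω]
    {β γ : Ω} {x y : H} (hx : x ≠ 1) (hxβ : x • β = β) (hy : y ≠ 1) (hyγ : y • γ = γ)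
    (h2 : ∀ (h : H) (b c : Ω), (b ∈ orbit H β ∨ b ∈ orbit H γ) → (c ∈ orbit H β ∨ c ∈ orbit H γ) →
      b ≠ c → h • b = b → h • c = c → h = 1) : γ ∈ orbit H β := by
  classical
  by_contra hne
  haveI := Fintype.ofFinite H
  have hdisj : ∀ b, b ∈ orbit H β → b ∉ orbit H γ := by
    intro b hb hc
    apply hne
    rw [← orbit_eq_iff.mpr hb, orbit_eq_iff.mpr hc]
    exact mem_orbit_self γ
  have e1 := sum_fixedBy_orbit (G := H) β
  have e2 := sum_fixedBy_orbit (G := H) γ
  have l1 := two_mul_card_orbit_le hx hxβ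
  have l2 := two_mul_card_orbit_le hy hyγ
  have key : ∀ h : H, h ≠ 1 →
      Nat.card (fixedBy (orbit H β) h) + Nat.card (fixedBy (orbit H γ) h) ≤ 1 := by
    intro h hh
    rw [← Nat.card_sum, Finite.card_le_one_iff_subsingleton]
    constructor
    rintro (⟨⟨b, hb⟩, hb'⟩ | ⟨⟨b, hb⟩, hb'⟩) (⟨⟨c, hc⟩, hc'⟩ | ⟨⟨c, hc⟩, hc'⟩)
    · have : b = c := by
        by_contra hbc
        exact hh (h2 h b c (Or.inl hb) (Or.inl hc) hbc (congrArg Subtype.val hb')
          (congrArg Subtype.val hc'))
      subst this; rfl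
    · exact absurd (h2 h b c (Or.inl hb) (Or.inr hc) (fun e => hdisj b hb (e ▸ hc))
        (congrArg Subtype.val hb') (congrArg Subtype.val hc')) hh
    · exact absurd (h2 h b c (Or.inr hb) (Or.inl hc) (fun e => hdisj c hc (e ▸ hb))
        (congrArg Subtype.val hb') (congrArg Subtype.val hc')) hh
    · have : b = c := by
        by_contra hbc
        exact hh (h2 h b c (Or.inr hb) (Or.inr hc) hbc (congrArg Subtype.val hb')
          (congrArg Subtype.val hc'))
      subst this; rfl
  have hsum : ∑ h : H, (Nat.card (fixedBy (orbit H β) h) + Nat.card (fixedBy (orbit H γ) h))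
      = 2 * Nat.card H := by
    rw [Finset.sum_add_distrib, e1, e2]; ring
  rw [← Finset.add_sum_erase _ _ (Finset.mem_univ (1 : H))] at hsum
  have hle : ∑ h ∈ Finset.univ.erase (1 : H),
      (Nat.card (fixedBy (orbit H β) h) + Nat.card (fixedBy (orbit H γ) h))
      ≤ ∑ h ∈ Finset.univ.erase (1 : H), 1 :=
    Finset.sum_le_sum (fun h hh => key h (Finset.ne_of_mem_erase hh))
  rw [Finset.sum_const, Finset.card_erase_of_mem (Finset.mem_univ _), Finset.card_univ,
    ← Nat.card_eq_fintype_card, smul_eq_mul, mul_one] at hle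
  have f1 : Nat.card (fixedBy (orbit H β) (1 : H)) ≤ Nat.card (orbit H β) :=
    Finite.card_subtype_le _
  have f2 : Nat.card (fixedBy (orbit H γ) (1 : H)) ≤ Nat.card (orbit H γ) :=
    Finite.card_subtype_le _
  have : 0 < Nat.card H := Nat.card_pos
  omega

/-- With fixity at most two, a point stabilizer has at most one non-regular orbit on the other
points. -/
theorem NoThree.exists_smul_eq [Finite G] [Finite Ω] (h3 : NoThree G Ω) {α β γ : Ω}
    (hβ : β ≠ α) (hγ : γ ≠ α) {x y : G} (hx : x ≠ 1) (hxα : x • α = α) (hxβ : x • β = β)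
    (hy : y ≠ 1) (hyα : y • α = α) (hyγ : y • γ = γ) : ∃ h : G, h • α = α ∧ h • β = γ := by
  have hne : ∀ (δ : Ω), δ ≠ α → ∀ b ∈ orbit (stabilizer G α) δ, α ≠ b := by
    rintro δ hδ b ⟨⟨k, hk⟩, rfl⟩ e
    apply hδ
    have e' : k • α = k • δ := (mem_stabilizer_iff.mp hk).trans e
    exact (smul_left_cancel k e').symm
  obtain ⟨⟨h, hh⟩, hh'⟩ := mem_orbit_of_fix_aux (H := stabilizer G α) (β := β) (γ := γ)
    (x := ⟨x, hxα⟩) (y := ⟨y, hyα⟩) (fun e => hx (congrArg Subtype.val e)) hxβ
    (fun e => hy (congrArg Subtype.val e)) hyγ (by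
      intro h b c hb hc hbc hhb hhc
      apply Subtype.ext
      refine h3 h α b c ?_ ?_ hbc h.2 hhb hhc
      · rcases hb with hb | hb
        · exact hne β hβ b hb
        · exact hne γ hγ b hb
      · rcases hc with hc | hc
        · exact hne β hβ c hc
        · exact hne γ hγ c hc)
  exact ⟨h, hh, hh'⟩

/-- With fixity at most two in a transitive group, two points fixed by a non-identity element are
interchanged by some group element. -/
theorem NoThree.exists_swap [Finite G] [Finite Ω] [IsPretransitive G Ω] (h3 : NoThree G Ω)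
    {α β : Ω} (hβ : β ≠ α) {x : G} (hx : x ≠ 1) (hxα : x • α = α) (hxβ : x • β = β) :
    ∃ g : G, g • α = β ∧ g • β = α := by
  obtain ⟨u, hu⟩ := MulAction.exists_smul_eq G α β
  obtain ⟨h, h1, h2⟩ := h3.exists_smul_eq (α := α) (β := β) (γ := u⁻¹ • α) hβ (by
      intro e
      apply hβ
      rw [inv_smul_eq_iff] at e
      rw [← hu, ← e]) hx hxα hxβ (y := u⁻¹ * x * u) (by
      intro e
      apply hx
      have : x = u * (u⁻¹ * x * u) * u⁻¹ := by group
      rw [this, e]; group)
    (by rw [mul_smul, mul_smul, hu, hxβ, ← hu, inv_smul_smul])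
    (by rw [mul_smul, mul_smul, smul_inv_smul, hxα])
  exact ⟨u * h, by rw [mul_smul, h1, hu], by rw [mul_smul, h2, smul_inv_smul]⟩

end CfsgH5
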