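import Cfsg.Agent.H3.JBase
import Cfsg.Agent.H5.Der2
import Cfsg.Agent.H1.Q4Base

set_option autoImplicit false
set_option linter.unusedSectionVars false

/-! S3403, piece (SA): all maximal lines of type `A`; orders and involutions. -/

namespace CfsgJ

open CfsgH5 CfsgH6 CfsgFT Subgroup CfsgH1.Q4 CfsgH5.Der MulAction

universe u

variable {G Ω : Type u} [Group G] [Finite G] [MulAction G Ω] [Finite Ω] {P : Ω → Subgroup G}
  {L M : Subgroup G} {i j k : Ω} {s w : G}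

theorem sa_sign (hL : ⁅L, L⁆ = L) (hs : s ∈ L) (h2 : s * s = 1) (h0 : s • k = k)
    (h1 : ∀ x : Ω, s • x = x → x = k) : (orbit L k).ncard % 4 ≠ 3 := fun c => by
  classical
  letI := Fintype.ofFinite (orbit L k)
  let χ : L →* ℤˣ := Equiv.Perm.sign.comp (toPermHom L (orbit L k))
  have e : χ ⟨s, hs⟩ = 1 := by
    obtain ⟨a, ha, e⟩ := (D_eq_map_commutator L).le (hL.ge hs)
    rw [← show a = ⟨s, hs⟩ from Subtype.ext e]
    exact Abelianization.commutator_subset_ker χ ha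
  change Equiv.Perm.sign (toPermHom L (orbit L k) ⟨s, hs⟩) = 1 at e
  rw [Equiv.Perm.sign_of_pow_two_eq_one (by
    rw [← map_pow, show (⟨s, hs⟩ : L) ^ 2 = 1 from Subtype.ext ((sq s).trans h2),
      map_one])] at e
  have : Fintype.card (Function.fixedPoints (toPermHom L (orbit L k) ⟨s, hs⟩)) = 1 :=
    Fintype.card_eq_one_iff.2 ⟨⟨⟨k, mem_orbit_self k⟩, Subtype.ext h0⟩, fun x =>
      Subtype.ext (Subtype.ext (h1 _ (congrArg Subtype.val x.2)))⟩
  rw [this, ← Nat.card_eq_fintype_card, Nat.card_coe_set_eq, Odd.neg_one_pow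
    (Nat.odd_iff.2 (by omega))] at e
  exact absurd e (by decide)

theorem sa_ord2 (h2 : s * s = 1) (h1 : s ≠ 1) : orderOf s = 2 :=
  orderOf_eq_prime (by rwa [sq]) h1

theorem sa_sq (h : orderOf s = 2) : s * s = 1 := by rw [← sq, ← h, pow_orderOf_eq_one]

theorem sa_ne (h : orderOf s = 2) : s ≠ 1 := fun e => by simp [e] at h

namespace LS

variable (h : LS G Ω P) (hA : ∀ L, ML P L → FA P L)
include h hA

theorem sa_ktr2 (i j k : Ω) (hj : j ≠ i) (hk : k ≠ i) : ∃ g ∈ C (P i), g • j = k := by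
  obtain ⟨L, hL, a1, a2⟩ := h.ex i j hj.symm
  obtain ⟨M, hM, b1, b2⟩ := h.ex i k hk.symm
  obtain ⟨c, hc, e⟩ := h.ktr L M hL hM i a1 b1
  obtain ⟨x, hx, e1⟩ := (hA M hM).reg i (c • j) k b1 (e ▸ h.on_smul.2 a2) b2
    (fun f => hj (smul_left_cancel c (f.trans (h.fix_C hc).symm))) hk
  exact ⟨x * c, mul_mem (h.ab i hx) hc, by rw [mul_smul, e1]⟩

theorem sa_stab (hL : ML P L) (hij : i ≠ j) (hi : P i ≤ L) (hj : P j ≤ L) :
    stabilizer G j ⊓ C (P i) = C L :=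
  le_antisymm (fun _ a => h.star hL hij hi hj a.2 a.1)
    fun _ a => ⟨h.fix_W a hj, C_anti hi a⟩

theorem sa_cardK (L : Subgroup G) (hL : ML P L) (i : Ω) :
    Nat.card (C (P i)) = (Nat.card Ω - 1) * Nat.card (C L) := by
  obtain ⟨j, hj, -⟩ := hL.1.two' i
  obtain ⟨M, hM, a1, a2⟩ := h.ex i j hj.symm
  obtain ⟨g, rfl⟩ := h.conj hL hM
  have e : orbit (C (P i)) j = {i}ᶜ := Set.ext fun k => mem_orb.trans
    ⟨fun ⟨c, hc, e⟩ f => hj (smul_left_cancel c (e.trans (Eq.trans f (h.fix_C hc).symm))),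
      fun hk => h.sa_ktr2 hA i j k hj hk⟩
  rw [← card_inf_mul_relIndex (stabilizer G j), h.sa_stab hA hM hj.symm a1 a2, ← ncard_orbit, e,
    ← cj_C, card_cj, mul_comm, Set.ncard_compl, Set.ncard_singleton]

theorem sa_big : 12 < Nat.card Ω := by
  obtain ⟨i, j, hij⟩ := h.two
  obtain ⟨L, hL, -⟩ := h.ex i j hij
  obtain ⟨k, hk⟩ := h.off L hL
  rw [← (hA L hL).npts, ← Set.ncard_univ]
  exact Set.ncard_lt_ncard ⟨Set.subset_univ _, fun c => hk (c (Set.mem_univ k))⟩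

theorem sa_m11 : Nat.card Ω % 11 = 1 := by
  obtain ⟨i, -, -⟩ := h.two
  obtain ⟨x, h1, -, e⟩ := h.exP i
  have hx : x ∈ P i := e ▸ mem_zpowers x
  have := card_modEq (Ω := Ω) (by norm_num : Nat.Prime 11) (h.pow11 hx)
  rwa [show Fx Ω x = {i} from Set.eq_singleton_iff_unique_mem.2
    ⟨h.fix_P hx, fun j => h.semireg hx h1⟩, Set.ncard_singleton] at this

theorem sa_notC (hL : ML P L) (hi : P i ≤ L) (hs : s ∈ L) (h5 : orderOf s = 5) : s ∉ C (P i) :=
  fun c => by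
    have := orderOf_dvd_card' (((hA L hL).cen i hi).le ⟨hs, c⟩)
    rw [h5, h.card] at this
    norm_num at this

theorem sa_m5 : Nat.card Ω % 5 = 2 := by
  obtain ⟨i, j, hij⟩ := h.two
  obtain ⟨L, hL, hi, hj⟩ := h.ex i j hij
  obtain ⟨t, ht, t5, t1, t2, -⟩ := (hA L hL).tor i j hij hi hj
  have c := h.sa_notC hA hL hi ht t5
  have := card_modEq (Ω := Ω) (g := t) (by norm_num : Nat.Prime 5)
    (by rw [← t5, pow_orderOf_eq_one])
  rwa [show Fx Ω t = {i, j} from Set.ext fun k => ⟨fun hk => (em (k = i)).imp_right fun e =>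
    ((hA L hL).fix2 t (le_N _ ht) i hi t1 c).unique
      ⟨h.fix5 hL t5 hi t1 c (le_N _ ht) hk, e, hk⟩ ⟨hj, hij.symm, t2⟩,
    by rintro (rfl | rfl); exacts [t1, t2]⟩, Set.ncard_pair hij] at this

theorem sa_even : Even (Nat.card Ω) := by
  by_contra o
  rw [Nat.not_even_iff_odd, Nat.odd_iff] at o
  obtain ⟨i, j, hij⟩ := h.two
  obtain ⟨L, hL, hi, hj⟩ := h.ex i j hij
  have f := hA L hL
  obtain ⟨-, -, -, -, -, -, a, ha, a2, -⟩ := f.tor i j hij hi hj
  obtain ⟨b, hb, b2, ba, ab⟩ := f.four a ha a2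
  have p : ∀ {x : G}, orderOf x = 2 → IsPGroup 2 (zpowers x) := fun e =>
    IsPGroup.of_card (n := 1) (by rw [Nat.card_zpowers, e, pow_one])
  obtain ⟨k, -, hk⟩ := exists_fix (Φ := (Set.univ : Set Ω)) Nat.prime_two
    (isPGroup_sup Nat.prime_two (p a2) (p b2) (.inl (nrm_of_le_C (by
      rw [C_zpowers]; exact zpowers_le.2 (mem_C1.2 ab))))) (fun _ _ _ _ => trivial)
    (by rw [Set.ncard_univ]; omega)
  have ak : a ∈ stabilizer G k := hk (mem_sup_left (mem_zpowers a))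
  have bk : b ∈ stabilizer G k := hk (mem_sup_right (mem_zpowers b))
  obtain ⟨s, hs, s2, sC⟩ : ∃ s ∈ L, orderOf s = 2 ∧ s ∈ C (P k) := by
    obtain ⟨φ, -, hφ⟩ := h.aut k
    haveI := Fact.mk (by norm_num : Nat.Prime 11)
    have q : ∀ x : stabilizer G k, orderOf x.1 = 2 → φ x = 1 ∨ φ x = -1 := fun x e => by
      rw [← Units.val_inj, ← Units.val_inj, Units.val_one, Units.val_neg, Units.val_one,
        ← mul_self_eq_one_iff, ← Units.val_mul, ← map_mul,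
        show x * x = 1 from Subtype.ext (sa_sq e), map_one, Units.val_one]
    rcases q ⟨a, ak⟩ a2 with e | e
    · exact ⟨a, ha, a2, (hφ _).1 e⟩
    rcases q ⟨b, bk⟩ b2 with e' | e'
    · exact ⟨b, hb, b2, (hφ _).1 e'⟩
    refine ⟨a * b, mul_mem ha hb, sa_ord2 ?_ fun c => ba ?_,
      (hφ (⟨a, ak⟩ * ⟨b, bk⟩)).1 (by rw [map_mul, e, e']; simp)⟩
    · calc _ = a * (b * a) * b := by group
        _ = a * a * (b * b) := by rw [← ab]; group
        _ = 1 := by rw [sa_sq a2, sa_sq b2, mul_one]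
    · exact mul_left_cancel (c.trans (sa_sq a2).symm)
  have sk := h.fix_C sC
  have u : ∀ x : Ω, s • x = x → x = k := fun x hx => by
    by_contra c
    obtain ⟨M, hM, m1, m2⟩ := h.ex k x (Ne.symm c)
    have sM := h.star hM (Ne.symm c) m1 m2 sC hx
    have := card_modEq (Ω := Ω) (g := s) Nat.prime_two (by rw [sq, sa_sq s2])
    rw [show Fx Ω s = {i | P i ≤ M} from Set.ext fun y =>
      ⟨h.wfix M hM s sM (sa_ne s2) y, h.fix_W sM⟩, (hA M hM).npts, Nat.ModEq] at this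
    omega
  have kL : ¬ P k ≤ L := fun c => sa_ne s2 (f.fpf s hs (sa_sq s2) k c sk)
  have d1 : (orbit L k).ncard ∣ 55 := by
    rw [ncard_orbit, ← f.ninv, show {s | s ∈ L ∧ orderOf s = 2} = clSupp {s} L from Set.ext
      fun y => ⟨fun a => by
        obtain ⟨g, hg, e⟩ := f.cls s hs y a.1 s2 a.2
        exact ⟨s, rfl, g, hg, e.symm⟩, by
        rintro ⟨_, rfl, g, hg, rfl⟩
        exact ⟨Nrm.self L g hg _ hs, ((MulAut.conj g).orderOf_eq _).trans s2⟩⟩, ncard_cl]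
    exact relIndex_dvd_of_le_left _ fun g hg => u _ (by
      rw [← mul_smul, ← mem_C1.1 hg, mul_smul, sk])
  have d2 : 11 ∣ (orbit L k).ncard := h.card i ▸ card_dvd_of_free
    (fun e he x hx => by
      obtain ⟨g, hg, rfl⟩ := mem_orb.1 hx
      exact mem_orb.2 ⟨e * g, mul_mem (hi he) hg, mul_smul _ _ _⟩)
    fun e he x hx c => by
      by_contra e1
      obtain ⟨g, hg, rfl⟩ := mem_orb.1 hx
      exact kL ((h.on_mem hg).1 (h.semireg he e1 c ▸ hi))
  have d3 := sa_sign f.perf hs (sa_sq s2) sk u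
  have d4 := Nat.le_of_dvd (by norm_num) d1
  obtain ⟨m, hm⟩ := d2
  rw [hm] at d1 d3 d4
  have : m ≤ 5 := by omega
  interval_cases m <;> omega

theorem sa_notN (L : Subgroup G) (hL : ML P L) (s : G) (hs : s ∈ L) (h2 : s * s = 1) (i : Ω)
    (hi : s • i = i) : s ∈ C (P i) := by
  by_contra c
  have s2 := sa_ord2 h2 fun e => c (e ▸ one_mem _)
  obtain ⟨j, hj, ji⟩ : ∃ j : Ω, s • j = j ∧ j ≠ i := by
    by_contra! e
    have := card_modEq (Ω := Ω) (g := s) Nat.prime_two (by rwa [sq])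
    rw [show Fx Ω s = {i} from Set.eq_singleton_iff_unique_mem.2 ⟨hi, e⟩, Set.ncard_singleton,
      Nat.ModEq] at this
    have := Nat.even_iff.1 (h.sa_even hA)
    omega
  obtain ⟨M, hM, m1, m2⟩ := h.ex i j ji.symm
  obtain ⟨v, -, v4, vM⟩ := (hA M hM).ord4 s
    (h.mem_N hM ji.symm m1 m2 (by rwa [hi]) (by rwa [hj])) h2 i m1 hi c
  obtain ⟨b, hb⟩ : ∃ b, b = s * v := ⟨_, rfl⟩
  rw [← hb] at v4 vM
  obtain ⟨g, rfl⟩ := h.conj hL hM
  obtain ⟨m, -, e⟩ := (hA _ hM).cls _ (conj_mem_cj.2 hs) _ vM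
    (((MulAut.conj g).orderOf_eq _).trans s2) (by rw [orderOf_pow' _ two_ne_zero, v4]; rfl)
  have b1 : b ^ 2 • m • g • i = m • g • i := by
    rw [← e]; simp only [mul_smul, inv_smul_smul, hi]
  have b2 : b ^ 2 ∉ C (P (m • g • i)) := fun c1 => c (by
    have := h.conj_mem_C c1 (m * g)⁻¹
    rwa [← e, ← mul_smul m, inv_smul_smul, show (m * g)⁻¹ * (m * (g * s * g⁻¹) * m⁻¹) *
      (m * g)⁻¹⁻¹ = s by group] at this)
  generalize m • g • i = k at b1 b2
  have b4 : b ^ 4 = 1 := by rw [← v4, pow_orderOf_eq_one]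
  by_cases e1 : b • k = k
  · refine b2 ?_
    have := h.pow10 e1
    rwa [show b ^ 10 = (b ^ 4) ^ 2 * b ^ 2 by group, b4, one_pow, one_mul] at this
  obtain ⟨R, hR, r1, r2⟩ := h.ex k (b • k) (Ne.symm e1)
  obtain ⟨x, hx, y, hy, e2⟩ := (hA R hR).sq b (h.mem_N hR (Ne.symm e1) r1 r2 r2
    (by rwa [← mul_smul, ← sq, b1]))
  have xy := mem_C.1 hy x hx
  have x2 : x * x = 1 := h.inf_C hR.1 (hA R hR).cen (mul_mem hx hx) (by
    rw [eq_inv_of_mul_eq_one_left (show x * x * (y * y) = 1 by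
      calc _ = x * (x * y) * y := by group
        _ = x * (y * x) * y := by rw [xy]
        _ = x * y * (x * y) := by group
        _ = 1 := by rw [← e2, ← b4, ← sq, ← sq, ← pow_mul])]
    exact inv_mem (mul_mem hy hy))
  rw [sq, e2] at b1 b2
  rw [mul_smul, h.fix_W hy r1] at b1
  rw [(hA R hR).fpf x hx x2 k r1 b1, one_mul] at b2
  exact b2 (C_anti r1 hy)

end LS

end CfsgJ
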