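import Cfsg.Agent.H3.JG
import Cfsg.Agent.H5.JSA1

set_option autoImplicit false
set_option linter.unusedSectionVars false

/-! S3403, piece (SB): all maximal lines of type `B`; involutions. -/

namespace CfsgJ

open CfsgH5 CfsgH6 CfsgFT Subgroup CfsgH1.Q4 CfsgH5.Der MulAction

universe u

variable {G Ω : Type u} [Group G] [Finite G] [MulAction G Ω] [Finite Ω] {P : Ω → Subgroup G}
  {L M : Subgroup G} {i j k : Ω} {s w z : G}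

theorem sb_ncj (H X : Subgroup G) : {Y | ∃ g ∈ H, cj g X = Y}.ncard = (N X).relIndex H := by
  letI : MulAction G (Subgroup G) :=
    { smul := cj, one_smul := cj_one, mul_smul := fun a b X => (cj_cj a b X).symm }
  rw [show N X = stabilizer G X from Subgroup.ext fun _ => mem_N, ← ncard_orbit]
  exact congrArg _ (Set.ext fun _ => mem_orb.symm)

namespace LS

variable (h : LS G Ω P) (hB : ∀ L, ML P L → FB P L)
include h hB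

theorem sb_notC (hL : ML P L) (hi : P i ≤ L) (hs : s ∈ L) (h1 : ¬ orderOf s ∣ 11) :
    s ∉ C (P i) := fun c => h1 (h.card i ▸ orderOf_dvd_card' (((hB L hL).cen i hi).le ⟨hs, c⟩))

theorem sb_fix (hL : ML P L) (hz : z ∈ L) (h2 : orderOf z = 2) (i : Ω) :
    ∃ j, j ≠ i ∧ P j ≤ L ∧ z • j = j := by
  obtain ⟨j, a, b⟩ := Set.exists_ne_of_one_lt_ncard
    (by rw [(hB L hL).fixz z hz h2]; norm_num : 1 < {i | P i ≤ L ∧ z • i = i}.ncard) i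
  exact ⟨j, b, a⟩

theorem sb_sw (hs : s * s = 1) (hk : s • k ≠ k) : ∃ M, ML P M ∧ P k ≤ M ∧ s ∈ N M := by
  obtain ⟨M, hM, m1, m2⟩ := h.ex k (s • k) hk.symm
  exact ⟨M, hM, m1, h.mem_N hM hk.symm m1 m2 m2 (by rwa [← mul_smul, hs, one_smul])⟩

theorem sb_wodd (hL : ML P L) (hw : w ∈ C L) (h2 : w * w = 1) : w = 1 := by
  by_contra h1
  obtain ⟨k, hk⟩ := h.off L hL
  have e : w • k ≠ k := fun e => hk (h.wfix L hL w hw h1 k e)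
  obtain ⟨M, hM, m1, m2⟩ := h.sb_sw hB h2 e
  obtain ⟨m, hm, c, hc, e1, e2⟩ := FB.dec h.toGeo hM.1 (hB M hM) m2 Nat.prime_two (sa_ord2 h2 h1)
    fun c => e (h.fix_W c m1)
  obtain ⟨r, -, r1, r2⟩ := h.sb_fix hB hM hm e2 k
  refine h.sb_notC hB hM r1 hm (by rw [e2]; norm_num) ?_
  rw [eq_mul_inv_of_mul_eq e1.symm]
  exact mul_mem (C_anti (h.wfix L hL w hw h1 r (by rw [e1, h.smul_W hc r1, r2])) hw)
    (inv_mem (C_anti r1 hc))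

theorem sb_mem (L : Subgroup G) (hL : ML P L) (u : G) (hu : u ∈ N L) (h2 : u * u = 1) :
    u ∈ L := by
  obtain ⟨m, hm, w, hw, rfl⟩ := (hB L hL).split u hu
  have e : m * m * (w * w) = 1 := by rw [← h2, (comm_of_C hm hw).symm.mul_mul_mul_comm]
  rwa [h.sb_wodd hB hL hw (h.inf_C hL.1 (hB L hL).cen (by
    rw [eq_inv_of_mul_eq_one_right e]; exact inv_mem (mul_mem hm hm)) (mul_mem hw hw)), mul_one]

theorem sb_in (hs : s * s = 1) (hk : s • k ≠ k) : ∃ M, ML P M ∧ P k ≤ M ∧ s ∈ M := by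
  obtain ⟨M, hM, m1, m2⟩ := h.sb_sw hB hs hk
  exact ⟨M, hM, m1, h.sb_mem hB M hM s m2 hs⟩

theorem sb_kodd (i : Ω) (u : G) (hu : u ∈ C (P i)) (h2 : u * u = 1) : u = 1 := by
  by_contra h1
  obtain ⟨k, hk⟩ := not_forall.1 fun c => h1 (h.faithful c)
  obtain ⟨M, hM, -, m⟩ := h.sb_in hB h2 hk
  obtain ⟨r, r0, -, r2⟩ := h.sb_fix hB hM m (sa_ord2 h2 h1) i
  obtain ⟨L, hL, a, b⟩ := h.ex i r r0.symm
  exact h1 (h.sb_wodd hB hL (h.star hL r0.symm a b hu r2) h2)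

theorem sb_ztr (L M : Subgroup G) (hL : ML P L) (hM : ML P M) (z : G) (hz : z ∈ L) (hz' : z ∈ M)
    (h2 : orderOf z = 2) (i : Ω) (hi : P i ≤ L) (hi' : P i ≤ M) (zi : z • i = i) :
    ∃ k ∈ C (P i), k * z = z * k ∧ cj k L = M := by
  obtain ⟨k, hk, e⟩ := h.ktr L M hL hM i hi hi'
  obtain ⟨p, hp, e1⟩ := (hB M hM).clsP i hi' _ (e ▸ conj_mem_cj.2 hz) z hz'
    ((orderOf_conj' k z).trans h2) h2
    (by rw [mul_smul, mul_smul, h.fix_C (inv_mem hk), zi, h.fix_C hk]) zi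
  refine ⟨p * k, mul_mem (h.ab i hp) hk, mem_C1.1 (mem_C1_iff_conj.2 ?_),
    by rw [← cj_cj, e, cj_self (hi' hp)]⟩
  rw [← e1]; nth_rewrite 2 [← e1]; group

theorem sb_stab (hL : ML P L) (hz : z ∈ L) (h2 : orderOf z = 2) (hi : P i ≤ L) :
    N L ⊓ (C (P i) ⊓ C1 z) = C L := by
  refine le_antisymm (fun k ⟨a, b, c⟩ => ?_) fun k a => ⟨C_le_N _ a, C_anti hi a, C_le_C1 hz a⟩
  obtain ⟨p, hp, w, hw, rfl⟩ := h.b L hL i hi k b a
  by_cases e : p = 1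
  · rwa [e, one_mul]
  refine absurd ?_ (h.sb_notC hB hL hi hz (by rw [h2]; norm_num))
  rw [h.eq_zpowers hp e, C_zpowers, mem_C1_comm]
  exact (mul_mem_cancel_right (C_le_C1 hz hw)).1 c

theorem sb_line (h2 : orderOf z = 2) (zi : z • i = i) (zj : z • j = j) (hij : i ≠ j) :
    ∃ M, (ML P M ∧ P i ≤ M ∧ z ∈ M) ∧ P j ≤ M := by
  obtain ⟨M, hM, a, b⟩ := h.ex i j hij
  exact ⟨M, ⟨hM, a, h.sb_mem hB M hM z (h.mem_N hM hij a b (by rwa [zi]) (by rwa [zj]))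
    (sa_sq h2)⟩, b⟩

theorem sb_nfix (h2 : orderOf z = 2) (zi : z • i = i) :
    {j : Ω | z • j = j}.ncard = 1 + 11 * {M | ML P M ∧ P i ≤ M ∧ z ∈ M}.ncard := by
  have a : ∀ M ∈ {M | ML P M ∧ P i ≤ M ∧ z ∈ M},
      {j | j ∈ {j : Ω | z • j = j} \ {i} ∧ P j ≤ M}.ncard = 11 := fun M hM => by
    have := Set.ncard_diff_singleton_add_one (s := {j | P j ≤ M ∧ z • j = j}) (a := i) ⟨hM.2.1, zi⟩
    rw [(hB M hM.1).fixz z hM.2.2 h2] at this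
    rw [show {j | j ∈ {j : Ω | z • j = j} \ {i} ∧ P j ≤ M} = {j | P j ≤ M ∧ z • j = j} \ {i} from
      Set.ext fun j => ⟨fun c => ⟨⟨c.2, c.1.1⟩, c.1.2⟩, fun c => ⟨⟨c.1.2, c.2⟩, c.1.1⟩⟩]
    omega
  have b : ∀ j ∈ {j : Ω | z • j = j} \ {i},
      {M | M ∈ {M | ML P M ∧ P i ≤ M ∧ z ∈ M} ∧ P j ≤ M}.ncard = 1 := fun j hj => by
    obtain ⟨M, hM⟩ := h.sb_line hB h2 zi hj.1 (Ne.symm hj.2)
    exact Set.ncard_eq_one.2 ⟨M, Set.eq_singleton_iff_unique_mem.2 ⟨hM, fun M' e =>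
      h.uniq _ _ e.1.1 hM.1.1 i j (Ne.symm hj.2) e.1.2.1 e.2 hM.1.2.1 hM.2⟩⟩
  have c := dc _ _ (fun j M => P j ≤ M) (fun j hj => (b j hj).ge) fun M hM => (a M hM).le
  have d := dc _ _ (fun M j => P j ≤ M) (fun M hM => (a M hM).ge) fun j hj => (b j hj).le
  have := Set.ncard_diff_singleton_add_one (s := {j : Ω | z • j = j}) (a := i) zi
  omega

theorem sb_one_lt (hL : ML P L) (hz : z ∈ L) (h2 : orderOf z = 2) (hi : P i ≤ L)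
    (zi : z • i = i) : 1 < {M | ML P M ∧ P i ≤ M ∧ z ∈ M}.ncard := by
  obtain ⟨j, j1, j2⟩ : ∃ j, ¬ P j ≤ L ∧ z • j = j := by
    obtain ⟨k, hk⟩ := h.off L hL
    by_contra! c
    obtain ⟨M, hM, m1, m2⟩ := h.sb_in hB (sa_sq h2) (c k hk)
    obtain ⟨a, -, a1, a2⟩ := h.sb_fix hB hM m2 h2 i
    obtain ⟨b, ab, b1, b2⟩ := h.sb_fix hB hM m2 h2 a
    exact hk (h.uniq _ _ hM hL b a ab b1 a1 (by_contra fun e => c b e b2)
      (by_contra fun e => c a e a2) ▸ m1)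
  obtain ⟨M, hM, m⟩ := h.sb_line hB h2 zi j2 fun e => j1 (e ▸ hi)
  exact (Set.one_lt_ncard (Set.toFinite _)).2 ⟨L, ⟨hL, hi, hz⟩, M, hM, fun e => j1 (e ▸ m)⟩

theorem sb_ncard (hL : ML P L) (hz : z ∈ L) (h2 : orderOf z = 2) (hi : P i ≤ L) (zi : z • i = i)
    {A : Subgroup G} (h1 : C (P i) ⊓ C1 z ≤ A) (h3 : A ≤ stabilizer G i ⊓ C1 z) :
    {M | ML P M ∧ P i ≤ M ∧ z ∈ M}.ncard = (N L).relIndex A := by
  rw [← sb_ncj]
  refine congrArg _ (Set.ext fun M => ⟨fun a => ?_, ?_⟩)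
  · obtain ⟨k, hk, e, e'⟩ := h.sb_ztr hB L M hL a.1 z hz a.2.2 h2 i hi a.2.1 zi
    exact ⟨k, h1 ⟨hk, mem_C1.2 e⟩, e'⟩
  · rintro ⟨g, hg, rfl⟩
    exact ⟨h.ml_cj hL g, (h3 hg).1 ▸ h.on_smul.2 hi,
      mem_C1_iff_conj.1 (h3 hg).2 ▸ conj_mem_cj.2 hz⟩

end LS

end CfsgJ
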