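import Cfsg.Agent.H9.SE1

set_option autoImplicit false
set_option linter.unusedSectionVars false
set_option linter.unusedVariables false
set_option maxHeartbeats 400000

/-! A linear group over `F_2` of degree `≥ 4`, doubly transitive on the non-zero vectors, has a
non-solvable vector stabiliser. -/

namespace CfsgSE

open Subgroup CfsgH5 CfsgH6 CfsgFT
open scoped commutatorElement

universe u v

variable {L : Type u} {W : Type v} [Group L] [Finite L] [CommGroup W] [Finite W]
  [MulDistribMulAction L W]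

/-- `g` is a transvection with centre `c` (or trivial). -/
def TV (g : L) (c : W) : Prop := ∀ z : W, g • z = z ∨ g • z = z * c

section
variable (sq : ∀ v : W, v * v = 1) {g h : L} {c u x y : W}
include sq

theorem TV.fix (t : TV g c) : g • c = c := by
  rcases t c with a | a
  · exact a
  · rw [sq, smul_eq_iff_eq_inv_smul, smul_one] at a
    rw [a, smul_one]

theorem TV.smul_smul (t : TV g c) (z : W) : g • g • z = z := by
  rcases t z with a | a
  · rw [a, a]
  · rw [a, smul_mul', a, t.fix sq, mul_assoc, sq, mul_one]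

theorem TV.inv_smul (t : TV g c) (z : W) : g⁻¹ • z = g • z := by
  rw [inv_smul_eq_iff, t.smul_smul sq]

theorem TV.mul (t : TV g c) (t' : TV h c) : TV (g * h) c := fun z => by
  rw [mul_smul]
  rcases t' z with a | a
  · rw [a]; exact t z
  · rw [a, smul_mul', t.fix sq]
    rcases t z with b | b
    · rw [b]; exact Or.inr rfl
    · rw [b, mul_assoc, sq, mul_one]; exact Or.inl rfl

theorem tv_trick {X : Subgroup L} (g1 : g ∈ X) (g2 : h ∈ X) (t : TV g c) (t' : TV h c)
    (m : g • x ≠ x) (m' : h • (x * u) ≠ x * u) : ∃ k ∈ X, TV k c ∧ k • u = u ∧ k • x ≠ x := by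
  by_cases a : g • u = u
  · exact ⟨g, g1, t, a, m⟩
  by_cases b : h • u = u
  · exact ⟨h, g2, t', b, fun e => m' (by rw [smul_mul', e, b])⟩
  have a' := (t u).resolve_left a
  have b' := (t' u).resolve_left b
  have e : h • x = x := (t' x).resolve_right fun e => m' (by
    rw [smul_mul', e, b', mul_mul_mul_comm, sq c, mul_one])
  refine ⟨g * h, mul_mem g1 g2, t.mul sq t', ?_, by rwa [mul_smul, e]⟩
  rw [mul_smul, b', smul_mul', a', t.fix sq, mul_assoc, sq, mul_one]

theorem tv_comm (t : TV g c) (t' : TV h y) (m : g • y ≠ y) (f : h • c = c) (z : W) :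
    (h • z = z → ⁅g, h⁆ • z = z) ∧ (h • z ≠ z → ⁅g, h⁆ • z = z * c) := by
  have m' := (t y).resolve_left m
  rw [commutatorElement_def, mul_smul, mul_smul, mul_smul, t'.inv_smul sq, t.inv_smul sq]
  refine ⟨fun a => ?_, fun a => ?_⟩
  · have : h • g • z = g • z := by
      rcases t z with b | b
      · rw [b, a]
      · rw [b, smul_mul', a, f]
    rw [a, this, t.smul_smul sq]
  · have a' := (t' z).resolve_left a
    have : h • g • z = g • z * y := by
      rcases t z with b | b
      · rw [b, a']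
      · rw [b, smul_mul', a', f, mul_right_comm]
    have e : h • g • (z * y) = g • z * c := by
      rw [smul_mul', m', smul_mul', this, smul_mul', t'.fix sq, f, mul_assoc, ← mul_assoc y, sq,
        one_mul]
    rw [a', e, smul_mul', t.smul_smul sq, t.fix sq]

end

theorem exists_notMem_of_card {s : Finset W} {n : ℕ} (h : s.card ≤ n) (h' : n < Nat.card W) :
    ∃ y, y ∉ s := by
  by_contra! e
  haveI := Fintype.ofFinite W
  rw [Finset.eq_univ_iff_forall.2 e, Finset.card_univ, ← Nat.card_eq_fintype_card] at h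
  omega

section
variable (faith : ∀ g : L, (∀ v : W, g • v = v) → g = 1) (sq : ∀ v : W, v * v = 1)
  (h16 : 16 ≤ Nat.card W)
  (two : ∀ v w v' w' : W, v ≠ 1 → w ≠ 1 → v ≠ w → v' ≠ 1 → w' ≠ 1 → v' ≠ w' →
    ∃ g : L, g • v = v' ∧ g • w = w')
  (solv : ∀ v : W, v ≠ 1 → Group.IsSolvable (MulAction.stabilizer L v))
include faith sq h16 two solv

theorem lt_sep {v x : W} (hv : v ≠ 1) (x1 : x ≠ 1) (x2 : x ≠ v) :
    ∃ g : L, TV g v ∧ g • x ≠ x := by
  classical
  have xv1 : ∀ x : W, x ≠ v → x * v ≠ 1 := fun x h e =>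
    h (by rw [eq_inv_of_mul_eq_one_left e, inv_eq_of_mul_eq_one_left (sq v)])
  have xv2 : ∀ x : W, x ≠ 1 → x * v ≠ v := fun x h e => h (by simpa using e)
  have xv3 : ∀ x : W, x * v ≠ x := fun x e => hv (by simpa using e)
  have tr : ∀ w w' : W, w ≠ 1 → w ≠ v → w' ≠ 1 → w' ≠ v →
      ∃ b ∈ MulAction.stabilizer L v, b • w = w' := fun w w' a b c d =>
    let ⟨g, g1, g2⟩ := two v w v w' hv a b.symm hv c d.symm; ⟨g, g1, g2⟩
  have B0 : MulAction.stabilizer L v ≠ ⊥ := fun e => by
    obtain ⟨b, b1, b2⟩ := tr x (x * v) x1 x2 (xv1 x x2) (xv2 x x1)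
    rw [e, mem_bot] at b1
    rw [b1, one_smul] at b2
    exact xv3 x b2.symm
  obtain ⟨A, a1, p, hp, a2, a3⟩ := exists_minNrm_elAb B0 (Nrm.self _) (solv v hv)
  have nA : Nrm (MulAction.stabilizer L v) A := a2.nrm
  have fx : ∀ w : W, (∀ a ∈ A, a • w = w) → w = 1 ∨ w = v := fun w hw => by
    by_contra! e
    refine a2.ne_bot (eq_bot_iff.2 fun a ha => faith a fun z => ?_)
    by_cases z1 : z = 1
    · rw [z1, smul_one]
    by_cases z2 : z = v
    · rw [z2]; exact a1 ha
    obtain ⟨b, b1, rfl⟩ := tr w z e.1 e.2 z1 z2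
    have := hw _ (nA.conj' b1 ha)
    rwa [mul_smul, mul_smul, inv_smul_eq_iff] at this
  have mv : ∃ a ∈ A, a • x ≠ x := by
    by_contra! e
    exact (fx x e).elim x1 x2
  rcases hp.eq_two_or_odd' with rfl | ho
  · obtain ⟨Y, ⟨w, w1, w2, rfl⟩, mx⟩ := exists_max_card
      (P := fun Y : Subgroup L => ∃ w : W, w ≠ 1 ∧ w ≠ v ∧ Y = A ⊓ MulAction.stabilizer L w)
      ⟨_, x, x1, x2, rfl⟩
    have tw : ∀ a ∈ A, a • w = w ∨ a • w = w * v := fun a ha => by
      by_cases e : a • w = w
      · exact Or.inl e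
      have : a • w * w = 1 ∨ a • w * w = v := by
        by_contra! f
        have l : A ⊓ MulAction.stabilizer L w ≤ A ⊓ MulAction.stabilizer L (a • w * w) :=
          fun y hy => ⟨hy.1, by
            have : y • w = w := hy.2
            show y • (a • w * w) = _
            rw [smul_mul', smul_smul, a3.ab.comm hy.1 ha, mul_smul, this]⟩
        have := eq_of_le_of_card_le l (mx _ ⟨_, f.1, f.2, rfl⟩)
        have q : a ∈ A ⊓ MulAction.stabilizer L (a • w * w) := ⟨ha, by
          have : a * a = 1 := by rw [← pow_two]; exact a3.2 a ha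
          show a • (a • w * w) = _
          rw [smul_mul', smul_smul, this, one_smul, mul_comm]⟩
        exact e (this ▸ q).2
      rcases this with f | f
      · exact absurd (by rw [eq_inv_of_mul_eq_one_left f, inv_eq_of_mul_eq_one_left (sq w)]) e
      · exact Or.inr (by rw [← f, mul_left_comm, sq, mul_one])
    obtain ⟨a, ha, m⟩ := mv
    refine ⟨a, fun z => ?_, m⟩
    by_cases z1 : z = 1
    · exact Or.inl (by rw [z1, smul_one])
    by_cases z2 : z = v
    · exact Or.inl (by rw [z2]; exact a1 ha)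
    obtain ⟨b, b1, rfl⟩ := tr w z w1 w2 z1 z2
    have bv : b • v = v := b1
    have := tw _ (nA.conj' b1 ha)
    rwa [mul_smul, mul_smul, inv_smul_eq_iff, inv_smul_eq_iff, smul_mul', bv] at this
  · exfalso
    haveI := Fact.mk hp
    haveI := Fintype.ofFinite A
    obtain ⟨b, b1, b2⟩ := tr x (x * v) x1 x2 (xv1 x x2) (xv2 x x1)
    have bv : b • v = v := b1
    have n1 : ∀ a ∈ A, a • (∏ y : A, (y : L) • x) = ∏ y : A, (y : L) • x := fun a ha => by
      rw [Finset.smul_prod']
      exact Fintype.prod_equiv (Equiv.mulLeft (⟨a, ha⟩ : A)) _ _ fun y => by simp [mul_smul]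
    have n2 : b • (∏ y : A, (y : L) • x) = ∏ y : A, (y : L) • (b • x) := by
      rw [Finset.smul_prod']
      exact Fintype.prod_equiv ⟨fun y => ⟨b * y * b⁻¹, nA b b1 y y.2⟩,
        fun y => ⟨b⁻¹ * y * b, nA.conj' b1 y.2⟩, fun y => Subtype.ext (by simp [mul_assoc]),
        fun y => Subtype.ext (by simp [mul_assoc])⟩ _ _ fun y => by simp [mul_smul]
    have n3 : (∏ y : A, (y : L) • v) = v := by
      have : ∀ y : A, (y : L) • v = v := fun y => a1 y.2
      obtain ⟨k, hk⟩ := a3.isPGroup.exists_card_eq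
      obtain ⟨m, hm⟩ := ho.pow (n := k)
      simp only [this, Finset.prod_const, Finset.card_univ]
      rw [← Nat.card_eq_fintype_card, hk, hm, pow_succ, pow_mul, pow_two, sq, one_pow, one_mul]
    have n4 : b • (∏ y : A, (y : L) • x) = ∏ y : A, (y : L) • x := by
      rcases fx _ n1 with e | e
      · rw [e, smul_one]
      · rw [e, bv]
    simp only [b2, smul_mul', Finset.prod_mul_distrib, n3, n4] at n2
    exact xv3 _ n2.symm

theorem lin_two : False := by
  classical
  obtain ⟨v, hv⟩ := exists_notMem_of_card (s := ({1} : Finset W)) (n := 1) (by simp) (by omega)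
  rw [Finset.mem_singleton] at hv
  have inv : ∀ a b : W, a * b = 1 → a = b := fun a b e => by
    rw [eq_inv_of_mul_eq_one_left e, inv_eq_of_mul_eq_one_left (sq b)]
  have mv : ∀ a b c : W, a * b = c → a = c * b := fun a b c e => by
    rw [← e, mul_assoc, sq, mul_one]
  let P : Subgroup L → Prop := fun X => ∀ w x : W, w ≠ 1 → w ≠ v → x ≠ 1 → x ≠ v → x ≠ w →
    x ≠ w * v → ∃ g ∈ X, TV g w ∧ g • x ≠ x
  have P0 : P (MulAction.stabilizer L v) := fun w x w1 w2 x1 x2 x3 x4 => by
    obtain ⟨g, g1, g2⟩ := lt_sep faith sq h16 two solv w1 x1 x3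
    obtain ⟨h, h1, h2⟩ := lt_sep faith sq h16 two solv (x := x * v) w1 (fun e => x2 (inv _ _ e))
      (fun e => x4 (mv _ _ _ e))
    obtain ⟨k, -, k1, k2, k3⟩ := tv_trick sq (mem_top g) (mem_top h) g1 h1 g2 h2
    exact ⟨k, k2, k1, k3⟩
  have ex : ∀ w x : W, ∃ y, y ≠ 1 ∧ y ≠ v ∧ y ≠ w ∧ y ≠ w * v ∧ y ≠ x ∧ y ≠ x * v ∧ y ≠ x * w ∧
      y ≠ x * w * v := fun w x => by
    obtain ⟨y, hy⟩ := exists_notMem_of_card
      (s := ({1, v, w, w * v, x, x * v, x * w, x * w * v} : Finset W)) (n := 8)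
      (by simpa using List.toFinset_card_le [1, v, w, w * v, x, x * v, x * w, x * w * v])
      (by omega)
    simp only [Finset.mem_insert, Finset.mem_singleton, not_or] at hy
    exact ⟨y, hy⟩
  have PD : ∀ X, P X → P (D X) := fun X hX w x w1 w2 x1 x2 x3 x4 => by
    obtain ⟨y, y1, y2, y3, y4, y5, y6, y7, y8⟩ := ex w x
    obtain ⟨g, g0, g1, g2⟩ := hX w y w1 w2 y1 y2 y3 y4
    obtain ⟨h, h0, h1, h2⟩ := hX y x y1 y2 x1 x2 y5.symm (fun e => y6 (mv _ _ _ e.symm))
    obtain ⟨h', h0', h1', h2'⟩ := hX y (x * w) y1 y2 (fun e => x3 (inv _ _ e))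
      (fun e => x4 (by rw [mv _ _ _ e, mul_comm])) y7.symm (fun e => y8 (mv _ _ _ e.symm))
    obtain ⟨k, k0, k1, k2, k3⟩ := tv_trick sq h0 h0' h1 h1' h2 h2'
    refine ⟨⁅g, k⁆, commutator_mem_commutator g0 k0, fun z => ?_, ?_⟩
    · by_cases e : k • z = z
      · exact Or.inl ((tv_comm sq g1 k1 g2 k2 z).1 e)
      · exact Or.inr ((tv_comm sq g1 k1 g2 k2 z).2 e)
    · rw [(tv_comm sq g1 k1 g2 k2 x).2 k3]
      exact fun e => w1 (by simpa using e)
  obtain ⟨X, l, hX, mn⟩ := exists_minimal_le (P := P) P0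
  obtain ⟨w, w1, w2, -⟩ := ex v v
  obtain ⟨x, x1, x2, x3, x4, -⟩ := ex w w
  obtain ⟨g, g0, -, g2⟩ := hX w x w1 w2 x1 x2 x3 x4
  have X0 : X ≠ ⊥ := fun e => g2 (by rw [e, mem_bot] at g0; rw [g0, one_smul])
  have lt := D_lt_of_solvable (solvable_of_le (solv v hv) l) X0
  exact lt.ne (mn _ (PD X hX) lt.le)

end

end CfsgSE
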