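import Cfsg.Agent.H5.LT
import Cfsg.Agent.H4.LinMid
import Cfsg.Agent.L.PC
import Cfsg.Agent.H9.VA2

set_option autoImplicit false
set_option linter.unusedSectionVars false
set_option linter.unusedVariables false
set_option maxHeartbeats 400000

/-! The linear step: assembly. -/

namespace CfsgSE

open Subgroup CfsgH5 CfsgH6 CfsgFT MulAction
open scoped Pointwise

universe u

variable {L W : Type u} [Group L] [Finite L] [CommGroup W] [Finite W] [MulDistribMulAction L W]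

variable (W) in
/-- the orbits of `S1` are blocks. -/
def LaBlk (S1 : Subgroup L) : Prop :=
  ∀ g : L, ∀ v : W, ∀ s ∈ S1, ∃ s' ∈ S1, g • s • v = s' • g • v

/-- the kernel of the action on the blocks. -/
def laZ {S1 : Subgroup L} (h : LaBlk W S1) : Subgroup L where
  carrier := {z | ∀ v : W, ∃ s ∈ S1, z • v = s • v}
  one_mem' v := ⟨1, one_mem _, rfl⟩
  mul_mem' := fun {a b} ha hb v => by
    obtain ⟨s, s1, s2⟩ := hb v
    obtain ⟨t, t1, t2⟩ := h a v s s1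
    obtain ⟨r, r1, r2⟩ := ha v
    exact ⟨t * r, mul_mem t1 r1, by rw [mul_smul, s2, t2, r2, mul_smul]⟩
  inv_mem' := fun {a} ha v => by
    obtain ⟨s, s1, s2⟩ := ha (a⁻¹ • v)
    rw [smul_inv_smul] at s2
    exact ⟨s⁻¹, inv_mem s1, by rw [eq_inv_smul_iff, ← s2]⟩

variable (W) in
/-- the elements acting on every block as an element of `S1`. -/
def laP (S1 : Subgroup L) : Subgroup L where
  carrier := {z | ∀ v : W, ∃ c ∈ S1, ∀ s ∈ S1, z • s • v = c • s • v}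
  one_mem' v := ⟨1, one_mem _, fun _ _ => rfl⟩
  mul_mem' := fun {a b} ha hb v => by
    obtain ⟨s, s1, s2⟩ := hb v
    obtain ⟨r, r1, r2⟩ := ha v
    refine ⟨r * s, mul_mem r1 s1, fun t ht => ?_⟩
    rw [mul_smul, s2 t ht, mul_smul, smul_smul s, r2 _ (mul_mem s1 ht)]
  inv_mem' := fun {a} ha v => by
    obtain ⟨s, s1, s2⟩ := ha v
    refine ⟨s⁻¹, inv_mem s1, fun t ht => ?_⟩
    rw [inv_smul_eq_iff, smul_smul s⁻¹, s2 _ (mul_mem (inv_mem s1) ht), smul_smul,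
      mul_inv_cancel_left]

/-- the block of `v0`. -/
def laO {S1 : Subgroup L} (h : LaBlk W S1) (v0 : W) : SubMulAction (laZ h) W where
  carrier := {w | ∃ s ∈ S1, s • v0 = w}
  smul_mem' z w := fun ⟨s, s1, s2⟩ => by
    obtain ⟨t, t1, t2⟩ := z.2 w
    exact ⟨t * s, mul_mem t1 s1, by rw [mul_smul, s2, ← t2]; rfl⟩

theorem linh5 : LINh.{u} := by
  intro L W _ _ _ _ _ faith sq h16 S E cyc tr nE ti solv
  classical
  have ab : Ab S := ab_of_isCyclic cyc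
  have ne1 : ∀ (g : L) (v : W), v ≠ 1 → g • v ≠ 1 := fun g v h e =>
    h (by rw [smul_eq_iff_eq_inv_smul, smul_one] at e; exact e)
  have reg : ∀ s ∈ S, ∀ v : W, v ≠ 1 → s • v = v → s = 1 := fun s hs v hv e => faith s fun w => by
    by_cases h : w = 1
    · rw [h, smul_one]
    obtain ⟨t, t1, rfl⟩ := tr v w hv h
    rw [smul_smul, ab.comm hs t1, mul_smul, e]
  obtain ⟨v0, hv⟩ := exists_notMem_of_card (s := ({1} : Finset W)) (n := 1) (by simp) (by omega)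
  rw [Finset.mem_singleton] at hv
  have oS : Odd (Nat.card S) := odd_of_no_iv fun s hs i => by
    refine i.ne (reg s hs v0 hv ?_)
    by_contra e
    refine i.ne (reg s hs (s • v0 * v0) (fun f => e ?_) ?_)
    · rw [eq_inv_of_mul_eq_one_left f, inv_eq_of_mul_eq_one_left (sq v0)]
    · rw [smul_mul', smul_smul, i.sq, one_smul, mul_comm]
  have S0 : S ≠ ⊥ := fun e => by
    obtain ⟨w, hw⟩ := exists_notMem_of_card (s := ({1, v0} : Finset W)) (n := 2)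
      Finset.card_le_two (by omega)
    simp only [Finset.mem_insert, Finset.mem_singleton, not_or] at hw
    obtain ⟨s, s1, s2⟩ := tr v0 w hv hw.1
    rw [e, mem_bot] at s1
    rw [s1, one_smul] at s2
    exact hw.2 s2.symm
  have bS : LaBlk W S := fun g v s hs => by
    by_cases h : v = 1
    · exact ⟨1, one_mem _, by simp [h]⟩
    obtain ⟨t, t1, t2⟩ := tr _ _ (ne1 g v h) (ne1 g _ (ne1 s v h))
    exact ⟨t, t1, t2.symm⟩
  obtain ⟨S1, l1, ⟨n1, b1⟩, mn⟩ := exists_minimal_le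
    (P := fun X : Subgroup L => X ≠ ⊥ ∧ LaBlk W X) (X := S) ⟨S0, bS⟩
  have lZ : S1 ≤ laZ b1 := fun s hs v => ⟨s, hs, rfl⟩
  have nZ : Nrm ⊤ (laZ b1) := fun g _ z hz v => by
    obtain ⟨s, s1, s2⟩ := hz (g⁻¹ • v)
    obtain ⟨t, t1, t2⟩ := b1 g (g⁻¹ • v) s s1
    exact ⟨t, t1, by rw [mul_smul, mul_smul, s2, t2, smul_inv_smul]⟩
  obtain ⟨x, x1, r⟩ := exists_mem_prime_orderOf n1
  haveI := Fact.mk r
  have x0 : x ≠ 1 := fun e => by rw [e, orderOf_one] at r; exact Nat.not_prime_one r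
  have xp : IsPGroup (orderOf x) (zpowers x) := IsPGroup.of_card (n := 1) (by simp)
  have mt : ∀ Y : Subgroup L, x ∈ Y → Y ⊓ S ≠ ⊥ := fun Y h e =>
    x0 (mem_bot.1 (e ▸ (⟨h, l1 x1⟩ : x ∈ Y ⊓ S)))
  have dec : ∀ g : L, ∃ z ∈ laZ b1, ∃ e ∈ E, g = z * e := fun g => by
    obtain ⟨Y, y1, y2⟩ := exists_sylIn_ge (zpowers_le.2 (lZ x1)) xp
    have f := frattini_arg r y2 (⟨le_top, nZ⟩ : NormalIn (laZ b1) ⊤)
    obtain ⟨z, z1, e, e1, rfl⟩ := (mem_sup_nrm' (nZ.mono le_top)).1 (f ▸ mem_top g)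
    exact ⟨z, z1, e, ti _ Y r y2.isPGroup (mt Y (y1 (mem_zpowers x))) e1.2, rfl⟩
  have ch : ∀ X ≤ S, Nrm E X := fun X h => (charIn_of_isCyclic cyc h).nrm nE
  let O := laO b1 v0
  let a0 : O := ⟨v0, 1, one_mem _, one_smul _ _⟩
  haveI : IsPretransitive (laZ b1) O := ⟨fun ⟨w, s, s1, s2⟩ ⟨w', t, t1, t2⟩ =>
    ⟨⟨t * s⁻¹, lZ (mul_mem t1 (inv_mem s1))⟩, Subtype.ext (by
      show (t * s⁻¹) • w = w'
      rw [← s2, ← t2, mul_smul, inv_smul_smul])⟩⟩
  have prim : IsPreprimitive (laZ b1) O := by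
    refine IsPreprimitive.of_isTrivialBlock_base a0 fun {B} aB hB => ?_
    let S2 : Subgroup L := ((stabilizer (laZ b1) B).map (laZ b1).subtype) ⊓ S1
    have mS : ∀ s (hs : s ∈ S1), s ∈ S2 ↔ (⟨s, lZ hs⟩ : laZ b1) • a0 ∈ B := fun s hs =>
      ⟨fun ⟨⟨y, y1, y2⟩, _⟩ => by
        have : y = ⟨s, lZ hs⟩ := Subtype.ext y2
        rw [← this, ← (show y • B = B from y1)]
        exact Set.smul_mem_smul_set aB,
      fun h => ⟨⟨_, hB.smul_eq_of_mem aB h, rfl⟩, hs⟩⟩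
    by_cases h0 : S2 = ⊥
    · refine Or.inl (Set.subsingleton_of_forall_eq a0 ?_)
      rintro ⟨_, s, s1, rfl⟩ hb
      have := (mS s s1).2 hb
      rw [h0, mem_bot] at this
      exact Subtype.ext (by simp [this, a0])
    refine Or.inr (Set.eq_univ_of_forall ?_)
    have e2 : S2 = S1 := mn _ ⟨h0, fun g v s hs => ?_⟩ inf_le_right
    · rintro ⟨_, s, s1, rfl⟩
      exact (mS s s1).1 (e2 ▸ s1)
    by_cases h : v = 1
    · exact ⟨1, one_mem _, by simp [h]⟩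
    obtain ⟨z, z1, e, e1, rfl⟩ := dec g
    have s' := ch S2 (inf_le_right.trans l1) e e1 s hs
    obtain ⟨t, t1, t2⟩ := tr v0 _ hv (ne1 e v h)
    have z' := nZ.conj' (mem_top t) z1
    obtain ⟨c, c1, c2⟩ := z' v0
    have fx : (⟨c⁻¹ * (t⁻¹ * z * t), mul_mem (lZ (inv_mem c1)) z'⟩ : laZ b1) • a0 = a0 :=
      Subtype.ext (by show (c⁻¹ * (t⁻¹ * z * t)) • v0 = v0; rw [mul_smul, c2, inv_smul_smul])
    have hb := Set.smul_mem_smul_set
      (a := (⟨c⁻¹ * (t⁻¹ * z * t), mul_mem (lZ (inv_mem c1)) z'⟩ : laZ b1)) ((mS _ s'.2).1 s')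
    rw [hB.smul_eq_of_mem aB (fx.symm ▸ aB)] at hb
    obtain ⟨d, d1, d2⟩ := ((⟨c⁻¹ * (t⁻¹ * z * t), mul_mem (lZ (inv_mem c1)) z'⟩ : laZ b1) •
      (⟨e * s * e⁻¹, lZ s'.2⟩ : laZ b1) • a0).2
    refine ⟨d, (mS d d1).2 (by convert hb using 1; exact Subtype.ext d2), ?_⟩
    have d3 : d • v0 = (c⁻¹ * (t⁻¹ * z * t)) • (e * s * e⁻¹) • v0 := d2
    have k1 : (z * e) • s • v = t • c • d • v0 := by
      rw [d3, smul_smul c, mul_inv_cancel_left, smul_smul t, ← mul_assoc, mul_inv_cancel_left,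
        mul_smul z t, smul_smul t, ab.comm t1 (l1 s'.2), mul_smul (e * s * e⁻¹) t, t2]
      simp [mul_smul]
    have k2 : (z * e) • v = t • c • v0 := by
      rw [← c2, mul_smul, ← t2]; simp [mul_smul]
    rw [k1, k2, smul_smul c, ab.comm (l1 c1) (l1 d1), mul_smul, smul_smul t,
      ab.comm t1 (l1 d1), mul_smul]
  haveI : IsCyclic S1 := isCyclic_of_le' cyc l1
  letI : CommGroup S1 := IsCyclic.commGroup
  haveI := Fintype.ofFinite S1
  have bij : Function.Bijective fun c : S1 => inclusion lZ c • a0 :=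
    ⟨fun c d h => by
      have : (c : L) • v0 = (d : L) • v0 := congrArg Subtype.val h
      rw [← inv_smul_eq_iff, smul_smul] at this
      have := reg _ (l1 (mul_mem (inv_mem d.2) c.2)) v0 hv this
      exact Subtype.ext (inv_mul_eq_one.1 this).symm,
    fun ⟨_, s, s1, s2⟩ => ⟨⟨s, s1⟩, Subtype.ext s2⟩⟩
  rcases prim_cyc (inclusion lZ) a0 bij prim with h | h
  · exfalso
    rw [is_two_pretransitive_iff] at h
    have h2 : ∀ a ∈ S1, ∀ b ∈ S1, ∀ c ∈ S1, ∀ d ∈ S1, a • v0 ≠ b • v0 → c • v0 ≠ d • v0 →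
        ∃ z ∈ laZ b1, z • a • v0 = c • v0 ∧ z • b • v0 = d • v0 := fun a ha b hb c hc d hd e f => by
      obtain ⟨z, z1, z2⟩ := h (a := ⟨_, a, ha, rfl⟩) (b := ⟨_, b, hb, rfl⟩) (c := ⟨_, c, hc, rfl⟩)
        (d := ⟨_, d, hd, rfl⟩) (fun g => e (congrArg Subtype.val g))
        (fun g => f (congrArg Subtype.val g))
      exact ⟨z, z.2, congrArg Subtype.val z1, congrArg Subtype.val z2⟩
    have inj : ∀ a ∈ S1, ∀ b ∈ S1, a ≠ b → a • v0 ≠ b • v0 := fun a ha b hb e f =>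
      e (congrArg Subtype.val (bij.1 (a₁ := ⟨a, ha⟩) (a₂ := ⟨b, hb⟩) (Subtype.ext f)))
    have all := lin_mid sq lZ n1 (oS.of_dvd_nat (card_dvd_of_le' l1)) (fun s hs => reg s (l1 hs))
      (fun z hz => hz) (fun v w a b => let ⟨g, g1, g2⟩ := tr v w a b
        ⟨g, g2, fun t ht => ab.comm g1 (l1 ht)⟩) hv
      fun a ha b hb c hc d hd e f => h2 a ha b hb c hc d hd (inj a ha b hb e) (inj c hc d hd f)
    refine lin_two faith sq h16 (fun v w v' w' a b c d e f => ?_) solv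
    obtain ⟨s1, m1, rfl⟩ := all v0 v hv a
    obtain ⟨s2, m2, rfl⟩ := all v0 w hv b
    obtain ⟨s3, m3, rfl⟩ := all v0 v' hv d
    obtain ⟨s4, m4, rfl⟩ := all v0 w' hv e
    obtain ⟨z, -, z2⟩ := h2 _ m1 _ m2 _ m3 _ m4 c f
    exact ⟨z, z2⟩
  let Q : Subgroup L := closure {y | ∃ g : L, ∃ c ∈ S1, y = g * c * g⁻¹}
  have nQ : Nrm ⊤ Q := Nrm.closure (by
    rintro a - _ ⟨g, c, c1, rfl⟩
    exact subset_closure ⟨a * g, c, c1, by group⟩)
  have QP : Q ≤ laP W S1 := (closure_le _).2 (by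
    rintro _ ⟨g, c, c1, rfl⟩ v
    by_cases hv' : v = 1
    · exact ⟨1, one_mem _, fun s _ => by simp [hv']⟩
    obtain ⟨z, z1, e, e1, rfl⟩ := dec g
    obtain ⟨t, t1, rfl⟩ := tr v0 v hv hv'
    obtain ⟨d, d1⟩ := h ⟨_, nZ.conj' (mem_top t) z1⟩ ⟨_, ch S1 l1 e e1 c c1⟩
    refine ⟨d, d.2, fun s hs => ?_⟩
    have d2 : (t⁻¹ * z * t * (e * c * e⁻¹) * (t⁻¹ * z * t)⁻¹) • s • v0 = (d : L) • s • v0 :=
      congrArg Subtype.val (d1 ⟨_, s, hs, rfl⟩)
    have k : t * (e * c * e⁻¹) * t⁻¹ = e * c * e⁻¹ := by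
      rw [ab.comm t1 (l1 (ch S1 l1 e e1 c c1)), mul_inv_cancel_right]
    have k2 : t⁻¹ * z * t * (e * c * e⁻¹) * (t⁻¹ * z * t)⁻¹ =
        t⁻¹ * (z * e * c * (z * e)⁻¹) * t := by
      calc _ = t⁻¹ * z * (t * (e * c * e⁻¹) * t⁻¹) * z⁻¹ * t := by group
        _ = _ := by rw [k]; group
    rw [k2, mul_smul, mul_smul, inv_smul_eq_iff] at d2
    rw [smul_smul s, ab.comm (l1 hs) t1, mul_smul t, d2, smul_smul t, ab.comm t1 (l1 d.2), mul_smul])
  have aQ : Ab Q := ab_iff.2 fun a ha b hb => by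
    have k : ∀ v : W, (a * b) • v = (b * a) • v := fun v => by
      obtain ⟨c, c1, c2⟩ := QP ha v
      obtain ⟨d, d1, d2⟩ := QP hb v
      have c3 := c2 1 (one_mem _)
      have d3 := d2 1 (one_mem _)
      rw [one_smul] at c3 d3
      rw [mul_smul, mul_smul, c3, d3, c2 d d1, d2 c c1, smul_smul, smul_smul,
        ab.comm (l1 c1) (l1 d1)]
    rw [← inv_mul_eq_one]
    exact faith _ fun v => by rw [mul_smul, ← k, inv_smul_smul]
  have xQ : x ∈ Q := subset_closure ⟨1, x, x1, by simp⟩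
  have xO : x ∈ Op (orderOf x) Q :=
    le_Op (zpowers_le.2 xQ) (aQ.nrm (zpowers_le.2 xQ)) xp (mem_zpowers x)
  exact top_le_iff.1 ((nQ.Op _).le_N.trans (ti _ _ r (isPGroup_Op _ _) (mt _ xO)))

end CfsgSE
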