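import Cfsg.Agent.H9.MC

set_option autoImplicit false
set_option linter.unusedSectionVars false
set_option maxRecDepth 100000

namespace CfsgM11

open Subgroup CfsgH5 CfsgH6 CfsgFT Equiv

def a5s : Perm (Fin 5) := swap 0 1 * swap 2 3
def a5c : Perm (Fin 5) := swap 0 1 * swap 1 2

theorem a5_inv : ∀ σ : Perm (Fin 5), Perm.sign σ = 1 → σ * σ = 1 → σ ≠ 1 →
    ∃ k : Perm (Fin 5), Perm.sign k = 1 ∧ k * σ * k⁻¹ = a5s := by decide +kernel
theorem a5_V : ∀ v : Perm (Fin 5), Perm.sign v = 1 → v * a5s = a5s * v →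
    ((v * a5c) ^ 3 = 1 ∧ v * a5c ≠ 1) ∧
      (v = 1 ∨ v = a5s ∨ v = a5c * a5s * a5c⁻¹ ∨ v = a5s * (a5c * a5s * a5c⁻¹)) := by decide +kernel
theorem a5_ni : ∀ x : Perm (Fin 5), Perm.sign x = 1 → x * a5s * x⁻¹ * a5s = a5s * (x * a5s * x⁻¹) →
    x * a5c * x⁻¹ ≠ a5c⁻¹ := by decide +kernel
theorem a5_cen : ∀ x : Perm (Fin 5), Perm.sign x = 1 → x * a5s = a5s * x → x * a5c = a5c * x →
    x = 1 := by decide +kernel
theorem a5_c0 : Perm.sign a5c = 1 ∧ a5c ^ 4 = a5c ∧ a5c ≠ 1 ∧ a5s * a5s = 1 := by decide +kernel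
theorem a5_two : ∀ v v' : Perm (Fin 5), Perm.sign v = 1 → v * a5s = a5s * v → Perm.sign v' = 1 →
    v' * a5s = a5s * v' → (v = 1 ∨ v = a5s) ∨ (v' = 1 ∨ v' = a5s) ∨ (v * v' = 1 ∨ v * v' = a5s) := by
  intro v v' h1 h2 h3 h4
  obtain ⟨-, rfl | rfl | rfl | rfl⟩ := a5_V v h1 h2 <;>
  obtain ⟨-, rfl | rfl | rfl | rfl⟩ := a5_V v' h3 h4 <;> decide +kernel

theorem fpf3 {Y : Type*} [Group Y] {y c : Y} (c3 : c ^ 3 = 1) (h1 : (y * c) ^ 3 = 1)
    (h2 : (y⁻¹ * c) ^ 3 = 1) :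
    y * (c * y * c⁻¹) = (c⁻¹ * y * c)⁻¹ ∧ y * (c * y * c⁻¹) = (c * y * c⁻¹) * y := by
  have ci : c⁻¹ = c * c := by rw [eq_comm, ← mul_eq_one_iff_eq_inv, ← pow_three', c3]
  have k : ∀ y : Y, (y * c) ^ 3 = 1 → y * (c * y * c⁻¹) * (c⁻¹ * y * c) = 1 := fun y e => by
    have : c⁻¹ * c⁻¹ = c := by
      rw [ci]; calc c * c * (c * c) = c ^ 3 * c := by rw [pow_three']; group
        _ = c := by rw [c3, one_mul]
    calc y * (c * y * c⁻¹) * (c⁻¹ * y * c) = y * c * y * (c⁻¹ * c⁻¹) * y * c := by group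
      _ = (y * c) ^ 3 := by rw [this, pow_three']; group
      _ = 1 := e
  have a := eq_inv_of_mul_eq_one_left (k y h1)
  have b := eq_inv_of_mul_eq_one_left (k y⁻¹ h2)
  refine ⟨a, ?_⟩
  rw [a]
  calc (c⁻¹ * y * c)⁻¹ = ((c⁻¹ * y⁻¹ * c)⁻¹)⁻¹ := by group
    _ = (y⁻¹ * (c * y⁻¹ * c⁻¹))⁻¹ := by rw [b]
    _ = _ := by group

theorem abs5 {Y : Type*} [Group Y] [Finite Y] (F : Y →* Perm (Fin 5)) (hs : ∀ y, Perm.sign (F y) = 1)
    (W2 : ∀ k, F k = 1 → k * k = 1) (Wc : ∀ k l, F k = 1 → F l = 1 → k * l = l * k)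
    (p3 : ∀ y, (F y) ^ 3 = 1 → F y ≠ 1 → y ^ 3 = 1) {σ c : Y} (hσ : F σ = a5s) (σ2 : σ * σ = 1)
    (hc : F c = a5c) : σ * (c * σ * c⁻¹) = c⁻¹ * σ * c ∧
      ∀ d, d * σ = σ * d → d * d = 1 ∧ d * (c * σ * c⁻¹) = (c * σ * c⁻¹) * d := by
  have q : ∀ y, F y * a5s = a5s * F y → (y * c) ^ 3 = 1 := fun y e => by
    have := (a5_V _ (hs y) e).1
    exact p3 _ (by rw [map_mul, hc]; exact this.1) (by rw [map_mul, hc]; exact this.2)
  have c3 : c ^ 3 = 1 := by simpa using q 1 (by simp)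
  have r : ∀ y, F y * a5s = a5s * F y → _ := fun y e => fpf3 c3 (q y e) (q y⁻¹ (by
    rw [map_inv]; exact (Commute.inv_left e).eq))
  have σi : σ⁻¹ = σ := inv_of_sq σ2
  obtain ⟨r1, r2⟩ := r σ (by rw [hσ])
  have e1 : σ * (c * σ * c⁻¹) = c⁻¹ * σ * c := by
    rw [r1]; simp [mul_assoc, σi]
  obtain ⟨τ, hτ⟩ : ∃ τ, τ = c * σ * c⁻¹ := ⟨_, rfl⟩
  rw [← hτ] at r2 e1 ⊢
  have τ2 : τ * τ = 1 := hτ ▸ sq_conj σ2 c
  have cc : c * c * c = 1 := by rw [← pow_three', c3]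
  have ci : c⁻¹ = c * c := by rw [eq_comm, ← mul_eq_one_iff_eq_inv, cc]
  -- elements of the kernel commuting with σ commute with τ
  have key : ∀ m, F m = 1 → m * σ = σ * m → m * τ = τ * m := fun m hm e => by
    obtain ⟨m1, hm1⟩ : ∃ m1, m1 = c * m * c⁻¹ := ⟨_, rfl⟩
    obtain ⟨m2, hm2⟩ : ∃ m2, m2 = c * m1 * c⁻¹ := ⟨_, rfl⟩
    have f1 : F m1 = 1 := by rw [hm1]; simp [hm]
    have f2 : F m2 = 1 := by rw [hm2]; simp [f1]
    have a1 : m1 * τ = τ * m1 := by rw [hm1, hτ]; exact comm_conj' e c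
    obtain ⟨-, b⟩ := r (m1 * σ) (by rw [map_mul, f1, hσ, one_mul])
    have b' : m1 * σ * (m2 * τ) = m2 * τ * (m1 * σ) := by
      rw [hm2, hτ, conj_mul]; exact b
    have b2 : σ * m2 = m2 * σ := by
      have : m1 * (σ * m2) * τ = m1 * (m2 * σ) * τ := by
        calc m1 * (σ * m2) * τ = m1 * σ * (m2 * τ) := by group
          _ = m2 * (τ * m1) * σ := by rw [b']; group
          _ = (m2 * m1) * (τ * σ) := by rw [← a1]; group
          _ = _ := by rw [Wc m2 m1 f2 f1, ← r2]; group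
      exact mul_left_cancel (mul_right_cancel this)
    have b3 := comm_conj' b2 c
    have : c * m2 * c⁻¹ = m := by
      rw [hm2, hm1]
      calc _ = (c * c * c) * m * (c * c * c)⁻¹ := by group
        _ = m := by rw [cc]; simp
    rw [this, ← hτ] at b3
    exact b3.symm
  refine ⟨e1, fun d e => ?_⟩
  have hd : F d * a5s = a5s * F d := by rw [← hσ, ← map_mul, ← map_mul, e]
  have fin : ∀ v : Y, v * v = 1 → v * σ = σ * v → v * τ = τ * v → F d = F v →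
      (∀ m : Y, m * σ = σ * m → m * τ = τ * m → m * v = v * m) →
      d * d = 1 ∧ d * τ = τ * d := fun v v2 vσ vτ hv hm => by
    have m1 : F (d * v) = 1 := by rw [map_mul, hv, ← map_mul, v2, map_one]
    have m2 : d * v * σ = σ * (d * v) := by rw [mul_assoc, vσ, ← mul_assoc, e, mul_assoc]
    have m3 := key _ m1 m2
    have m4 := hm _ m2 m3
    have dv : d = d * v * v := by rw [mul_assoc, v2, mul_one]
    constructor
    · calc d * d = (d * v * v) * (d * v * v) := by rw [← dv]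
        _ = (d * v) * (v * (d * v)) * v := by group
        _ = (d * v) * (d * v) * (v * v) := by rw [← m4]; group
        _ = 1 := by rw [W2 _ m1, v2, one_mul]
    · calc d * τ = d * v * (v * τ) := by rw [← mul_assoc, ← dv]
        _ = (d * v * τ) * v := by rw [vτ]; group
        _ = τ * (d * v * v) := by rw [m3]; group
        _ = τ * d := by rw [← dv]
  have Fτ : F τ = a5c * a5s * a5c⁻¹ := by rw [hτ]; simp [hc, hσ]
  obtain ⟨-, h | h | h | h⟩ := a5_V _ (hs d) hd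
  · exact fin 1 (by simp) (by simp) (by simp) (by rw [h, map_one]) (by simp)
  · exact fin σ σ2 rfl r2 (by rw [h, hσ]) fun m a _ => a
  · exact fin τ τ2 r2.symm rfl (by rw [h, Fτ]) fun m _ a => a
  · refine fin (σ * τ) ?_ ?_ ?_ (by rw [h, map_mul, hσ, Fτ]) fun m a b => ?_
    · calc σ * τ * (σ * τ) = σ * (τ * σ) * τ := by group
        _ = (σ * σ) * (τ * τ) := by rw [← r2]; group
        _ = 1 := by rw [σ2, τ2, one_mul]
    · rw [mul_assoc, ← r2]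
    · rw [← mul_assoc, r2]
    · rw [← mul_assoc, a, mul_assoc, b, mul_assoc]

end CfsgM11
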