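import Cfsg.Agent.H5.MA1

set_option autoImplicit false
set_option linter.unusedSectionVars false
set_option maxHeartbeats 400000

namespace CfsgM11

open Subgroup CfsgH5 CfsgH6 CfsgFT Equiv

variable {G : Type*} [Group G] [Finite G] {M : Subgroup G} {g h a t s z w : G}

/-- normalised data of the `A₅` case -/
structure A5D (t s : G) (hs : s ∈ C1 t) (F : C1 t →* Perm (Fin 5)) (c : C1 t) : Prop where
  sg : ∀ y, Perm.sign (F y) = 1
  ker : ∀ k, F k = 1 → (k.1 * k.1 = 1 ∨ k.1 * k.1 = t) ∧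
    ∀ l, F l = 1 → k.1 * l.1 = l.1 * k.1 ∨ k.1 * l.1 = l.1 * k.1 * t
  fs : F ⟨s, hs⟩ = a5s
  fc : F c = a5c
  c3 : c.1 ^ 3 = 1

theorem Cf.dvd3 (_H : Cf M g h a t s z w) {F : C1 t →* Perm (Fin 5)} {k : C1 t} (h3 : F k ^ 3 = 1)
    (h1 : F k ≠ 1) : 3 ∣ orderOf k.1 := by
  haveI := Fact.mk Nat.prime_three
  rw [← orderOf_eq_prime h3 h1, orderOf_coe]
  exact orderOf_map_dvd F k

theorem Cf.exA5D (H : Cf M g h a t s z w) (f : C1 t →* alternatingGroup (Fin 5))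
    (surj : Function.Surjective f) (ker : ∀ k, f k = 1 → (k.1 * k.1 = 1 ∨ k.1 * k.1 = t) ∧
      ∀ l, f l = 1 → k.1 * l.1 = l.1 * k.1 ∨ k.1 * l.1 = l.1 * k.1 * t) :
    ∃ F c, A5D t s H.sC F c ∧ ∀ k, F k = 1 ↔ f k = 1 := by
  have sg : ∀ y : alternatingGroup (Fin 5), Perm.sign y.1 = 1 := fun y => Perm.mem_alternatingGroup.1 y.2
  have s2 : (⟨s, H.sC⟩ : C1 t) * ⟨s, H.sC⟩ = 1 := Subtype.ext H.ss
  have fs1 : f ⟨s, H.sC⟩ ≠ 1 := fun e => by
    have a1 : (⟨s, H.sC⟩ : C1 t) * ⟨g, H.gC⟩ * ⟨s, H.sC⟩ * ⟨g, H.gC⟩ = 1 :=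
      Subtype.ext (by show s * g * s * g = 1; rw [H.sgs, inv_mul_cancel])
    have a2 := congrArg f a1
    simp only [map_mul, e, one_mul, mul_one, map_one] at a2
    have a3 : f ⟨g, H.gC⟩ ^ 3 = 1 := by rw [← map_pow, show (⟨g, H.gC⟩ : C1 t) ^ 3 = 1 from Subtype.ext H.g3, map_one]
    rw [pow_three', a2, one_mul] at a3
    have a4 : g * g * (g * g) = 1 := by
      rcases (ker _ a3).1 with e | e
      · rw [show g * g = 1 from e, one_mul]
      · rw [show g * g = t from e, H.tt]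
    apply H.g1
    calc g = g ^ 3 * g := by rw [H.g3, one_mul]
      _ = 1 := by rw [← a4, pow_three']; group
  obtain ⟨k, k1, k2⟩ := a5_inv (f ⟨s, H.sC⟩).1 (sg _) (by
    rw [← coe_mul, ← map_mul, s2, map_one, coe_one]) (fun e => fs1 (Subtype.ext e))
  let F : C1 t →* Perm (Fin 5) := (MulAut.conj k).toMonoidHom.comp ((alternatingGroup (Fin 5)).subtype.comp f)
  have hF : ∀ y, F y = k * (f y).1 * k⁻¹ := fun y => rfl
  have hk : ∀ y, F y = 1 ↔ f y = 1 := fun y => by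
    rw [hF, mul_inv_eq_one, mul_eq_left, OneMemClass.coe_eq_one]
  obtain ⟨c, hc⟩ := surj ⟨k⁻¹ * a5c * k, Perm.mem_alternatingGroup.2 (by
    simp [a5_c0.1, k1])⟩
  have fc : F c = a5c := by rw [hF, hc]; simp [mul_assoc]
  have V1 := (a5_V 1 (by simp) (by simp)).1
  rw [one_mul] at V1
  refine ⟨F, c ^ 4, ⟨fun y => by rw [hF]; simp [sg (f y), k1], fun k e => ⟨(ker k ((hk k).1 e)).1,
    fun l e' => (ker k ((hk k).1 e)).2 l ((hk l).1 e')⟩, k2, by rw [map_pow, fc, a5_c0.2.1], ?_⟩, hk⟩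
  have := H.cube (H.dvd3 (F := F) (k := c) (by rw [fc]; exact V1.1) (by rw [fc]; exact V1.2)) H.tt H.t1
    (mem_C1.1 c.2)
  rw [coe_pow, ← pow_mul, show 4 * 3 = 3 * 4 from rfl, pow_mul]
  rcases this with e | e
  · rw [e, one_pow]
  · rw [e, show 4 = 2 * 2 from rfl, pow_mul, pow_two t, H.tt, one_pow]

namespace A5D

variable {hs : s ∈ C1 t} {F : C1 t →* Perm (Fin 5)} {c : C1 t} (A : A5D t s hs F c)
include A

theorem ft : F ⟨t, self_mem_C1 t⟩ = 1 := by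
  apply a5_cen _ (A.sg _)
  · rw [← A.fs, ← map_mul, ← map_mul]; congr 1; exact Subtype.ext (mem_C1.1 hs).symm
  · rw [← A.fc, ← map_mul, ← map_mul]; congr 1; exact Subtype.ext (mem_C1.1 c.2).symm

theorem c1 : c.1 ≠ 1 := fun e => a5_c0.2.2.1 (by rw [← A.fc, show c = 1 from Subtype.ext e, map_one])

theorem main (H : Cf M g h a t s z w) :
    (s * (c.1 * s * c.1⁻¹) = c.1⁻¹ * s * c.1 ∨ s * (c.1 * s * c.1⁻¹) = c.1⁻¹ * s * c.1 * t) ∧
    ∀ d ∈ C1 t, (d * s = s * d ∨ d * s = s * d * t) → (d * d = 1 ∨ d * d = t) ∧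
      (d * (c.1 * s * c.1⁻¹) = c.1 * s * c.1⁻¹ * d ∨ d * (c.1 * s * c.1⁻¹) = c.1 * s * c.1⁻¹ * d * t) := by
  let F' : C1 t ⧸ Zt t →* Perm (Fin 5) := QuotientGroup.lift (Zt t) F (by
    rintro _ ⟨i, rfl⟩
    exact zpow_mem (MonoidHom.mem_ker.2 A.ft) i)
  have hF : ∀ k, F' (pt t k) = F k := fun k => rfl
  obtain ⟨r1, r2⟩ := abs5 F' (fun y => by obtain ⟨k, rfl⟩ := pt_surj t y; exact A.sg k)
    (fun y e => by
      obtain ⟨k, rfl⟩ := pt_surj t y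
      rw [← map_mul, pt_eq_one H.tt]; exact (A.ker k e).1)
    (fun y y' e e' => by
      obtain ⟨k, rfl⟩ := pt_surj t y
      obtain ⟨l, rfl⟩ := pt_surj t y'
      rw [← map_mul, ← map_mul, pt_eq H.tt]; exact (A.ker k e).2 l e')
    (fun y e e' => by
      obtain ⟨k, rfl⟩ := pt_surj t y
      rw [← map_pow, pt_eq_one H.tt]
      exact H.cube (H.dvd3 (F := F) e e') H.tt H.t1 (mem_C1.1 k.2))
    (σ := pt t ⟨s, hs⟩) (c := pt t c) A.fs
    (by rw [← map_mul, pt_eq_one H.tt]; exact Or.inl H.ss) A.fc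
  simp only [← map_inv, ← map_mul] at r1 r2
  refine ⟨(pt_eq H.tt _ _).1 r1, fun d hd e => ?_⟩
  obtain ⟨b1, b2⟩ := r2 (pt t ⟨d, hd⟩) (by rw [← map_mul, ← map_mul, pt_eq H.tt]; exact e)
  simp only [← map_mul] at b1 b2
  exact ⟨(pt_eq_one H.tt _).1 b1, (pt_eq H.tt _ _).1 b2⟩

theorem sq1 (H : Cf M g h a t s z w) {d : G} (dt : d * t = t * d) (ds : d * s = s * d) : d * d = 1 := by
  refine ((A.main H).2 d (mem_C1.2 dt) (Or.inl ds)).1.resolve_right fun e => ?_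
  have a1 := comm_conj' dt w
  have a2 := comm_conj' ds w
  rw [H.wi, H.wtw] at a1
  rw [H.wi, H.wsw] at a2
  have a3 : w * d * w * (w * d * w) = s := by
    rw [← H.wtw, ← e]; simp [mul_assoc, mul_sq_l H.ww]
  rcases ((A.main H).2 _ (mem_C1.2 a2) (Or.inl a1)).1 with b | b
  · exact H.s1 (a3.symm.trans b)
  · exact H.sNt (a3.symm.trans b)

theorem sq2 (H : Cf M g h a t s z w) {d : G} (dt : d * t = t * d)
    (ds : d * s = s * d ∨ d * s = s * d * t) : d * d = 1 := by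
  have ct := mem_C1.1 c.2
  have ctc : c.1 * t * c.1⁻¹ = t := mem_C1_iff_conj.1 c.2
  have ctc' : c.1⁻¹ * t * c.1⁻¹⁻¹ = t := mem_C1_iff_conj.1 (inv_mem c.2)
  obtain ⟨m1, m2⟩ := A.main H
  rcases ds with e | e
  · exact A.sq1 H dt e
  rcases (m2 d (mem_C1.2 dt) (Or.inr e)).2 with e2 | e2
  · have a1 := comm_conj' dt c.1⁻¹
    have a2 := comm_conj' e2 c.1⁻¹
    rw [ctc'] at a1
    rw [show c.1⁻¹ * (c.1 * s * c.1⁻¹) * c.1⁻¹⁻¹ = s by group] at a2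
    have := A.sq1 H a1 a2
    rw [conj_mul] at this
    exact cj1 (c := c.1) (by simpa using this)
  · have s2t : c.1 * s * c.1⁻¹ * t = t * (c.1 * s * c.1⁻¹) := by
      have := comm_conj' H.ts' c.1
      rw [ctc] at this; exact this.symm
    have a0 : d * (s * (c.1 * s * c.1⁻¹)) = s * (c.1 * s * c.1⁻¹) * d := by
      generalize c.1 * s * c.1⁻¹ = s2 at *
      calc d * (s * s2) = (d * s) * s2 := by group
        _ = s * d * (t * s2) := by rw [e]; group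
        _ = s * (d * s2) * t := by rw [← s2t]; group
        _ = s * s2 * d * (t * t) := by rw [e2]; group
        _ = _ := by rw [H.tt, mul_one]
    have a1 : d * (c.1⁻¹ * s * c.1) = c.1⁻¹ * s * c.1 * d := by
      rcases m1 with b | b
      · rwa [b] at a0
      · rw [b] at a0
        apply mul_right_cancel (b := t)
        calc _ = d * (c.1⁻¹ * s * c.1 * t) := by group
          _ = c.1⁻¹ * s * c.1 * (t * d) := by rw [a0]; group
          _ = _ := by rw [← dt]; group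
    have a2 := comm_conj' a1 c.1
    have a3 := comm_conj' dt c.1
    rw [ctc] at a3
    rw [show c.1 * (c.1⁻¹ * s * c.1) * c.1⁻¹ = s by group] at a2
    have := A.sq1 H a3 a2
    rw [conj_mul] at this
    exact cj1 (c := c.1⁻¹) (by simpa using this)

theorem comm (H : Cf M g h a t s z w) {d : G} (dt : d * t = t * d)
    (ds : d * s = s * d ∨ d * s = s * d * t) : d * s = s * d := by
  refine comm_of_sq (A.sq2 H dt ds) H.ss (A.sq2 H ?_ ?_)
  · rw [mul_assoc, ← H.ts', ← mul_assoc, dt, mul_assoc]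
  · rcases ds with e | e
    · left; rw [mul_assoc, H.ss, mul_one, e, mul_sq_l H.ss]
    · right; rw [mul_assoc, H.ss, mul_one, e]; simp [mul_assoc, mul_sq_l H.ss, H.tt]

theorem cN (H : Cf M g h a t s z w) : c.1 ∈ N (C1 s ⊓ C1 t) := by
  rw [← inv_mem_iff]
  refine mem_N_of_conj fun d hd => ?_
  have m : c.1⁻¹ * d * c.1⁻¹⁻¹ ∈ C1 t := mul_mem (mul_mem (inv_mem c.2) hd.2) (inv_mem (inv_mem c.2))
  refine ⟨mem_C1.2 (A.comm H (mem_C1.1 m) ?_), m⟩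
  have ctc' : c.1⁻¹ * t * c.1⁻¹⁻¹ = t := mem_C1_iff_conj.1 (inv_mem c.2)
  rcases ((A.main H).2 d hd.2 (Or.inl (mem_C1.1 hd.1))).2 with e | e
  · left
    have a2 := comm_conj' e c.1⁻¹
    rwa [show c.1⁻¹ * (c.1 * s * c.1⁻¹) * c.1⁻¹⁻¹ = s by group] at a2
  · right
    calc _ = c.1⁻¹ * (d * (c.1 * s * c.1⁻¹)) * c.1⁻¹⁻¹ := by group
      _ = s * (c.1⁻¹ * d * c.1⁻¹⁻¹) * (c.1⁻¹ * t * c.1⁻¹⁻¹) := by rw [e]; group
      _ = _ := by rw [ctc']

theorem Dsq (H : Cf M g h a t s z w) : ∀ d ∈ C1 s ⊓ C1 t, d * d = 1 := fun _ hd =>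
  A.sq1 H (mem_C1.1 hd.2) (mem_C1.1 hd.1)

theorem Dab (H : Cf M g h a t s z w) : ∀ d ∈ C1 s ⊓ C1 t, ∀ e ∈ C1 s ⊓ C1 t, d * e = e * d :=
  fun d hd e he => comm_of_sq (A.Dsq H d hd) (A.Dsq H e he) (A.Dsq H _ (mul_mem hd he))

theorem hni {u : G} (hu : u ∈ C1 t) (fu : F ⟨u, hu⟩ = a5s) (x : G) (xt : x * t = t * x)
    (e : x * u * x⁻¹ * u = u * (x * u * x⁻¹)) : x * c.1 * x⁻¹ ≠ c.1⁻¹ := fun e' => by
  have hx := mem_C1.2 xt
  refine a5_ni (F ⟨x, hx⟩) (A.sg _) ?_ ?_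
  · rw [← fu]; simp only [← map_inv, ← map_mul]; congr 1; exact Subtype.ext e
  · rw [← A.fc]; simp only [← map_inv, ← map_mul]; congr 1; exact Subtype.ext e'

end A5D

end CfsgM11
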