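import Cfsg.Agent.H5.MA2

set_option autoImplicit false
set_option linter.unusedSectionVars false
set_option maxHeartbeats 400000

namespace CfsgM11

open Subgroup CfsgH5 CfsgH6 CfsgFT Equiv

variable {G : Type*} [Group G] [Finite G] {M : Subgroup G} {g h a t s z w : G}

theorem zp3 {c y : G} (c3 : c ^ 3 = 1) (hy : y ∈ zpowers c) : y = 1 ∨ y = c ∨ y = c⁻¹ := by
  obtain ⟨n, rfl⟩ := hy
  have h3 : c ^ (3 : ℤ) = 1 := by exact_mod_cast c3
  have ci : c⁻¹ = c * c := by rw [eq_comm, ← mul_eq_one_iff_eq_inv, ← pow_three', c3]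
  simp only
  rw [← Int.mul_ediv_add_emod n 3, _root_.zpow_add, _root_.zpow_mul, h3, _root_.one_zpow, one_mul]
  have h1 := Int.emod_nonneg n (b := 3) (by norm_num)
  have h2 := Int.emod_lt_of_pos n (b := 3) (by norm_num)
  interval_cases n % 3
  · simp
  · simp
  · right; right; rw [ci, zpow_two]

/-- `⟨c⟩` is a Sylow 3-subgroup of the normaliser of a non-trivial 2-group -/
theorem Cf.syl3N (H : Cf M g h a t s z w) {X : Subgroup G} (hX : IsPGroup 2 X) (hne : X ≠ ⊥) {c : G}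
    (c3 : c ^ 3 = 1) (c1 : c ≠ 1) (cN : c ∈ N X) : SylIn 3 (zpowers c) (N X) := by
  haveI := Fact.mk Nat.prime_three
  have pc : IsPGroup 3 (zpowers c) := isPGroup_zpowers_of_pow (k := 1) (by simpa using c3)
  refine ⟨zpowers_le.2 cN, pc, fun T hT hT3 hle => ?_⟩
  by_contra hne'
  haveI := hT3.isNilpotent
  have hlt : (zpowers c).subgroupOf T < ⊤ := lt_top_iff_ne_top.2 fun e =>
    hne' (le_antisymm (subgroupOf_eq_top.1 e) hle)
  obtain ⟨y, y1, y2⟩ := SetLike.exists_of_lt (normalizerCondition_of_isNilpotent _ hlt)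
  have cT : c ∈ T := hle (mem_zpowers c)
  have m : y.1 * c * y.1⁻¹ ∈ zpowers c := (mem_normalizer_iff.1 y1 ⟨c, cT⟩).1 (mem_zpowers c)
  obtain ⟨k, hk⟩ := hT3 y
  have yk : y.1 ^ 3 ^ k = 1 := congrArg Subtype.val hk
  have oy : (2 : ℕ).Coprime (orderOf y.1) :=
    (Nat.Coprime.pow_right k (by norm_num)).coprime_dvd_right (orderOf_dvd_of_pow_eq_one yk)
  have yc : y.1 * c = c * y.1 := by
    rcases zp3 c3 m with e | e | e
    · exact (c1 (cj1 (c := y.1⁻¹) (by simpa using e))).elim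
    · exact mem_C1.1 (mem_C1_iff_conj.2 e)
    · refine mem_C1.1 (CfsgH8.mem_of_pow_coprime oy (mem_C1_iff_conj.2 ?_)
        (by rw [pow_orderOf_eq_one]; exact one_mem _))
      calc y.1 ^ 2 * c * (y.1 ^ 2)⁻¹ = y.1 * (y.1 * c * y.1⁻¹) * y.1⁻¹ := by rw [pow_two]; group
        _ = y.1 * c⁻¹ * y.1⁻¹ := by rw [e]
        _ = c := by rw [← conj_inv, e, inv_inv]
  have y6 := H.six c3 c1 yc
  have y3 : y.1 ^ 3 = 1 := orderOf_dvd_iff_pow_eq_one.1
    (oy.symm.dvd_of_dvd_mul_left (by simpa using orderOf_dvd_of_pow_eq_one y6))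
  exact y2 (H.noM hX hne c3 c1 y3 yc.symm cN (hT y.2))

namespace A5D

variable {hs : s ∈ C1 t} {F : C1 t →* Perm (Fin 5)} {c : C1 t} (A : A5D t s hs F c)
include A

theorem ni (H : Cf M g h a t s z w) {x y : G} (xN : x ∈ N (C1 s ⊓ C1 t)) (yN : y ∈ N (C1 s ⊓ C1 t))
    (y3 : y ^ 3 = 1) (y1 : y ≠ 1) : x * y * x⁻¹ ≠ y⁻¹ := fun e => by
  haveI := Fact.mk Nat.prime_three
  have tD : t ∈ C1 s ⊓ C1 t := ⟨mem_C1.2 H.ts', self_mem_C1 t⟩
  have sD : s ∈ C1 s ⊓ C1 t := ⟨self_mem_C1 s, hs⟩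
  have S := H.syl3N (pg_of_sq (A.Dsq H)) (fun e => H.t1 (mem_bot.1 (e ▸ tD))) A.c3 A.c1 (A.cN H)
  obtain ⟨n, hn, hle⟩ := S.exists_le_cj (zpowers_le.2 yN)
    (isPGroup_zpowers_of_pow (k := 1) (by simpa using y3))
  have m := mem_cj.1 (hle (mem_zpowers y))
  have x'N : n⁻¹ * x * n ∈ N (C1 s ⊓ C1 t) := mul_mem (mul_mem (inv_mem hn) xN) hn
  have e' : n⁻¹ * x * n * (n⁻¹ * y * n) * (n⁻¹ * x * n)⁻¹ = (n⁻¹ * y * n)⁻¹ := by
    calc _ = n⁻¹ * (x * y * x⁻¹) * n := by group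
      _ = _ := by rw [e]; group
  generalize n⁻¹ * x * n = x' at x'N e'
  have e2 : x' * c.1 * x'⁻¹ = c.1⁻¹ := by
    rcases zp3 A.c3 m with b | b | b
    · exact (y1 (cj1 b)).elim
    · rwa [b] at e'
    · rw [b, ← conj_inv] at e'; exact inv_injective e'
  have t' := conj_mem_of_mem_N x'N tD
  have e3 : x' * t * x'⁻¹ = t := by
    refine H.two_eq A.c3 A.c1 ?_ (mem_C1.1 c.2).symm (sq_conj H.tt x') H.tt
      (fun b => H.t1 (cj1 (c := x'⁻¹) (by simpa using b))) H.t1 (mem_C1.1 t'.2)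
    have := comm_conj' (mem_C1.1 c.2) x'
    rw [e2] at this
    exact ((Commute.inv_left_iff.1 this).eq).symm
  exact A.hni hs A.fs x' (mem_C1.1 (mem_C1_iff_conj.2 e3))
    (mem_C1.1 (conj_mem_of_mem_N x'N sD).1) e2

theorem fg (H : Cf M g h a t s z w) : F ⟨g, H.gC⟩ ^ 3 = 1 ∧ F ⟨g, H.gC⟩ ≠ 1 := by
  refine ⟨by rw [← map_pow, show (⟨g, H.gC⟩ : C1 t) ^ 3 = 1 from Subtype.ext H.g3, map_one], fun a3 => ?_⟩
  have a4 : g * g * (g * g) = 1 := by
    rcases (A.ker _ a3).1 with e | e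
    · rw [show g * g = 1 from e, one_mul]
    · rw [show g * g = t from e, H.tt]
  apply H.g1
  calc g = g ^ 3 * g := by rw [H.g3, one_mul]
    _ = 1 := by rw [← a4, pow_three']; group

theorem wD (H : Cf M g h a t s z w) {d : G} (hd : d ∈ C1 s ⊓ C1 t) : w * d * w ∈ C1 s ⊓ C1 t := by
  have a1 := comm_conj' (mem_C1.1 hd.2) w
  have a2 := comm_conj' (mem_C1.1 hd.1) w
  rw [H.wi, H.wtw] at a1
  rw [H.wi, H.wsw] at a2
  exact ⟨mem_C1.2 a1, mem_C1.2 a2⟩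

theorem kill_e (H : Cf M g h a t s z w) {e : G} (hd : e ∈ C1 s ⊓ C1 t) (e1 : e ≠ 1)
    (fe : F ⟨e, hd.2⟩ = 1) (ew : e * w = w * e) : False := by
  obtain ⟨-, gs⟩ := H.gridstep (A.Dsq H e hd) e1 (mem_C1.1 hd.2) (mem_C1.1 hd.1) ew
    (H.dvd3 (F := F) (k := ⟨e, hd.2⟩ * ⟨g, H.gC⟩) (by rw [map_mul, fe, one_mul]; exact (A.fg H).1)
      (by rw [map_mul, fe, one_mul]; exact (A.fg H).2))
  generalize w * (g * e * g⁻¹) * w = y at gs
  generalize g * e * g⁻¹ = x at gs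
  have tD : t ∈ C1 s ⊓ C1 t := ⟨mem_C1.2 H.ts', self_mem_C1 t⟩
  have sD : s ∈ C1 s ⊓ C1 t := ⟨self_mem_C1 s, hs⟩
  have key : ∀ x : G, x * x = 1 → x * s * x ∈ C1 s ⊓ C1 t → x * t * x ∈ C1 s ⊓ C1 t →
      x ∈ N (C1 s ⊓ C1 t) := fun x x2 h1 h2 => mem_N_of_conj fun d hd => by
    have xi := inv_of_sq x2
    have k : ∀ v, x * v * x ∈ C1 s ⊓ C1 t → x * d * x⁻¹ ∈ C1 v := fun v hv => by
      have := comm_conj' (A.Dab H d hd _ hv) x
      rw [show x * (x * v * x) * x⁻¹ = v by rw [xi]; simp [mul_assoc, mul_sq_l x2, x2]] at this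
      exact mem_C1.2 this
    exact ⟨k s h1, k t h2⟩
  have xN := key x gs.x2 (gs.xs ▸ mul_mem (mul_mem sD hd) tD)
    (by rw [gs.xt, mul_assoc, gs.x2, mul_one]; exact tD)
  have yN := key y gs.y2 (by rw [gs.ys, mul_assoc, gs.y2, mul_one]; exact sD)
    (gs.yt ▸ mul_mem (mul_mem tD hd) sD)
  refine A.ni H xN (pow_mem (mul_mem xN yN) 2) gs.c3 gs.c1 ?_
  rw [pow_two, mul_inv_rev, mul_inv_rev, inv_of_sq gs.x2, inv_of_sq gs.y2]
  simp [mul_assoc, mul_sq_l gs.x2]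

theorem kill_e0 (H : Cf M g h a t s z w) {e : G} (hd : e ∈ C1 s ⊓ C1 t) (e1 : e ≠ 1)
    (fe : F ⟨e, hd.2⟩ = 1) (fw : F ⟨w * e * w, (A.wD H hd).2⟩ = 1) : False := by
  by_cases b : w * e * w = e
  · refine A.kill_e H hd e1 fe ?_
    nth_rewrite 1 [← b]; rw [mul_assoc, H.ww, mul_one]
  · have hw := A.wD H hd
    refine A.kill_e H (mul_mem hd hw) (fun b' => b ?_) ?_ ?_
    · rw [eq_inv_of_mul_eq_one_right b', inv_of_sq (A.Dsq H e hd)]
    · have : (⟨e * (w * e * w), (mul_mem hd hw).2⟩ : C1 t) = ⟨e, hd.2⟩ * ⟨w * e * w, hw.2⟩ := rfl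
      rw [this, map_mul, fe, fw, one_mul]
    · calc e * (w * e * w) * w = e * w * e * (w * w) := by group
        _ = w * (w * e * w * e) := by rw [H.ww]; simp [mul_assoc, mul_sq_l H.ww]
        _ = _ := by rw [A.Dab H _ hw e hd]

theorem kill_e1 (H : Cf M g h a t s z w) {e : G} (hd : e ∈ C1 s ⊓ C1 t) (e1 : e ≠ 1) (et : e ≠ t)
    (fe : F ⟨e, hd.2⟩ = 1) (fw : F ⟨w * e * w, (A.wD H hd).2⟩ = 1 ∨ F ⟨w * e * w, (A.wD H hd).2⟩ = a5s) :
    False := by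
  rcases fw with b | b
  · exact A.kill_e0 H hd e1 fe b
  · have tD : t ∈ C1 s ⊓ C1 t := ⟨mem_C1.2 H.ts', self_mem_C1 t⟩
    refine A.kill_e0 H (mul_mem hd tD) (fun b' => et ?_) ?_ ?_
    · rw [eq_inv_of_mul_eq_one_left b', H.ti]
    · have : (⟨e * t, (mul_mem hd tD).2⟩ : C1 t) = ⟨e, hd.2⟩ * ⟨t, self_mem_C1 t⟩ := rfl
      rw [this, map_mul, fe, A.ft, one_mul]
    · have : (⟨w * (e * t) * w, (A.wD H (mul_mem hd tD)).2⟩ : C1 t) =
          ⟨w * e * w, (A.wD H hd).2⟩ * ⟨s, hs⟩ := Subtype.ext (by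
        show w * (e * t) * w = w * e * w * s
        rw [← H.wtw]; simp [mul_assoc, mul_sq_l H.ww])
      rw [this, map_mul, b, A.fs, a5_c0.2.2.2]

theorem kill_n (H : Cf M g h a t s z w) {n : G} (hd : n ∈ C1 s ⊓ C1 t) (n1 : n ≠ 1) (nt : n ≠ t)
    (fn : F ⟨n, hd.2⟩ = 1) : False := by
  have hd2 := conj_mem_of_mem_N (A.cN H) hd
  have ctc : c.1 * t * c.1⁻¹ = t := mem_C1_iff_conj.1 c.2
  have fn2 : F ⟨c.1 * n * c.1⁻¹, hd2.2⟩ = 1 := by
    have : (⟨c.1 * n * c.1⁻¹, hd2.2⟩ : C1 t) = c * ⟨n, hd.2⟩ * c⁻¹ := rfl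
    rw [this]; simp [fn]
  have nc : n * c.1 ≠ c.1 * n := fun e =>
    nt (H.two_eq A.c3 A.c1 e (mem_C1.1 c.2).symm (A.Dsq H n hd) H.tt n1 H.t1 (mem_C1.1 hd.2))
  have cs : ∀ d (hd : d ∈ C1 s ⊓ C1 t), F ⟨w * d * w, (A.wD H hd).2⟩ * a5s = a5s * F ⟨w * d * w, (A.wD H hd).2⟩ :=
    fun d hd => by
      rw [← A.fs, ← map_mul, ← map_mul]; congr 1; exact Subtype.ext (mem_C1.1 (A.wD H hd).1)
  rcases a5_two _ _ (A.sg _) (cs n hd) (A.sg _) (cs _ hd2) with b | b | b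
  · exact A.kill_e1 H hd n1 nt fn b
  · refine A.kill_e1 H hd2 (fun e => n1 (cj1 (c := c.1⁻¹) (by simpa using e))) (fun e => nt ?_) fn2 b
    simpa using e.trans ctc.symm
  · have n2 := A.Dsq H n hd
    refine A.kill_e1 H (mul_mem hd hd2) (fun e => nc ?_) (fun e => nc ?_) ?_ ?_
    · have := eq_inv_of_mul_eq_one_right e
      rw [inv_of_sq n2] at this
      exact (mem_C1.1 (mem_C1_iff_conj.2 this)).symm
    · have e1 : c.1 * n * c.1⁻¹ = n * t := (mul_sq_l n2 _).symm.trans (congrArg (n * ·) e)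
      have e2 : c.1 * c.1 * n * (c.1 * c.1)⁻¹ = n := by
        calc _ = c.1 * (c.1 * n * c.1⁻¹) * c.1⁻¹ := by group
          _ = n * t * t := by rw [e1, ← conj_mul, e1, ctc]
          _ = n := by rw [mul_assoc, H.tt, mul_one]
      have m := mem_C1_iff_conj.2 e2
      have m2 := mul_mem m m
      rw [show c.1 * c.1 * (c.1 * c.1) = c.1 ^ 3 * c.1 by rw [pow_three']; group, A.c3, one_mul] at m2
      exact (mem_C1.1 m2).symm
    · have : (⟨n * (c.1 * n * c.1⁻¹), (mul_mem hd hd2).2⟩ : C1 t) = ⟨n, hd.2⟩ * ⟨_, hd2.2⟩ := rfl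
      rw [this, map_mul, fn, fn2, one_mul]
    · have : (⟨w * (n * (c.1 * n * c.1⁻¹)) * w, (A.wD H (mul_mem hd hd2)).2⟩ : C1 t) =
          ⟨w * n * w, (A.wD H hd).2⟩ * ⟨w * (c.1 * n * c.1⁻¹) * w, (A.wD H hd2).2⟩ := Subtype.ext (by
        show w * (n * (c.1 * n * c.1⁻¹)) * w = w * n * w * (w * (c.1 * n * c.1⁻¹) * w)
        simp [mul_assoc, mul_sq_l H.ww])
      rw [this, map_mul]; exact b

/-- the kernel is `⟨t⟩` -/
theorem ker_t (H : Cf M g h a t s z w) (k : C1 t) (fk : F k = 1) : k.1 = 1 ∨ k.1 = t := by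
  by_contra hn
  push Not at hn
  by_cases b : k.1 * s = s * k.1 ∨ k.1 * s = s * k.1 * t
  · exact A.kill_n H (n := k.1) ⟨mem_C1.2 (A.comm H (mem_C1.1 k.2) b), k.2⟩ hn.1 hn.2 fk
  · push Not at b
    let S : C1 t := ⟨s, hs⟩
    have S2 : S * S = 1 := Subtype.ext H.ss
    have f1 : F (S * k * S) = 1 := by rw [map_mul, map_mul, fk, mul_one, ← map_mul, S2, map_one]
    have f2 : F (k * (S * k * S)) = 1 := by rw [map_mul, fk, f1, one_mul]
    have kt := mem_C1.1 k.2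
    have st := H.ts'
    have q := (A.ker k fk).2 _ f1
    have q2 := (A.ker k fk).1
    simp only [S, coe_mul] at q
    have nD : k.1 * (s * k.1 * s) * s = s * (k.1 * (s * k.1 * s)) := by
      apply A.comm H (mem_C1.1 (k * (S * k * S)).2)
      rcases q with e | e
      · left
        show k.1 * (s * k.1 * s) * s = s * (k.1 * (s * k.1 * s))
        nth_rewrite 2 [e]; simp [mul_assoc, mul_sq_l H.ss, H.ss]
      · right
        show k.1 * (s * k.1 * s) * s = s * (k.1 * (s * k.1 * s)) * t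
        nth_rewrite 1 [e]
        calc s * k.1 * s * k.1 * t * s = s * k.1 * s * k.1 * (t * s) := by group
          _ = _ := by rw [st]; group
    have ki : k.1⁻¹ = k.1 ∨ k.1⁻¹ = k.1 * t := by
      rcases q2 with e | e
      · exact Or.inl (inv_of_sq e)
      · right; rw [inv_eq_iff_mul_eq_one, ← mul_assoc, e, H.tt]
    have fin : ∀ v, (v = 1 ∨ v = t) → s * k.1 * s = k.1 * v → False := fun v hv e => by
      have e' : k.1 * s = s * k.1 * v := by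
        calc k.1 * s = s * (s * k.1 * s) := by simp [mul_assoc, mul_sq_l H.ss]
          _ = _ := by rw [e, mul_assoc]
      rcases hv with rfl | rfl
      · exact b.1 (by rw [e', mul_one])
      · exact b.2 e'
    refine A.kill_n H (n := k.1 * (s * k.1 * s)) ⟨mem_C1.2 nD, (k * (S * k * S)).2⟩ (fun e => ?_)
      (fun e => ?_) f2
    · have := eq_inv_of_mul_eq_one_right e
      rcases ki with d | d
      · exact fin 1 (Or.inl rfl) (by rw [this, d, mul_one])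
      · exact fin t (Or.inr rfl) (by rw [this, d])
    · have : s * k.1 * s = k.1⁻¹ * t := eq_inv_mul_of_mul_eq e
      rcases ki with d | d
      · exact fin t (Or.inr rfl) (by rw [this, d])
      · exact fin 1 (Or.inl rfl) (by rw [this, d, mul_assoc, H.tt])

theorem h8 (H : Cf M g h a t s z w) (X : Subgroup G) (hX : IsPGroup 2 X) (hle : X ≤ C1 t) :
    Nat.card X ≤ 8 := by
  haveI := Fact.mk Nat.prime_two
  obtain ⟨k, hk⟩ := IsPGroup.iff_card.1 hX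
  have d1 : Nat.card X ∣ Nat.card (C1 t) := card_dvd_of_le hle
  have d2 : Nat.card F.ker ∣ 2 := by
    have : F.ker ≤ Zt t := fun y hy => by
      have := (pt_eq_one H.tt y).2 (A.ker_t H y hy)
      rwa [QuotientGroup.mk'_apply, QuotientGroup.eq_one_iff] at this
    refine (card_dvd_of_le this).trans ?_
    rw [Zt, Nat.card_zpowers]
    exact orderOf_dvd_of_pow_eq_one (Subtype.ext (by simpa [pow_two] using H.tt))
  have d3 : Nat.card F.range ∣ 60 := by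
    have : F.range ≤ alternatingGroup (Fin 5) := by
      rintro _ ⟨y, rfl⟩; exact Perm.mem_alternatingGroup.2 (A.sg y)
    refine (card_dvd_of_le this).trans ?_
    rw [nat_card_alternatingGroup]; simp [Nat.factorial]
  have d4 : Nat.card (C1 t) = Nat.card F.ker * Nat.card F.range := by
    rw [← F.ker.card_mul_index, index_ker]
  have d5 : 2 ^ k ∣ 120 := by
    rw [← hk]; exact d1.trans (d4 ▸ mul_dvd_mul d2 d3)
  rw [hk]
  by_contra hn
  have : 4 ≤ k := by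
    by_contra h4
    have : k ≤ 3 := by omega
    exact hn (by simpa using Nat.pow_le_pow_right two_pos this)
  have := (pow_dvd_pow 2 this).trans d5
  norm_num at this

theorem exu (H : Cf M g h a t s z w) : ∃ u, u * u = 1 ∧ u * t = t * u ∧ u ≠ 1 ∧ u ≠ t ∧
    u * (c.1 * u * c.1⁻¹) = c.1⁻¹ * u * c.1 ∧
    ∀ x, x * t = t * x → x * u * x⁻¹ * u = u * (x * u * x⁻¹) → x * c.1 * x⁻¹ ≠ c.1⁻¹ := by
  rcases (A.main H).1 with e | e
  · exact ⟨s, H.ss, H.ts'.symm, H.s1, H.sNt, e, A.hni hs A.fs⟩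
  · have ctc : c.1 * t * c.1⁻¹ = t := mem_C1_iff_conj.1 c.2
    have ct := mem_C1.1 c.2
    have m : s * t ∈ C1 t := mul_mem hs (self_mem_C1 t)
    refine ⟨s * t, by rw [H.st, H.zz], mem_C1.1 m, by rw [H.st]; exact H.z1, by rw [H.st]; exact H.zt,
      ?_, A.hni m ?_⟩
    · have s2t : c.1 * s * c.1⁻¹ * t = t * (c.1 * s * c.1⁻¹) := by
        have := comm_conj' H.ts' c.1
        rw [ctc] at this; exact this.symm
      calc s * t * (c.1 * (s * t) * c.1⁻¹) = s * (t * (c.1 * s * c.1⁻¹)) * (c.1 * t * c.1⁻¹) := by group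
        _ = s * (c.1 * s * c.1⁻¹) * (t * t) := by rw [← s2t, ctc]; group
        _ = c.1⁻¹ * s * (c.1 * t) := by rw [H.tt, mul_one, e]; group
        _ = _ := by rw [ct]; group
    · have : (⟨s * t, m⟩ : C1 t) = ⟨s, hs⟩ * ⟨t, self_mem_C1 t⟩ := rfl
      rw [this, map_mul, A.fs, A.ft, mul_one]

end A5D

/-- case (II), given Lemma X -/
theorem Cf.caseA5_of (H : Cf M g h a t s z w)
    (LX : ∀ {c u : G}, c ^ 3 = 1 → c ≠ 1 → c * t = t * c → u * u = 1 → u * t = t * u → u ≠ 1 → u ≠ t →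
      u * (c * u * c⁻¹) = c⁻¹ * u * c → (∀ X : Subgroup G, IsPGroup 2 X → X ≤ C1 t → Nat.card X ≤ 8) →
      (∀ x, x * t = t * x → x * u * x⁻¹ * u = u * (x * u * x⁻¹) → x * c * x⁻¹ ≠ c⁻¹) → False)
    (f : C1 t →* alternatingGroup (Fin 5))
    (surj : Function.Surjective f) (ker : ∀ k, f k = 1 → (k.1 * k.1 = 1 ∨ k.1 * k.1 = t) ∧
      ∀ l, f l = 1 → k.1 * l.1 = l.1 * k.1 ∨ k.1 * l.1 = l.1 * k.1 * t) : False := by
  obtain ⟨F, c, A, -⟩ := H.exA5D f surj ker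
  obtain ⟨u, u2, ut, u1, uNt, uc, hni⟩ := A.exu H
  exact LX A.c3 A.c1 (mem_C1.1 c.2) u2 ut u1 uNt uc (A.h8 H) hni

end CfsgM11
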