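import Cfsg.Agent.H5.MA3
import Cfsg.Agent.H3.MX

set_option autoImplicit false

namespace CfsgM11

open Subgroup CfsgH5 CfsgH6 CfsgFT

variable {G : Type*} [Group G] [Finite G] {M : Subgroup G} {g h a t s z w : G}

/-- case (II) -/
theorem Cf.caseA5 (H : Cf M g h a t s z w) (f : C1 t →* alternatingGroup (Fin 5))
    (surj : Function.Surjective f) (ker : ∀ k, f k = 1 → (k.1 * k.1 = 1 ∨ k.1 * k.1 = t) ∧
      ∀ l, f l = 1 → k.1 * l.1 = l.1 * k.1 ∨ k.1 * l.1 = l.1 * k.1 * t) : False :=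
  H.caseA5_of (fun a b c d e f g h i j => H.lemmaX a b c d e f g h i j) f surj ker

end CfsgM11
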