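import Cfsg.Agent.H9.SE1
import Cfsg.Agent.FT.Main

set_option autoImplicit false
set_option linter.unusedSectionVars false
set_option linter.unusedVariables false
set_option maxHeartbeats 400000

/-! Group-theoretic lemmas for the no-good-pair lemma `SE.ng`. -/

namespace CfsgSE

open Subgroup CfsgH5 CfsgH6 CfsgFT CfsgSZ CfsgSZ.PS
open scoped commutatorElement

universe u

variable {G : Type u} [Group G] [Finite G] {X Y H R M F B : Subgroup G} {j k g x : G} {p : ℕ}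

/-- an element of an odd `j`-invariant group is an inverted element times a centralised one. -/
theorem ng_dec (hj : j * j = 1) (hn : j ∈ N X) (ho : Odd (Nat.card X)) (hg : g ∈ X) :
    ∃ c ∈ X, j * c * j⁻¹ = c⁻¹ ∧ c⁻¹ * g ∈ C1 j := by
  have a := pt_comm_mem hj hn hg
  have b := pt_inv_comm hj g
  obtain ⟨c, c1, c2⟩ := pt_conj_of_inv' b (pt_odd_mem ho a)
  refine ⟨c, zpowers_le.2 a c1, pt_inv_zp b c1, ?_⟩
  rw [mem_C1]
  have e : g * j * g⁻¹ = c * j * c⁻¹ := by rw [← c2, mul_assoc (g * j * g⁻¹), hj, mul_one]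
  calc c⁻¹ * g * j = c⁻¹ * (g * j * g⁻¹) * g := by group
    _ = j * (c⁻¹ * g) := by rw [e]; group

theorem ng_le (hj : j * j = 1) (hn : j ∈ N X) (ho : Odd (Nat.card X)) (h1 : C1 j ≤ H)
    (h2 : ∀ c ∈ X, j * c * j⁻¹ = c⁻¹ → c ∈ H) : X ≤ H := fun g hg => by
  obtain ⟨c, c1, c2, c3⟩ := ng_dec hj hn ho hg
  simpa using mul_mem (h2 c c1 c2) (h1 c3)

/-- the elements centralising the section `B / S`. -/
def ngStab (B S : Subgroup G) : Subgroup G where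
  carrier := {g | g ∈ N B ∧ ∀ n ∈ B, g * n * g⁻¹ * n⁻¹ ∈ S}
  one_mem' := ⟨one_mem _, fun n _ => by simp⟩
  mul_mem' := fun {a b} ⟨a1, a2⟩ ⟨b1, b2⟩ => ⟨mul_mem a1 b1, fun n hn => by
    have := mul_mem (a2 _ (conj_mem_of_mem_N b1 hn)) (b2 n hn)
    simpa [mul_assoc] using this⟩
  inv_mem' := fun {a} ⟨a1, a2⟩ => ⟨inv_mem a1, fun n hn => by
    have := inv_mem (a2 _ (conj_mem_of_mem_N (inv_mem a1) hn))
    simpa [mul_assoc] using this⟩

/-- `j` inverts `B / (B ⊓ H)`, so an element inverted by `j` centralises this section. -/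
theorem ng_cent {H' : Subgroup G} (hj : j * j = 1) (hn : j ∈ N B) (ho : Odd (Nat.card B))
    (h1 : C1 j ≤ H) (h2 : D B ≤ H) (e : B ⊓ H = B ⊓ H') (hk : k ∈ N B) (hk' : k ∈ H')
    (ok : Odd (orderOf k)) (ik : j * k * j⁻¹ = k⁻¹) :
    ∀ n ∈ B, k * n * k⁻¹ * n⁻¹ ∈ B ⊓ H := by
  have s : ∀ n ∈ B, j * n * j⁻¹ * n ∈ B ⊓ H := fun n hn' => by
    obtain ⟨c, c1, c2, c3⟩ := ng_dec hj hn ho hn'
    refine ⟨mul_mem (conj_mem_of_mem_N hn hn') hn', ?_⟩
    have z1 : c⁻¹ * n ∈ B := mul_mem (inv_mem c1) hn'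
    have a : ⁅c⁻¹, c⁻¹ * n⁆ ∈ H := h2 (commutator_mem_commutator (inv_mem c1) z1)
    have b := mem_C1_iff_conj'.1 c3
    have : j * n * j⁻¹ * n = ⁅c⁻¹, c⁻¹ * n⁆ * (c⁻¹ * n) * (c⁻¹ * n) := by
      calc j * n * j⁻¹ * n = (j * c * j⁻¹) * (j * (c⁻¹ * n) * j⁻¹) * n := by group
        _ = _ := by rw [c2, b, commutatorElement_def]; group
    rw [this]
    exact mul_mem (mul_mem a (h1 c3)) (h1 c3)
  have kS : ∀ y ∈ B ⊓ H, k * y * k⁻¹ ∈ B ⊓ H := fun y hy => by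
    rw [e] at hy ⊢
    exact ⟨conj_mem_of_mem_N hk hy.1, H'.mul_mem (H'.mul_mem hk' hy.2) (H'.inv_mem hk')⟩
  have sq : k * k ∈ ngStab B (B ⊓ H) := ⟨mul_mem hk hk, fun n hn' => by
    have a := s _ (inv_mem hn')
    have b := kS _ (s _ (conj_mem_of_mem_N hk (inv_mem hn')))
    have c := mul_mem (inv_mem b) a
    have e1 : j * k = k⁻¹ * j := by rw [← ik]; group
    have e2 : k⁻¹ * j⁻¹ = j⁻¹ * k := by
      have : j * k⁻¹ * j⁻¹ = k := by rw [← conj_inv, ik, inv_inv]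
      calc k⁻¹ * j⁻¹ = j⁻¹ * (j * k⁻¹ * j⁻¹) := by group
        _ = _ := by rw [this]
    have : k * (j * (k * n⁻¹ * k⁻¹) * j⁻¹ * (k * n⁻¹ * k⁻¹)) * k⁻¹ =
        j * n⁻¹ * j⁻¹ * (k * k) * n⁻¹ * (k * k)⁻¹ := by
      calc _ = k * (j * k) * n⁻¹ * (k⁻¹ * j⁻¹) * (k * n⁻¹ * k⁻¹) * k⁻¹ := by group
        _ = _ := by rw [e1, e2]; group
    rw [this] at c
    convert c using 1
    simp [mul_assoc]⟩
  exact (pt_mem_of_sq ok sq).2

/-- a coprime group generated by inverted elements. -/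
theorem ng_prod (hj : j * j = 1) (h1 : C1 j ≤ H) (hY : Y ≤ H) (oY : Odd (Nat.card Y))
    (gen : ∀ L : Subgroup G, (∀ y ∈ Y, j * y * j⁻¹ = y⁻¹ → y ∈ L) → Y ≤ L) (n : ℕ) :
    ∀ X : Subgroup G, Nat.card X = n → Odd (Nat.card X) → j ∈ N X → Nrm Y X →
      (Nat.card X).Coprime (Nat.card Y) → X ⊓ C Y ≤ H → X ≤ H := by
  induction n using Nat.strong_induction_on with
  | _ n ih =>
  intro X hc ho hn hYX hco hC
  by_cases h0 : X = ⊥
  · simp [h0]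
  have sv : Group.IsSolvable X := solvable_of_odd ho
  have lt := D_lt_of_solvable sv h0
  have hD : D X ≤ H := ih _ (hc ▸ card_lt_of_lt lt) (D X) rfl
    (ho.of_dvd_nat (card_dvd_of_le' lt.le))
    (nrm_zpowers_iff.1 (nrm_zpowers_iff.2 hn).D) hYX.D (coprime_of_le hco lt.le le_rfl)
    ((inf_le_inf_right _ lt.le).trans hC)
  have a : Y ≤ ngStab X (X ⊓ H) := gen _ fun y hy iy =>
    ⟨hYX.le_N hy, ng_cent hj hn ho h1 hD rfl (hYX.le_N hy) (hY hy) (pt_odd_mem oY hy) iy⟩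
  have b : ⁅X, Y⁆ ≤ H := by
    rw [commutator_comm, commutator_le]
    intro y hy x hx
    exact ((a hy).2 x hx).2
  rw [← comm_sup_inf_C hYX hco (Or.inl sv)]
  exact sup_le b hC

/-- a normal section on which `j` acts as `-1`. -/
theorem ng_block (hn : j ∈ N X) (ho : Odd (Nat.card X)) (h : ¬ X ≤ H) :
    ∃ B ≤ X, Nrm X B ∧ j ∈ N B ∧ ¬ B ≤ H ∧ D B ≤ H := by
  obtain ⟨B, b1, ⟨b2, b3, b4⟩, b5⟩ := exists_minimal_le
    (P := fun B => Nrm X B ∧ j ∈ N B ∧ ¬ B ≤ H) (X := X) ⟨Nrm.self X, hn, h⟩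
  refine ⟨B, b1, b2, b3, b4, ?_⟩
  by_contra e
  have h0 : B ≠ ⊥ := fun e => b4 (by simp [e])
  have lt := D_lt_of_solvable (solvable_of_odd (ho.of_dvd_nat (card_dvd_of_le' b1))) h0
  exact lt.ne (b5 _ ⟨b2.D, nrm_zpowers_iff.1 (nrm_zpowers_iff.2 b3).D, e⟩ lt.le)

/-- a `p'`-subgroup normalised by a Sylow `p`-subgroup lies in `O_p'`. -/
theorem ng_le_Opc (hp : p.Prime) (hs : Group.IsSolvable M) (hR : SylIn p R M) (hF : F ≤ M)
    (hn : Nrm R F) (hF' : PiG {p}ᶜ F) : F ≤ Opc p M := by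
  have co : (Nat.card F).Coprime (Nat.card ↥(R ⊓ Opp p M)) :=
    (coprime_of_isPGroup_of_not_dvd hp (hR.isPGroup.to_le inf_le_left)
      (piN_compl_single' hp |>.1 hF' |> fun h => (Nat.Prime.coprime_iff_not_dvd hp).1 h.symm)).symm
  have a : F ≤ Opp p M := by
    rw [← comm_sup_inf_C (hn.mono inf_le_left) co (Or.inl (solvable_of_le hs hF))]
    refine sup_le ?_ ((inf_le_inf_right _ hF).trans (hR.inf_C_inf_Opp_le hp hs))
    exact (commutator_mono hF inf_le_right).trans (nrm_Opp p M).comm_le_right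
  rw [← Opc_Opp]
  exact (pNil_Opp hp M).le_Opc hp a hF'

end CfsgSE
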