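import Cfsg.Agent.H9.SE2
import Cfsg.Agent.H5.NG1

set_option autoImplicit false
set_option linter.unusedSectionVars false
set_option linter.unusedVariables false
set_option maxHeartbeats 400000

/-! The reduction step of the no-good-pair lemma. -/

namespace CfsgSE

open Subgroup CfsgH5 CfsgH6 CfsgFT CfsgSZ CfsgSZ.PS
open scoped commutatorElement

universe u

variable {G Ω : Type u} [Group G] [Finite G] [MulAction G Ω] {X Y R : Subgroup G}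
  {j k g x : G} {p : ℕ} {e c : Ω}

/-- the subgroup generated by the inverted elements. -/
def ngY (j : G) (R : Subgroup G) : Subgroup G := closure {x | x ∈ R ∧ j * x * j⁻¹ = x⁻¹}

theorem ngY_le : ngY j R ≤ R := (closure_le _).2 fun _ h => h.1
theorem mem_ngY (h1 : x ∈ R) (h2 : j * x * j⁻¹ = x⁻¹) : x ∈ ngY j R := subset_closure ⟨h1, h2⟩
theorem ngY_gen (L : Subgroup G) (h : ∀ y ∈ ngY j R, j * y * j⁻¹ = y⁻¹ → y ∈ L) : ngY j R ≤ L :=
  (closure_le _).2 fun _ a => h _ (mem_ngY a.1 a.2) a.2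
theorem mem_N_ngY : j ∈ N (ngY j R) := by
  refine mem_N_of_cj_le ?_
  rw [cj_le_iff]
  refine ngY_gen _ fun y a b => ?_
  rw [mem_cj, inv_inv, b]
  exact inv_mem a

namespace SE
variable (S : SE G Ω)
include S

/-- the set `CC` of points on which the argument runs. -/
theorem ng_CC (hp : p.Prime) (hj : Iv j) (he : j • e = e) (hce : c ≠ e) (hY : Y ≤ St G e)
    (hc : Y ≤ St G c) (hn : j ∈ N Y) (hnc : j ∉ C Y)
    (hR : ∀ a : Ω, a ≠ e → Y ≤ St G a → ∃ R, Y ≤ R ∧ j ∈ N R ∧ R ≤ St G e ∧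
      SylIn p R (St G e ⊓ St G a)) :
    ∃ CC : Set Ω, CC.Nonempty ∧ ∀ a ∈ CC, a ≠ e ∧ Y ≤ St G a ∧
      C Y ⊓ (St G a ⊓ St G (j • a)) ≤ St G e ∧
      ∃ b ∈ CC, ∃ g : G, cj g (St G e ⊓ St G a) = St G b ⊓ St G (j • b) := by
  by_cases h : C Y ≤ St G e
  · refine ⟨{a | a ≠ e ∧ Y ≤ St G a}, ⟨c, hce, hc⟩, fun a ⟨a1, a2⟩ =>
      ⟨a1, a2, inf_le_left.trans h, ?_⟩⟩
    obtain ⟨R, r1, r2, r3, r4⟩ := hR a a1 a2
    obtain ⟨w, w1, w2, w3⟩ := S.syl_J hp a1.symm r4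
    obtain ⟨g, g1, g2⟩ := S.conj_of_not_le hj r2 he
      (fun f => a1 (w2.symm.trans (f w3))) w1 hj w3 r2
    have e1 : j • g • e = g • a := by
      rw [← g2, ← w2]; simp [mul_smul]
    refine ⟨g • e, ⟨fun f => ?_, r1.trans (le_St_smul r3 g1)⟩, g, ?_⟩
    · rw [f, he] at e1
      exact a1 (MulAction.injective g (show g • a = g • e by rw [f, ← e1]))
    · rw [cj_inf, cj_St, cj_St, e1]
  have jC : j ∈ N (C Y) := nrm_zpowers_iff.1 (nrm_zpowers_iff.2 hn).C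
  have ho : Odd (Nat.card (C Y)) := odd_of_no_iv fun y y1 y2 => by
    obtain ⟨g, g1, g2⟩ := S.conj_of_not_le (X := N Y) hj hn he
      (fun f => h ((C_le_N Y).trans f)) y2 hj (C_le_N Y y1) hn
    exact hnc (g2 ▸ nrm_N_C Y g g1 y y1)
  obtain ⟨B, b1, b2, b3, b4, b5⟩ := ng_block jC ho h
  have oB : Odd (Nat.card B) := ho.of_dvd_nat (card_dvd_of_le' b1)
  have fx : ∀ n ∈ B, ∀ s ∈ B, s • e = e → s • n • e = n • e := fun n hn' s hs f => by
    have : ⁅n⁻¹, s⁆ ∈ St G e := b5 (commutator_mem_commutator (inv_mem hn') hs)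
    rw [mem_St, commutatorElement_def, inv_inv, mul_smul, mul_smul, mul_smul,
      inv_smul_eq_iff] at this
    have e2 : s⁻¹ • e = e := inv_mem (show s ∈ St G e from f)
    rwa [e2] at this
  obtain ⟨n0, n1, n2⟩ := SetLike.not_le_iff_exists.1 b4
  refine ⟨{a | a ≠ e ∧ ∃ n ∈ B, n • e = a}, ⟨n0 • e, n2, n0, n1, rfl⟩, ?_⟩
  rintro a ⟨a1, n, hn', rfl⟩
  refine ⟨a1, le_St_smul hY (C_le_N Y (b1 hn')), ?_, ?_⟩
  · have eq : B ⊓ St G e = B ⊓ St G (n • e) := by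
      refine eq_of_le_of_card_eq (fun s hs => ⟨hs.1, fx n hn' s hs.1 hs.2⟩) ?_
      rw [← cj_St, ← card_cj n (B ⊓ St G e), cj_inf, cj_self hn']
    refine ng_le hj.sq (nrm_zpowers_iff.1 ((nrm_zpowers_iff.2 jC).inf
      (nrm_zpowers_iff.2 (mem_N_D hj.sq _)))) (ho.of_dvd_nat (card_dvd_of_le' inf_le_left))
      (S.C1_le hj he) fun k k1 k2 => ?_
    have := ng_cent hj.sq b3 oB (S.C1_le hj he) b5 eq (b2.le_N k1.1) k1.2.1 (pt_odd_mem ho k1.1) k2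
      n⁻¹ (inv_mem hn')
    have f : (k * n⁻¹ * k⁻¹ * n⁻¹⁻¹) • e = e := this.2
    have f2 : k⁻¹ • n • e = n • e := inv_mem (show k ∈ St G (n • e) from k1.2.1)
    rw [inv_inv, mul_smul, mul_smul, mul_smul, f2, inv_smul_smul] at f
    exact f
  · obtain ⟨k, k1, k2, k3⟩ := ng_dec hj.sq b3 oB hn'
    obtain ⟨q, q1, q2⟩ := pt_sqrt (pt_odd_mem oB k1)
    have e1 : n • e = q • q • e := by
      have : (k⁻¹ * n) • e = e := S.C1_le hj he k3
      rw [mul_smul, inv_smul_eq_iff] at this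
      rw [this, ← q2, mul_smul]
    have e2 : j • q • e = q⁻¹ • e := by
      rw [← pt_inv_zp k2 q1, mul_smul, mul_smul, hj.inv, he]
    refine ⟨q • e, ⟨fun f => a1 (by rw [e1, f, f]), q, zpowers_le.2 k1 q1, rfl⟩, q⁻¹, ?_⟩
    rw [cj_inf, cj_St, cj_St, e1, e2, inv_smul_smul, inf_comm]

/-- the reduction step. -/
theorem ng_step (hp : p.Prime) (hj : Iv j) (he : j • e = e) (hce : c ≠ e)
    (hR : SylIn p R (St G c ⊓ St G (j • c))) (hjR : j ∈ N R) (hRe : R ≤ St G e)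
    (hx : x ∈ R) (ix : j * x * j⁻¹ = x⁻¹) (x1 : x ≠ 1) :
    ∃ U : Subgroup G, U ≠ ⊥ ∧ Odd (Nat.card U) ∧ ∃ a : Ω, ∃ R' : Subgroup G, a ≠ e ∧
      SylIn p R' (St G a ⊓ St G (j • a)) ∧ j ∈ N R' ∧ R' ≤ St G e ∧ ngY j R ≤ R' ∧
      St G a ⊓ St G (j • a) ≤ N U ∧ (∀ s : G, Iv s → s • e = e → s ∈ N U) ∧
      ∃ w ∈ N U, Iv w ∧ w • a = a := by
  haveI := Fact.mk hp
  haveI : BG23.{u} := BG23_holds
  have mv : ∀ a : Ω, a ≠ e → j • a ≠ a := fun a h => S.moves hj he h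
  have oD : ∀ a : Ω, a ≠ e → Odd (Nat.card ↥(St G a ⊓ St G (j • a))) := fun a h =>
    S.odd_D (mv a h).symm
  have oR : Odd (Nat.card R) := (oD c hce).of_dvd_nat (card_dvd_of_le' hR.le)
  have oY : Odd (Nat.card (ngY j R)) := oR.of_dvd_nat (card_dvd_of_le' ngY_le)
  have pY : IsPGroup p (ngY j R) := hR.isPGroup.to_le ngY_le
  have Ye : ngY j R ≤ St G e := ngY_le.trans hRe
  have ex : ∀ a : Ω, a ≠ e → ngY j R ≤ St G a → ∃ R', ngY j R ≤ R' ∧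
      SylIn p R' (St G a ⊓ St G (j • a)) ∧ j ∈ N R' ∧ R' ≤ St G e := fun a a1 a2 => by
    refine S.exists_sconf hp hj (mv c hce) hR hjR hj he a1 pY Ye a2 mem_N_ngY ?_
    rw [← pt_ncard_inv hj.sq hjR oR, ← pt_ncard_inv hj.sq mem_N_ngY oY]
    exact Set.ncard_le_ncard (fun y hy => ⟨mem_ngY hy.1 hy.2, hy.2⟩) (Set.toFinite _)
  have nc : j ∉ C (ngY j R) := fun f => by
    have a := mem_C.1 f x (mem_ngY hx ix)
    refine x1 (pt_eq_one (pt_odd_mem oR hx) ?_)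
    rw [← a, mul_inv_cancel_right] at ix
    nth_rewrite 1 [ix]
    exact inv_mul_cancel x
  obtain ⟨CC, ne, hC⟩ := S.ng_CC hp hj he hce Ye (ngY_le.trans (hR.le.trans inf_le_left))
    mem_N_ngY nc fun a a1 a2 =>
      let ⟨R', r1, r2, r3, r4⟩ := ex a a1 a2
      ⟨R', r1, r3, r4, S.sylIn_of_good hp hj he a1.symm r2 r4⟩
  obtain ⟨F, ⟨a, aC, rfl⟩, mx⟩ := exists_max_card
    (P := fun F : Subgroup G => ∃ a ∈ CC, F = Opc p (St G a ⊓ St G (j • a)))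
    (let ⟨a, h⟩ := ne; ⟨_, a, h, rfl⟩)
  obtain ⟨a1, a2, a3, b, bC, g, hg⟩ := hC a aC
  obtain ⟨R', r1, r2, r3, r4⟩ := ex a a1 a2
  have r5 := S.sylIn_of_good hp hj he a1.symm r2 r4
  set D1 := St G a ⊓ St G (j • a) with hD1
  set D2 := St G e ⊓ St G a with hD2
  have o1 : Odd (Nat.card D1) := oD a a1
  have o2 : Odd (Nat.card D2) := S.odd_D a1.symm
  have l1 : Opc p D1 ≤ D1 := Opi_le _ _
  have pF : PiG {p}ᶜ (Opc p D1) := piG_Opi _ _
  have nF : Nrm D1 (Opc p D1) := nrm_Opi _ _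
  have jF : j ∈ N (Opc p D1) :=
    nrm_zpowers_iff.1 ((nrm_zpowers_iff.2 (mem_N_D hj.sq a)).Opi _)
  have Fe : Opc p D1 ≤ St G e := ng_prod hj.sq (S.C1_le hj he) Ye oY ngY_gen _ _ rfl
    (o1.of_dvd_nat (card_dvd_of_le' l1)) jF (nF.mono (r1.trans r2.le))
    (coprime_of_isPGroup_of_not_dvd hp pY (not_dvd_card_Opc hp _)).symm
    (fun y hy => a3 ⟨hy.2, l1 hy.1⟩)
  have eq : Opc p D1 = Opc p D2 := by
    refine eq_of_le_of_card_le (ng_le_Opc hp (solvable_of_odd o2) r5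
      (le_inf Fe (l1.trans inf_le_left)) (nF.mono r2.le) pF) ?_
    have := mx _ ⟨b, bC, rfl⟩
    rwa [← hg, show Opc p (cj g D2) = cj g (Opc p D2) from (cj_Opi _ _ _).symm, card_cj] at this
  have n1 := B6.Puig_center_p'core_normal_pf o1 (solvable_of_odd o1) r2
  have n2 := B6.Puig_center_p'core_normal_pf o2 (solvable_of_odd o2) r5
  rw [← eq] at n2
  have nz : ∀ y ∈ N R', y ∈ N (Opc p D1) → y ∈ N (Opc p D1 ⊔ Z (Puig R')) := fun y y1 y2 =>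
    nrm_zpowers_iff.1 ((nrm_zpowers_iff.2 y2).sup
      ((B6.center_Puig_char_pf R').nrm (nrm_zpowers_iff.2 y1)))
  have jU := nz j r3 jF
  obtain ⟨w, w1, w2, w3⟩ := S.syl_J hp a1.symm r5
  have wU : w ∈ N (Opc p D1 ⊔ Z (Puig R')) := nz w w3 (by
    rw [eq]
    have := mem_N_D w1.sq e
    rw [w2] at this
    exact nrm_zpowers_iff.1 ((nrm_zpowers_iff.2 this).Opi _))
  refine ⟨_, fun f => x1 ?_, o1.of_dvd_nat (card_dvd_of_le' n1.le), a, R', a1, r2, r3, r4, r1,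
    n1.le_N, fun s s1 s2 => ?_, w * j * w⁻¹, mul_mem (mul_mem wU jU) (inv_mem wU), hj.conj w, ?_⟩
  · have := B6.trivg_center_Puig_pgroup_pf r2.isPGroup (le_bot_iff.1 (f ▸ le_sup_right))
    exact mem_bot.1 (this ▸ r1 (mem_ngY hx ix))
  · obtain ⟨d, d1, d2⟩ := S.conj_D a1.symm hj s1 he s2
    have := n2.le_N d1
    exact d2 ▸ mul_mem (mul_mem this jU) (inv_mem this)
  · rw [← w2]; exact conj_smul he w

end SE

end CfsgSE
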