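import Cfsg.Agent.H5.Xp1
import Cfsg.Agent.H7.SpecBasic

set_option autoImplicit false
set_option linter.unusedSectionVars false

/-! Prime graphs shared by infinitely many groups: split extensions by a module. -/

namespace CfsgH5.Pg
open Subgroup CfsgH5 CfsgH6 CfsgFT

universe u
variable {G : Type u} [Group G] [Finite G] {p q : ℕ}

/-- `p` and `q` are joined in the prime graph. -/
def Adj (G : Type*) [Group G] (p q : ℕ) : Prop := ∃ g : G, orderOf g = p * q

/-- same prime graph -/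
def Same (G H : Type*) [Group G] [Group H] : Prop :=
  (∀ p : ℕ, p.Prime → (p ∣ Nat.card G ↔ p ∣ Nat.card H)) ∧
    ∀ p q : ℕ, p.Prime → q.Prime → p ≠ q →
      ((∃ g : G, orderOf g = p * q) ↔ (∃ g : H, orderOf g = p * q))

/-- the orders of the groups with the prime graph of `G` are unbounded -/
def Unb (G : Type*) [Group G] : Prop :=
  ∀ n : ℕ, ∃ (H : Type) (_ : Group H) (_ : Finite H), Same G H ∧ n < Nat.card H

theorem Adj.symm (h : Adj G p q) : Adj G q p := by rwa [Adj, mul_comm]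

theorem adj_of_dvd {g : G} (h : p * q ∣ orderOf g) : Adj G p q :=
  CfsgH7.exists_orderOf_of_dvd' g h

theorem ord_mul {H : Type*} [Group H] {x y : H} (hp : p.Prime) (hq : q.Prime) (h : p ≠ q)
    (hx : orderOf x = p) (hy : orderOf y = q) (c : x * y = y * x) : orderOf (x * y) = p * q := by
  rw [← hx, ← hy]
  exact Commute.orderOf_mul_eq_mul_orderOf_of_coprime c
    (by rw [hx, hy]; exact (Nat.coprime_primes hp hq).2 h)

theorem adj_of_comm {x y : G} (hp : p.Prime) (hq : q.Prime) (h : p ≠ q)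
    (hx : orderOf x = p) (hy : orderOf y = q) (c : x * y = y * x) : Adj G p q :=
  ⟨_, ord_mul hp hq h hx hy c⟩

theorem Unb.of_same {H : Type*} [Group H] (s : Same G H) (h : Unb H) : Unb G := fun n => by
  obtain ⟨K, i, j, t, e⟩ := h n
  exact ⟨K, i, j, ⟨fun p hp => (s.1 p hp).trans (t.1 p hp),
    fun p q hp hq c => (s.2 p q hp hq c).trans (t.2 p q hp hq c)⟩, e⟩

theorem unb_of_solv (K : Subgroup G) [K.Normal] (h0 : K ≠ ⊥) (hs : Group.IsSolvable K) :
    Unb G := fun n => by
  obtain ⟨H, i, j, e, s⟩ := CfsgH7.exists_large_isospectral K h0 hs n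
  exact ⟨H, i, inferInstance, CfsgH7.primeGraph_of_spec_eq s.symm, by rwa [Nat.card_eq_fintype_card]⟩

theorem ord_map {H : Type*} [Group H] {K : Type*} [Group K] (f : H →* K) {x : H} (hp : p.Prime)
    (hx : orderOf x = p) (h1 : f x ≠ 1) : orderOf (f x) = p :=
  ((Nat.dvd_prime hp).1 (hx ▸ orderOf_map_dvd f x)).resolve_left (by simpa using h1)

theorem unb_of_act {V : Type*} [Group V] [Finite V] [Nontrivial V] (φ : G →* MulAut V)
    (hq : q.Prime) (hV : IsPGroup q V) (hc : ∀ a b : V, a * b = b * a) (hd : q ∣ Nat.card G)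
    (hf : ∀ b : ℕ, b.Prime → b ≠ q → ∀ g : G, orderOf g = b → ∀ v : V, v ≠ 1 → φ g v = v →
      Adj G q b) : Unb G := by
  haveI := Fact.mk hq
  haveI : Finite (V ⋊[φ] G) := Finite.of_equiv _ SemidirectProduct.equivProd.symm
  have k : ∀ a : ℕ, a.Prime → ∀ y : V ⋊[φ] G, orderOf y = a → y.right = 1 → a = q := by
    intro a ha y hy e
    have : y = SemidirectProduct.inl y.left := by ext <;> simp [e]
    rw [this, orderOf_injective _ SemidirectProduct.inl_injective] at hy
    obtain ⟨k, hk⟩ := IsPGroup.iff_orderOf.1 hV y.left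
    exact (Nat.prime_dvd_prime_iff_eq ha hq).1 (ha.dvd_of_dvd_pow (n := k) (by rw [← hk, hy]))
  have m : ∀ a b : ℕ, a.Prime → b.Prime → a ≠ b → b ≠ q → ∀ y z : V ⋊[φ] G, orderOf y = a →
      orderOf z = b → y * z = z * y → Adj G a b := by
    intro a b ha hb ab bq y z hy hz c
    have z1 : orderOf z.right = b :=
      ord_map SemidirectProduct.rightHom hb hz fun e => bq (k b hb z hz e)
    by_cases e : y.right = 1
    · rw [k a ha y hy e]
      refine hf b hb bq _ z1 y.left (fun e1 => ?_) ?_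
      · have : y = 1 := by ext <;> simp [e, e1]
        rw [this, orderOf_one] at hy
        exact ha.one_lt.ne hy
      · have := congrArg SemidirectProduct.left c
        simp only [SemidirectProduct.mul_left, e, map_one, MulAut.one_apply] at this
        rw [hc] at this
        exact (mul_left_cancel this).symm
    · exact adj_of_comm ha hb ab (ord_map SemidirectProduct.rightHom ha hy e) z1
        (congrArg SemidirectProduct.right c)
  refine Unb.of_same (H := V ⋊[φ] G) ⟨fun a ha => ?_, fun a b ha hb ab => ⟨?_, ?_⟩⟩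
    (unb_of_solv (SemidirectProduct.rightHom (φ := φ)).ker ?_ ?_)
  · rw [Nat.card_congr SemidirectProduct.equivProd, Nat.card_prod]
    refine ⟨fun e => e.mul_left _, fun e => ((Nat.Prime.dvd_mul ha).1 e).elim (fun e => ?_) id⟩
    obtain ⟨k, hk⟩ := IsPGroup.iff_card.1 hV
    rw [(Nat.prime_dvd_prime_iff_eq ha hq).1 (ha.dvd_of_dvd_pow (hk ▸ e))]
    exact hd
  · rintro ⟨g, hg⟩
    exact ⟨SemidirectProduct.inr g, by rwa [orderOf_injective _ SemidirectProduct.inr_injective]⟩
  · rintro ⟨x, hx⟩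
    have h1 : orderOf (x ^ b) = a := by
      rw [orderOf_pow_of_dvd hb.ne_zero (hx ▸ Dvd.intro_left _ rfl), hx,
        Nat.mul_div_cancel _ hb.pos]
    have h2 : orderOf (x ^ a) = b := by
      rw [orderOf_pow_of_dvd ha.ne_zero (hx ▸ Dvd.intro _ rfl), hx,
        Nat.mul_div_cancel_left _ ha.pos]
    have c : x ^ b * x ^ a = x ^ a * x ^ b := by rw [← pow_add, ← pow_add, add_comm]
    by_cases bq : b = q
    · exact (m b a hb ha ab.symm (bq ▸ ab) _ _ h2 h1 c.symm).symm
    · exact m a b ha hb ab bq _ _ h1 h2 c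
  · obtain ⟨v, hv⟩ := exists_ne (1 : V)
    intro e
    have : SemidirectProduct.inl v ∈ (SemidirectProduct.rightHom (φ := φ)).ker := by simp
    rw [e, mem_bot] at this
    exact hv (SemidirectProduct.inl_injective (by rw [this, map_one]))
  · refine solvable_of_ab (ab_iff.2 fun x hx y hy => ?_)
    rw [MonoidHom.mem_ker, SemidirectProduct.rightHom_eq_right] at hx hy
    ext
    · simp [hx, hy, hc x.left]
    · simp [hx, hy]

/-- the coinduced module -/
def Co {K : Type*} [Group K] {L : Subgroup G} (S : Subgroup G) (θ : L →* K) (W : Subgroup K) :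
    Subgroup (G → K) where
  carrier := {f | (∀ h, f h ∈ W) ∧ ∀ l : L, ∀ s ∈ S, ∀ h, f (l * s * h) = θ l * f h * (θ l)⁻¹}
  one_mem' := ⟨fun _ => one_mem _, fun _ _ _ _ => by simp⟩
  mul_mem' ha hb := ⟨fun h => mul_mem (ha.1 h) (hb.1 h), fun l s hs h => by
    simp only [Pi.mul_apply, ha.2 l s hs h, hb.2 l s hs h]; group⟩
  inv_mem' ha := ⟨fun h => inv_mem (ha.1 h), fun l s hs h => by
    simp only [Pi.inv_apply, ha.2 l s hs h]; group⟩

/-- translation -/
def tr {K : Type*} [Group K] {L : Subgroup G} (S : Subgroup G) (θ : L →* K) (W : Subgroup K)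
    (g : G) (f : Co S θ W) : Co S θ W :=
  ⟨fun h => f.1 (h * g), fun h => f.2.1 _, fun l s hs h => by
    simpa only [mul_assoc] using f.2.2 l s hs (h * g)⟩

/-- the action on the coinduced module -/
def act {K : Type*} [Group K] {L : Subgroup G} (S : Subgroup G) (θ : L →* K) (W : Subgroup K) :
    G →* MulAut (Co S θ W) where
  toFun g :=
    { toFun := tr S θ W g
      invFun := tr S θ W g⁻¹
      left_inv := fun f => by ext h; simp [tr]
      right_inv := fun f => by ext h; simp [tr]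
      map_mul' := fun _ _ => rfl }
  map_one' := by ext f h; simp [tr]
  map_mul' a b := by
    ext f h
    exact congrArg f.1 (mul_assoc h a b).symm

theorem unb_of_ind {K : Type*} [Group K] [Finite K] {L S : Subgroup G} [hS : S.Normal]
    (θ : L →* K) {W : Subgroup K} (h0 : W ≠ ⊥) (hq : q.Prime) (hW : IsPGroup q W) (hab : Ab W)
    (hn : ∀ l : L, ∀ w ∈ W, θ l * w * (θ l)⁻¹ ∈ W) (ht : ∀ l : L, (l : G) ∈ S → θ l ∈ C W)
    (hd : q ∣ Nat.card G)
    (hf : ∀ b : ℕ, b.Prime → b ≠ q → ¬ Adj G q b → ∀ g : G, orderOf g = b →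
      ∃ l : L, ∃ s ∈ S, g = l * s ∧ ∀ w ∈ W, θ l * w * (θ l)⁻¹ = w → w = 1) : Unb G := by
  classical
  obtain ⟨⟨w, hw⟩, w1⟩ := ne_bot_iff_exists_ne_one.1 h0
  have key : ∀ l l' : L, ∀ s ∈ S, ∀ s' ∈ S, (l : G) * s = l' * s' →
      θ l * w * (θ l)⁻¹ = θ l' * w * (θ l')⁻¹ := by
    intro l l' s hs s' hs' e
    have : ((l'⁻¹ * l : L) : G) = s' * s⁻¹ := by
      simp only [coe_mul, coe_inv]
      rw [inv_mul_eq_iff_eq_mul, ← mul_assoc, ← e, mul_inv_cancel_right]
    have c := mem_C.1 (ht _ (this ▸ mul_mem hs' (inv_mem hs))) w hw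
    rw [map_mul, map_inv] at c
    calc _ = θ l' * ((θ l')⁻¹ * θ l * w) * (θ l)⁻¹ := by group
      _ = _ := by rw [← c]; group
  obtain ⟨f, f1, f2⟩ : ∃ f : G → K, (∀ l : L, ∀ s ∈ S, f (l * s) = θ l * w * (θ l)⁻¹) ∧
      ∀ h, (¬ ∃ l : L, ∃ s ∈ S, h = l * s) → f h = 1 := by
    refine ⟨fun h => if c : ∃ l : L, ∃ s ∈ S, h = l * s then θ c.choose * w * (θ c.choose)⁻¹
      else 1, fun l s hs => ?_, fun h c => dif_neg c⟩
    have c : ∃ l' : L, ∃ s' ∈ S, (l : G) * s = l' * s' := ⟨l, s, hs, rfl⟩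
    obtain ⟨s', hs', e⟩ := c.choose_spec
    simp only [dif_pos c]
    exact (key _ _ _ hs _ hs' e).symm
  have hf0 : f ∈ Co S θ W := by
    refine ⟨fun h => ?_, fun l s hs h => ?_⟩
    · by_cases c : ∃ l : L, ∃ s ∈ S, h = l * s
      · obtain ⟨l, s, hs, rfl⟩ := c
        exact f1 l s hs ▸ hn l w hw
      · exact f2 h c ▸ one_mem _
    · by_cases c : ∃ l : L, ∃ s ∈ S, h = l * s
      · obtain ⟨m, t, ht', rfl⟩ := c
        have := f1 (l * m) _ (mul_mem (hS.conj_mem' s hs m) ht')
        rw [f1 m t ht', show (l : G) * s * (m * t) = (l * m : L) * ((m : G)⁻¹ * s * m * t) by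
          simp only [coe_mul]; group, this, map_mul]
        group
      · rw [f2 h c, f2 _ fun ⟨m, t, ht', e⟩ => c ⟨l⁻¹ * m, _,
          mul_mem (hS.conj_mem' _ (inv_mem hs) (l⁻¹ * m : L)) ht', by
            simp only [coe_mul, coe_inv]
            calc h = s⁻¹ * (l : G)⁻¹ * (l * s * h) := by group
              _ = _ := by rw [e]; group⟩]
        simp
  haveI : Nontrivial (Co S θ W) := ⟨⟨⟨f, hf0⟩, 1, fun e => w1 (Subtype.ext (by
    have := congrFun (congrArg Subtype.val e) ((1 : L) * 1)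
    simp only [f1 1 1 (one_mem _)] at this
    simpa using this))⟩⟩
  refine unb_of_act (act S θ W) hq (fun v => ?_) (fun a b => Subtype.ext (funext fun h =>
    hab.comm (a.2.1 h) (b.2.1 h))) hd fun b hb bq g hg v v1 e => ?_
  · haveI := Fact.mk hq
    obtain ⟨k, hk⟩ := IsPGroup.iff_card.1 hW
    refine ⟨k, Subtype.ext (funext fun h => ?_)⟩
    have := congrArg Subtype.val (pow_card_eq_one' (x := (⟨v.1 h, v.2.1 h⟩ : W)))
    rw [hk] at this
    simpa using this
  · by_contra c
    refine v1 (Subtype.ext (funext fun h => ?_))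
    obtain ⟨l, s, hs, e1, e2⟩ := hf b hb bq c (h * g * h⁻¹)
      (by rw [← hg]; exact (MulAut.conj h).orderOf_eq g)
    refine e2 _ (v.2.1 h) ?_
    rw [← v.2.2 l s hs h, ← e1, inv_mul_cancel_right]
    exact congrFun (congrArg Subtype.val e) h

end CfsgH5.Pg
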