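import Cfsg.Agent.H5.Pg1

set_option autoImplicit false
set_option linter.unusedSectionVars false

/-! A normal subgroup of even order all of whose odd primes are joined to `2` makes the prime
graph shared by infinitely many groups. -/

namespace CfsgH5.Pg
open Subgroup CfsgH5 CfsgH6 CfsgFT
open scoped commutatorElement

universe u
variable {G : Type u} [Group G] [Finite G] {S T Y R : Subgroup G} {b q r : ℕ} {g x : G}

theorem lift (hS : Nrm ⊤ S) (hY : S ⊔ Y = ⊤) (hb : b.Prime) (hd : ¬ b ∣ Nat.card S)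
    (hg : orderOf g = b) : ∃ y ∈ Y, orderOf y = b ∧ ∃ s ∈ S, g = y * s := by
  haveI := nrm_top_iff.1 hS
  haveI := Fact.mk hb
  obtain ⟨y, hy, s, hs, e⟩ := (mem_sup_nrm (hS.mono (le_top (a := Y)))).1
    (show g ∈ Y ⊔ S by rw [sup_comm, hY]; exact mem_top _)
  have g1 : PiE {b} g := (piE_single hb).2 ⟨1, by rw [pow_one, ← hg, pow_orderOf_eq_one]⟩
  have e1 : QuotientGroup.mk' S y = QuotientGroup.mk' S g := by
    rw [e, map_mul, (QuotientGroup.eq_one_iff s).2 hs |> (show QuotientGroup.mk' S s = 1 from ·),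
      mul_one]
  have e2 : QuotientGroup.mk' S (ppart {b} y) = QuotientGroup.mk' S g := by
    rw [map_ppart, e1, ppart_of_piE (g1.map _)]
  have e3 : ppart {b} y ^ b ∈ S := by
    rw [← QuotientGroup.eq_one_iff, ← QuotientGroup.mk'_apply, map_pow, e2, ← map_pow, ← hg,
      pow_orderOf_eq_one, map_one]
  refine ⟨_, ppart_mem {b} hy, orderOf_eq_prime (((piE_ppart {b} y).pow b).eq_one
    (((piG_compl_single hb).2 hd).piE e3)) fun c => hd ?_, _, QuotientGroup.eq.1 e2, by group⟩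
  rw [c, map_one, eq_comm, QuotientGroup.mk'_apply, QuotientGroup.eq_one_iff] at e2
  exact hg ▸ orderOf_dvd_card' e2

/-- non-adjacent primes: the Sylow `q`-subgroups of `G/S` are cyclic -/
theorem cyc (hS : Nrm ⊤ S) (hq : q.Prime) (q2 : q ≠ 2) (hr : r.Prime) (rq : r ≠ q)
    (hd : r ∣ Nat.card S) (h : ¬ Adj G q r) {Q : Subgroup G} (hQ : IsPGroup q Q) :
    ∃ c ∈ Q, Q ≤ S ⊔ zpowers c := by
  haveI := Fact.mk hq
  obtain ⟨R, hR⟩ := exists_sylIn r S
  obtain ⟨P, hP⟩ := exists_sylIn q (N R)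
  have c : IsCyclic P := by
    refine B23.regular_pgroup hP.isPGroup ?_ (hR.ne_bot hr hd) (nrm_of_le_N hP.le) fun e he e1 => ?_
    · rw [hP.card_eq_pow hq]; exact (hq.odd_of_ne_two q2).pow
    by_contra c
    obtain ⟨u, hu, u1⟩ := exists_mem_prime_orderOf c
    obtain ⟨f, hf, f1⟩ := exists_prime_orderOf_mem_zpowers e1
    have a : ∀ {p : ℕ} {X : Subgroup G} {z : G}, p.Prime → IsPGroup p X → z ∈ X →
        (orderOf z).Prime → orderOf z = p := fun hp hX hz h1 =>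
      ((piG_single hp).2 hX).piE hz _ h1 dvd_rfl
    exact h (adj_of_comm hq hr rq.symm (a hq hP.isPGroup (zpowers_le.2 he hf) f1)
      (a hr hR.isPGroup hu.1 u1) (mem_C1.1 (C1_le_C1_of_mem_zpowers hf hu.2)).symm)
  have f := frattini_arg hr hR (⟨le_top, hS⟩ : NormalIn S ⊤)
  rw [top_inf_eq] at f
  have s : SylIn q (quo S P) (quo S ⊤) := by
    rw [← f, quo_self_sup (hS.mono le_top)]
    exact hP.quo hq (hS.mono le_top)
  obtain ⟨g, -, e⟩ := s.exists_le_cj (quo_mono S le_top) (isPGroup_quo S hQ)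
  exact (isCyclic_quo_iff (hS.mono le_top)).1
    (isCyclic_of_le' (isCyclic_cj (isCyclic_quo S c) g) e)

structure St (S T : Subgroup G) : Prop where
  nrm : Nrm ⊤ S
  two : 2 ∣ Nat.card S
  adj : ∀ r : ℕ, r.Prime → r ≠ 2 → r ∣ Nat.card S → Adj G 2 r
  syl : SylIn 2 T S

/-- the primes that are not joined to `2` -/
def Iso (G : Type*) [Group G] (b : ℕ) : Prop := b.Prime ∧ b ≠ 2 ∧ ¬ Adj G 2 b

/-- `Ω₁ Z(T)` -/
abbrev W (T : Subgroup G) : Subgroup G := Om1 2 (Z T)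
/-- generated by the elements of `N(T)` whose order is a prime not joined to `2` -/
def L (T : Subgroup G) : Subgroup G := closure {x | x ∈ N T ∧ Iso G (orderOf x)}
/-- the kernel on `W` -/
abbrev K (S T : Subgroup G) : Subgroup G := (S ⊓ N T) ⊓ C (W T)

theorem L_le : L T ≤ N T := (closure_le _).2 fun _ h => h.1

theorem nrm_L : Nrm (N T) (L T) := fun g hg x hx => by
  refine closure_induction (p := fun x _ => g * x * g⁻¹ ∈ L T) (fun x hx => subset_closure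
    ⟨Nrm.self _ g hg x hx.1, by rw [show orderOf (g * x * g⁻¹) = orderOf x from
      (MulAut.conj g).orderOf_eq x]; exact hx.2⟩) (by simp) (fun a b _ _ ha hb => ?_)
    (fun a _ ha => ?_) hx
  · simpa [mul_assoc] using mul_mem ha hb
  · simpa [mul_assoc] using inv_mem ha

theorem nrm_W : Nrm (N T) (W T) := (nrm_N T).Z.Om1 2

theorem fpf (hx : Iso G (orderOf x)) {w : G} (hw : w ∈ W T) (e : x * w * x⁻¹ = w) : w = 1 := by
  by_contra c
  exact hx.2.2 (adj_of_comm Nat.prime_two hx.1 hx.2.1.symm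
    ((elAb_Om1_Z 2 T).orderOf_eq Nat.prime_two hw c) rfl (mul_inv_eq_iff_eq_mul.1 e).symm)

namespace St
variable (h : St S T)
include h

theorem nB : Nrm (N T) (S ⊓ N T) := (h.nrm.mono le_top).inf (Nrm.self _)

theorem nK : Nrm (N T) (K S T) := h.nB.inf nrm_W.C

theorem sB : SylIn 2 T (S ⊓ N T) := h.syl.of_le (le_inf h.syl.le (le_N T)) inf_le_left

theorem TK : T ≤ K S T :=
  le_inf h.sB.le ((le_C_Z T).trans (C_anti (normalIn_Om1 2 _).le))

theorem fr : S ⊔ N T = ⊤ := by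
  simpa using frattini_arg Nat.prime_two h.syl (⟨le_top, h.nrm⟩ : NormalIn S ⊤)

theorem nd (hb : Iso G b) : ¬ b ∣ Nat.card S := fun c => hb.2.2 (h.adj b hb.1 hb.2.1 c)

theorem comm (hx : x ∈ N T) (hb : Iso G (orderOf x)) : ⁅zpowers x, S ⊓ N T⁆ ≤ K S T := by
  haveI : Fact (Nat.Prime 2) := ⟨Nat.prime_two⟩
  have xN : zpowers x ≤ N T := zpowers_le.2 hx
  have nX : Nrm (zpowers x) (S ⊓ N T) := h.nB.mono xN
  have MN : (S ⊓ N T) ⊔ zpowers x ≤ N T := sup_le inf_le_right xN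
  have o : ¬ 2 ∣ Nat.card (zpowers x) := by
    rw [Nat.card_zpowers]
    exact fun c => hb.2.1 ((Nat.prime_dvd_prime_iff_eq Nat.prime_two hb.1).1 c).symm
  have sM : SylIn 2 T ((S ⊓ N T) ⊔ zpowers x) := h.sB.trans_not_dvd Nat.prime_two le_sup_left
    fun c => o (c.trans (by rw [relIndex_sup (.inr nX)]; exact relIndex_dvd_card' _ _))
  have s : Group.IsSolvable ↥((S ⊓ N T) ⊔ zpowers x) :=
    solvable_of_quo (nrm_of_le_N MN) (solvable_of_isPGroup Nat.prime_two h.syl.isPGroup)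
      (feit_thompson _ (by
        rw [card_quo (nrm_of_le_N MN)]
        exact Nat.odd_iff.2 (Nat.two_dvd_ne_zero.1 sM.not_dvd_relIndex)))
  obtain ⟨E, XE, hE⟩ := exists_hall_ge s le_sup_right ((piG_compl_single Nat.prime_two).2 o)
  have EN := hE.le.trans MN
  have hF := hE.inf_nrm (normalIn_sup_left nX)
  have oE := (piG_compl_single Nat.prime_two).1 hE.piG
  have co : (Nat.card ↥(E ⊓ (S ⊓ N T))).Coprime (Nat.card (zpowers x)) := by
    rw [Nat.card_zpowers]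
    exact ((Nat.Prime.coprime_iff_not_dvd hb.1).2 fun c =>
      h.nd hb (c.trans (card_dvd_of_le' (inf_le_right.trans inf_le_left)))).symm
  have k := B23.odd_prime_elab (k := 2) (K := E ⊓ (S ⊓ N T)) (R := zpowers x) (M := E) (V := W T)
    (solvable_of_le s hE.le) (Nat.odd_iff.2 (Nat.two_dvd_ne_zero.1 oE))
    ⟨(Nrm.of_le XE).inf nX, inf_eq_bot_of_coprime' co, by
      rw [← modular_right' (.inr nX) XE, inf_eq_left.2 hE.le]⟩ co
    (by rw [Nat.card_zpowers]; exact hb.1) (elAb_Om1_Z 2 T) (nrm_W.mono EN) oE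
    (eq_bot_iff.2 fun w hw => mem_bot.2 (fpf hb hw.1
      (mul_inv_eq_iff_eq_mul.2 (mem_C.1 hw.2 x (mem_zpowers x)))))
  rw [← (h.sB.hall Nat.prime_two).sup_compl hF]
  exact comm_sup_le' (h.nK.mono (le_N T)) (h.nK.mono (inf_le_left.trans EN))
    ((nrm_of_le_N xN).comm_le_right.trans h.TK) (k.trans (inf_le_inf_right _ inf_le_right))

theorem cent : quo (K S T) (L T) ≤ C (quo (K S T) (S ⊓ N T)) := by
  rw [quo_le_iff (h.nK.mono L_le)]
  refine (closure_le _).2 fun x hx => zpowers_le.1 ?_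
  exact (le_coq_C_iff (h.nK.mono (zpowers_le.2 hx.1)) (h.nK.mono inf_le_right)).2
    (h.comm hx.1 hx.2)

theorem unb_b (e : L T ⊓ S ≤ K S T) : Unb G := by
  haveI := nrm_top_iff.1 h.nrm
  refine unb_of_ind (S := S) (L T).subtype
    (Om1_Z_ne_bot Nat.prime_two h.syl.isPGroup (h.syl.ne_bot Nat.prime_two h.two)) Nat.prime_two
    (elAb_Om1_Z 2 T).isPGroup (elAb_Om1_Z 2 T).ab (fun l w hw => nrm_W _ (L_le l.2) w hw)
    (fun l hl => (e ⟨l.2, hl⟩).2) (h.two.trans (card_subgroup_dvd_card S))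
    fun b hb b2 a g hg => ?_
  obtain ⟨y, hy, y1, s, hs, rfl⟩ := lift h.nrm h.fr hb (h.nd ⟨hb, b2, a⟩) hg
  have i : Iso G (orderOf y) := y1 ▸ ⟨hb, b2, a⟩
  exact ⟨⟨y, subset_closure ⟨hy, i⟩⟩, s, hs, rfl, fun w hw => fpf i hw⟩

theorem ZB : quo (K S T) (L T ⊓ S) ≤ quo (K S T) (S ⊓ N T) :=
  quo_mono _ (le_inf inf_le_right (inf_le_left.trans L_le))

theorem ZC : quo (K S T) (L T ⊓ S) ≤ C (quo (K S T) (L T)) :=
  h.ZB.trans (le_C_symm h.cent)

theorem abZ : Ab (quo (K S T) (L T ⊓ S)) := h.ZC.trans (C_anti (quo_mono _ inf_le_left))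

theorem qodd (hd : q ∣ Nat.card (quo (K S T) (L T ⊓ S))) : q ≠ 2 := by
  haveI : Fact (Nat.Prime 2) := ⟨Nat.prime_two⟩
  rintro rfl
  have := hd.trans (card_dvd_of_le' h.ZB)
  rw [card_quo (h.nK.mono inf_le_right)] at this
  exact h.sB.not_dvd_relIndex (this.trans (relIndex_dvd_of_le_left _ h.TK))

theorem qS (hd : q ∣ Nat.card (quo (K S T) (L T ⊓ S))) : q ∣ Nat.card S :=
  hd.trans ((card_quo_dvd _ _).trans (card_dvd_of_le' inf_le_right))

theorem adjq (hq : q.Prime) (hd : q ∣ Nat.card (quo (K S T) (L T ⊓ S))) (hr : r.Prime)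
    (rq : r ≠ q) (rS : r ∣ Nat.card S) : Adj G q r := by
  haveI := Fact.mk hq
  have a2 := h.adj q hq (h.qodd hd) (h.qS hd)
  by_contra c
  obtain ⟨Q, hQ⟩ := exists_sylIn q (L T)
  have nL := h.nK.mono (L_le (T := T))
  have nQ := nL.mono hQ.le
  have s := hQ.quo hq nL
  obtain ⟨x, hx, e⟩ := cyc h.nrm hq (h.qodd hd) hr rq rS c hQ.isPGroup
  have ab : Ab (quo (K S T) Q) := by
    refine ab_of_isCyclic_quo (h.ZC.trans (C_anti s.le))
      (nrm_of_le_C (s.le.trans (le_C_symm h.ZC)))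
      ((isCyclic_quo_iff (nrm_of_le_C (s.le.trans (le_C_symm h.ZC)))).2
        ⟨_, mem_img_of_mem _ (nQ.le_N hx) hx, ?_⟩)
    have xL := zpowers_le.2 (hQ.le hx)
    rw [← img_zpowers, ← quo_sup (nL.mono inf_le_left) (nL.mono xL),
      ← modular_right' (.inr (h.nrm.mono le_top)) xL]
    exact quo_mono _ (le_inf hQ.le e)
  have d : quo (K S T) Q ≤ D (quo (K S T) (L T)) := s.le_D hq fun c1 => by
    obtain ⟨M, -, m2, m3⟩ := exists_normalIn_relIndex_eq_of_D hq c1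
    have : quo (K S T) (L T) ≤ M := by
      rw [quo_le_iff nL]
      refine (closure_le _).2 fun y hy => ?_
      have yL : y ∈ L T := subset_closure hy
      refine (mem_pre' (nL.le_N yL)).2 (mem_of_pow_mem_of_coprime' ?_
        (pow_relIndex_mem' (mem_img_of_mem _ _ yL) m2.nrm))
      rw [m3]
      refine Nat.Coprime.coprime_dvd_left (orderOf_map_dvd _ _) ?_
      rw [orderOf_mk]
      exact (Nat.coprime_primes hy.2.1 hq).2 fun e => hy.2.2.2 (e ▸ a2)
    rw [relIndex_eq_one.2 this] at m3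
    exact hq.one_lt.ne m3
  obtain ⟨v, hv, v1⟩ := exists_mem_orderOf_eq hq hd
  have vQ : v ∈ quo (K S T) Q := zpowers_le.1 (s.le_of_nrm
    (zpowers_le.2 (quo_mono _ inf_le_left hv))
    (IsPGroup.of_card (n := 1) (by rw [Nat.card_zpowers, v1, pow_one]))
    (nrm_of_le_C (le_C_symm ((zpowers_le.2 hv).trans (h.ZC.trans (C_anti s.le))))))
  have := (s.dp_of_ab hq ab).2.1.le ⟨⟨vQ, d vQ⟩, vQ, C_anti inf_le_left (h.ZC hv)⟩
  rw [mem_bot.1 this, orderOf_one] at v1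
  exact hq.one_lt.ne v1

theorem unb_a (e : ¬ L T ⊓ S ≤ K S T) : Unb G := by
  haveI := nrm_top_iff.1 h.nrm
  have nL := h.nK.mono (L_le (T := T))
  obtain ⟨q, hq, hd⟩ := exists_prime_dvd_card
    (mt (quo_eq_bot (nL.mono (inf_le_left (b := S)))).1 e)
  have el := elAb_Om1_of_ab (p := q) h.abZ
  have le := (normalIn_Om1 q (quo (K S T) (L T ⊓ S))).le
  have nV := (((nrm_L (T := T)).inf (h.nrm.mono le_top)).quo (K S T)).Om1 q
  refine unb_of_ind (S := S) (prestr (qm (K S T)) h.nK.le_N) (Om1_ne_bot hq hd) hq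
    el.isPGroup el.ab (fun l w hw => nV _ (mem_img_of_mem _ _ l.2) w hw)
    (fun l hl => le_C_symm (le.trans ((quo_mono _ inf_le_left).trans h.cent))
      (mem_img_of_mem _ _ ⟨hl, l.2⟩)) ((h.qS hd).trans (card_subgroup_dvd_card S))
    fun b hb bq a g hg => ?_
  have bS : ¬ b ∣ Nat.card S := fun c => a (h.adjq hq hd hb bq c)
  obtain ⟨y, hy, y1, s, hs, rfl⟩ := lift h.nrm h.fr hb bS hg
  refine ⟨⟨y, hy⟩, s, hs, rfl, fun w hw c => by_contra fun w1 => a ?_⟩
  obtain ⟨z, hz, z1, rfl⟩ := mem_img'.1 (le hw)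
  have o := ord_mul hq hb bq.symm (el.orderOf_eq hq hw w1)
    (ord_map (qm (K S T)) (x := ⟨y, h.nK.le_N hy⟩) hb (by rw [orderOf_mk, y1])
      fun c => bS (y1 ▸ orderOf_dvd_card' (qm_eq_one.1 c).1.1)) (mul_inv_eq_iff_eq_mul.1 c).symm
  rw [← map_mul] at o
  refine adj_of_dvd (g := z * y) (o ▸ (orderOf_map_dvd _ _).trans ?_)
  rw [← orderOf_coe]
  rfl

theorem unb : Unb G := (em _).elim h.unb_b h.unb_a

end St

theorem unb_of_two (hS : Nrm ⊤ S) (h2 : 2 ∣ Nat.card S)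
    (h : ∀ r : ℕ, r.Prime → r ≠ 2 → r ∣ Nat.card S → Adj G 2 r) : Unb G := by
  obtain ⟨T, hT⟩ := exists_sylIn 2 S
  exact St.unb ⟨hS, h2, h, hT⟩

end CfsgH5.Pg
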