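import Cfsg.Agent.H5.Pg2
import Cfsg.Agent.SZ.KG_a

set_option autoImplicit false
set_option linter.unusedSectionVars false

/-! A group whose prime graph belongs to groups of bounded order is almost simple. -/

namespace CfsgH5.Pg
open Subgroup CfsgH5 CfsgH6 CfsgFT

universe u
variable {G : Type u} [Group G] [Finite G]

theorem almost [Nontrivial G] (h : ¬ Unb G) : ∃ N : Subgroup G, N.Normal ∧ IsSimpleGroup N ∧
    ¬ IsMulCommutative N ∧ centralizer (N : Set G) = ⊥ := by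
  have ns : ∀ K : Subgroup G, Nrm ⊤ K → K ≠ ⊥ → ¬ Group.IsSolvable K := fun K a b c =>
    h (haveI := nrm_top_iff.1 a; unb_of_solv K b c)
  obtain ⟨M, -, m⟩ := exists_minNrm (top_ne_bot (α := Subgroup G)) (nrm_top ⊤)
  have sM := ns M m.nrm m.ne_bot
  have k : ∀ A B : Subgroup G, B ≤ C A → ¬ Group.IsSolvable B → PiG (piG A) M → False := by
    intro A B c s e
    refine h (unb_of_two m.nrm (Xp.two_dvd sM) fun r hr r2 rd => ?_)
    obtain ⟨t, ht, t2⟩ := exists_mem_orderOf_eq Nat.prime_two (Xp.two_dvd s)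
    obtain ⟨x, hx, x1⟩ := exists_mem_orderOf_eq hr (e r hr rd).2
    exact adj_of_comm Nat.prime_two hr r2.symm t2 x1 (mem_C.1 (c ht) x hx).symm
  refine ⟨M, nrm_top_iff.1 m.nrm, CfsgSZ.simple_iff.2 ⟨m.ne_bot, fun K hK => ?_⟩,
    fun c => sM (solvable_of_ab (ab_iff_isMulCommutative.2 c)),
    by_contra fun c => k M (C M) le_rfl (ns _ m.nrm.C c) (piG_piG M)⟩
  by_contra! c
  obtain ⟨A, AK, a⟩ := exists_minNrm c.1 hK.nrm
  have AM := AK.trans hK.le
  have sA : ¬ Group.IsSolvable A := fun hs => by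
    have e : A ≤ Fit M := (a.le_Z_Fit AM hs).trans inf_le_left
    exact ns (Fit M) m.nrm.Fit (fun e' => a.ne_bot (eq_bot_iff.2 (e.trans e'.le)))
      (solvable_of_nilpotent (nilpotent_Fit M))
  have p : PiG (piG A) M := by
    rcases m.eq_bot_or_eq (Opi_le (piG A) M) (m.nrm.Opi _) with e | e
    · exact absurd (eq_bot_iff.2 ((le_Opi AM a.nrm (piG_piG A)).trans e.le)) a.ne_bot
    · exact e ▸ piG_Opi _ M
  have n : Nrm ⊤ A := fun g hg x hx => by
    have cM : cj g A ≤ M := (cj_mono AM).trans (m.nrm.cj_eq hg).le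
    have b : MinNrm (cj g A) M := by simpa only [m.nrm.cj_eq hg] using a.cjj g
    rcases b.le_or_inf_eq_bot a.nrm with e | e
    · exact e (conj_mem_cj.2 hx)
    · exact (k A (cj g A) (le_C_of_inf_eq_bot (a.nrm.mono cM) (b.nrm.mono AM) e)
        (fun s => sA (cj_inv_cj g A ▸ solvable_cj s g⁻¹)) p).elim
  exact c.2 (le_antisymm hK.le (((m.eq_bot_or_eq AM n).resolve_left a.ne_bot).ge.trans AK))

end CfsgH5.Pg
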