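import Mathlib

set_option autoImplicit false

/-! Rational functions on `ZMod n` and their Fourier coefficients. -/

namespace CfsgH5.RatZ

variable {n : ℕ} [NeZero n]

/-- standard additive character -/
noncomputable abbrev ψ (x : ZMod n) : ℂ := ZMod.stdAddChar x

theorem ψ_add (x y : ZMod n) : ψ (x + y) = ψ x * ψ y := AddChar.map_add_eq_mul _ _ _

theorem ψ_zero : ψ (0 : ZMod n) = 1 := AddChar.map_zero_eq_one _

theorem ψ_eq_one {x : ZMod n} (h : ψ x = 1) : x = 0 :=
  ZMod.injective_stdAddChar (h.trans ψ_zero.symm)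

/-- Fourier coefficient -/
noncomputable def ft (A : ZMod n → ℚ) (k : ZMod n) : ℂ := ∑ x, (A x : ℂ) * ψ (k * x)

/-- invariance under multipliers -/
def IsRat (A : ZMod n → ℚ) : Prop := ∀ u x, IsUnit u → A (u * x) = A x

theorem ft_zero (A : ZMod n → ℚ) : ft A 0 = ((∑ x, A x : ℚ) : ℂ) := by
  simp [ft, ψ_zero]

theorem ft_shift (A : ZMod n → ℚ) {y : ZMod n} (h : ∀ x, A (x + y) = A x) {k : ZMod n}
    (hk : k * y ≠ 0) : ft A k = 0 := by
  have h1 : ft A k = ψ (k * y) * ft A k := by
    conv_lhs => rw [ft, ← Equiv.sum_comp (Equiv.addRight y)]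
    rw [ft, Finset.mul_sum]
    apply Finset.sum_congr rfl
    intro x _
    simp only [Equiv.coe_addRight, h, mul_add, ψ_add]
    ring
  by_contra h2
  exact hk (ψ_eq_one (by
    have : (ψ (k * y) - 1) * ft A k = 0 := by linear_combination -h1
    simpa [h2, sub_eq_zero] using this))

theorem ft_neg (A : ZMod n → ℚ) (h : ∀ x, A (-x) = A x) (k : ZMod n) : ft A (-k) = ft A k := by
  rw [ft, ft, ← Equiv.sum_comp (Equiv.neg _)]
  simp [h]

theorem parseval (A : ZMod n → ℚ) :
    ∑ k, ft A k * ft A k = ((n * ∑ x, A x * A (-x) : ℚ) : ℂ) := by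
  have h1 : ∀ k, ft A k * ft A k = ∑ x, ∑ y, (A x : ℂ) * A y * ψ (k * (x + y)) := by
    intro k
    rw [ft, Finset.sum_mul_sum]
    apply Finset.sum_congr rfl; intro x _
    apply Finset.sum_congr rfl; intro y _
    rw [mul_add, ψ_add]; ring
  simp only [h1]
  rw [Finset.sum_comm]
  push_cast
  rw [Finset.mul_sum]
  apply Finset.sum_congr rfl; intro x _
  rw [Finset.sum_comm]
  simp only [← Finset.mul_sum]
  rw [Finset.sum_eq_single (-x)]
  · simp [ψ_zero, mul_comm]
  · intro y _ hy
    rw [AddChar.sum_mulShift _ (ZMod.isPrimitive_stdAddChar n), if_neg, Nat.cast_zero, mul_zero]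
    intro h
    exact hy (by linear_combination h)
  · simp

theorem addOrderOf_unit_mul {u : ZMod n} (hu : IsUnit u) (x : ZMod n) :
    addOrderOf (u * x) = addOrderOf x := by
  rw [addOrderOf_eq_addOrderOf_iff]
  intro k
  rw [← mul_smul_comm, hu.mul_right_eq_zero]

theorem exists_unit {x y : ZMod n} (h : addOrderOf x = addOrderOf y) :
    ∃ u, IsUnit u ∧ y = u * x := by
  obtain ⟨d, hd, u, hu, rfl⟩ := x.eq_unit_mul_divisor
  obtain ⟨d', hd', u', hu', rfl⟩ := y.eq_unit_mul_divisor
  rw [addOrderOf_unit_mul hu, addOrderOf_unit_mul hu', ZMod.addOrderOf_coe _ (NeZero.ne n),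
    ZMod.addOrderOf_coe _ (NeZero.ne n), Nat.gcd_eq_right hd, Nat.gcd_eq_right hd'] at h
  have : d = d' := by
    rw [← Nat.div_div_self hd (NeZero.ne n), h, Nat.div_div_self hd' (NeZero.ne n)]
  subst this
  obtain ⟨v, rfl⟩ := hu
  exact ⟨u' * ↑v⁻¹, hu'.mul (Units.isUnit _), by simp [mul_assoc]⟩

theorem card_ann {d : ℕ} (hd : d ∣ n) :
    (Finset.univ.filter (fun x : ZMod n => (d : ZMod n) * x = 0)).card = d := by
  have hd0 : d ≠ 0 := by rintro rfl; exact NeZero.ne n (by simpa using hd)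
  have h1 := sum_card_addOrderOf_eq_card_nsmul_eq_zero (G := ZMod n) hd0
  simp only [nsmul_eq_mul] at h1
  rw [← h1]
  conv_rhs => rw [← Nat.sum_totient d]
  apply Finset.sum_congr rfl
  intro m hm
  exact IsAddCyclic.card_addOrderOf_eq_totient (by
    rw [ZMod.card]; exact (Nat.dvd_of_mem_divisors hm).trans hd)

theorem ann_witness {d : ℕ} (hd : d ∣ n) (e : ℕ) :
    (e : ZMod n) * ((n / d : ℕ) : ZMod n) = 0 ↔ d ∣ e := by
  obtain ⟨m, hm⟩ := hd
  have h0 : d * m ≠ 0 := hm ▸ NeZero.ne n
  have hd0 : 0 < d := Nat.pos_of_ne_zero (left_ne_zero_of_mul h0)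
  have hm0 : 0 < m := Nat.pos_of_ne_zero (right_ne_zero_of_mul h0)
  rw [← Nat.cast_mul, ZMod.natCast_eq_zero_iff]
  have : n / d = m := by rw [hm, Nat.mul_div_cancel_left _ hd0]
  rw [this]
  conv_lhs => rw [hm]
  exact Nat.mul_dvd_mul_iff_right hm0

theorem mul_eq_zero_iff (d : ℕ) (x : ZMod n) : (d : ZMod n) * x = 0 ↔ addOrderOf x ∣ d := by
  rw [addOrderOf_dvd_iff_nsmul_eq_zero, nsmul_eq_mul]

theorem expand {A : ZMod n → ℚ} (hA : IsRat A) : ∃ α : ℕ → ℚ,
    (∀ x, A x = ∑ d ∈ n.divisors, if (d : ZMod n) * x = 0 then α d else 0) ∧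
    ∀ e : ℕ, e ∣ n → ft A e = ((∑ d ∈ e.divisors, d * α d : ℚ) : ℂ) := by
  classical
  let v : ℕ → ZMod n → ℚ := fun d x => if (d : ZMod n) * x = 0 then 1 else 0
  let w : ℕ → ZMod n → ℚ := fun d x => if addOrderOf x = d then 1 else 0
  have hn := NeZero.ne n
  have h1 : ∀ o, o ∣ n → w o ∈ Submodule.span ℚ (v '' n.divisors) := by
    intro o
    induction o using Nat.strong_induction_on with
    | _ o ih =>
      intro ho
      have ho0 : o ≠ 0 := by rintro rfl; exact hn (by simpa using ho)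
      have h2 : w o = v o - ∑ d ∈ o.properDivisors, w d := by
        rw [eq_sub_iff_add_eq, ← Finset.sum_cons (Nat.self_notMem_properDivisors),
          Nat.cons_self_properDivisors ho0]
        ext x
        simp only [Finset.sum_apply, v, w, Finset.sum_ite_eq, Nat.mem_divisors, mul_eq_zero_iff]
        simp [ho0]
      rw [h2]
      apply Submodule.sub_mem
      · exact Submodule.subset_span ⟨o, by simp [ho, hn], rfl⟩
      · apply Submodule.sum_mem
        intro d hd
        rw [Nat.mem_properDivisors] at hd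
        exact ih d hd.2 (hd.1.trans ho)
  have h3 : A ∈ Submodule.span ℚ (v '' n.divisors) := by
    have h4 : A = ∑ o ∈ n.divisors, A ((n / o : ℕ) : ZMod n) • w o := by
      ext x
      have h5 : addOrderOf x ∣ n := by simpa using addOrderOf_dvd_card (x := x)
      simp only [Finset.sum_apply, Pi.smul_apply, smul_eq_mul, w, mul_ite, mul_one, mul_zero]
      rw [Finset.sum_ite_eq, if_pos (by simp [h5, hn])]
      obtain ⟨u, hu, h6⟩ := exists_unit (x := x) (y := ((n / addOrderOf x : ℕ) : ZMod n)) (by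
        rw [ZMod.addOrderOf_coe _ hn, Nat.gcd_eq_right (Nat.div_dvd_of_dvd h5),
          Nat.div_div_self h5 hn])
      rw [h6, hA u x hu]
    rw [h4]
    exact Submodule.sum_mem _ fun o ho => Submodule.smul_mem _ _ (h1 o (Nat.dvd_of_mem_divisors ho))
  obtain ⟨α, hα⟩ := (Submodule.mem_span_image_finset_iff_exists_fun' ℚ).1 h3
  have h4 : ∀ x, A x = ∑ d ∈ n.divisors, if (d : ZMod n) * x = 0 then α d else 0 := by
    intro x
    rw [← hα]
    simp [v]
  refine ⟨α, h4, fun e he => ?_⟩
  have he0 : e ≠ 0 := by rintro rfl; exact hn (by simpa using he)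
  have h5 : ft A e = ∑ d ∈ n.divisors, (α d : ℂ) * ft (v d) e := by
    simp only [ft, Finset.mul_sum]
    rw [Finset.sum_comm]
    apply Finset.sum_congr rfl
    intro x _
    rw [h4 x]
    push_cast
    rw [Finset.sum_mul]
    apply Finset.sum_congr rfl
    intro d _
    simp only [v]
    split_ifs <;> simp
  rw [h5, ← Nat.divisors_filter_dvd_of_dvd hn he, Finset.sum_filter]
  push_cast
  apply Finset.sum_congr rfl
  intro d hd
  have hd' := Nat.dvd_of_mem_divisors hd
  split_ifs with h
  · have h6 : ft (v d) e = ∑ x : ZMod n, if (d : ZMod n) * x = 0 then 1 else 0 := by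
      apply Finset.sum_congr rfl
      intro x _
      simp only [v]
      split_ifs with h7
      · obtain ⟨c, rfl⟩ := h
        rw [Nat.cast_mul, mul_comm (d : ZMod n), mul_assoc, h7, mul_zero, ψ_zero]
        simp
      · simp
    rw [h6, Finset.sum_boole, card_ann hd']
    push_cast
    ring
  · rw [ft_shift (v d) (y := ((n / d : ℕ) : ZMod n)) _ (by rwa [Ne, ann_witness hd'])]
    · simp
    · intro x
      simp only [v, mul_add, (ann_witness hd' d).2 dvd_rfl, add_zero]

omit [NeZero n] in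
theorem mem_of_sum (Λ : AddSubgroup ℚ) (β : ℕ → ℚ) (Q : ℕ → Prop)
    (hQ : ∀ d e, d ∣ e → Q e → Q d) (h : ∀ e, e ≠ 0 → Q e → ∑ d ∈ e.divisors, β d ∈ Λ) :
    ∀ d, d ≠ 0 → Q d → β d ∈ Λ := by
  intro d
  induction d using Nat.strong_induction_on with
  | _ d ih =>
    intro hd0 hd
    have h1 := h d hd0 hd
    rw [← Nat.cons_self_properDivisors hd0, Finset.sum_cons] at h1
    have h2 : ∑ c ∈ d.properDivisors, β c ∈ Λ := by
      apply Λ.sum_mem
      intro c hc
      rw [Nat.mem_properDivisors] at hc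
      exact ih c hc.2 (by rintro rfl; exact hd0 (by simpa using hc.1)) (hQ _ _ hc.1 hd)
    simpa using Λ.sub_mem h1 h2

/-- sums of functions with a period of order `p` are divisible by `p` -/
theorem sum_period {R : Type*} [CommRing R] {e : ZMod n} (f : ZMod n → R)
    (hf : ∀ x, f (x + e) = f x) : ∃ c : R, ∑ x, f x = addOrderOf e * c := by
  classical
  let K := AddSubgroup.zmultiples e
  have h1 : ∀ k ∈ K, ∀ x, f (x + k) = f x := by
    intro k hk
    obtain ⟨j, rfl⟩ := mem_multiples_iff_mem_zmultiples.2 hk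
    clear hk
    induction j with
    | zero => simp
    | succ j ih => intro x; simp only [succ_nsmul] at ih ⊢; rw [← add_assoc, hf, ih]
  refine ⟨∑ q : ZMod n ⧸ K, f q.out, ?_⟩
  rw [← Finset.sum_fiberwise (s := Finset.univ) (g := fun x : ZMod n => (x : ZMod n ⧸ K)) (f := f),
    Finset.mul_sum]
  apply Finset.sum_congr rfl
  intro q _
  rw [Finset.sum_congr rfl (g := fun _ => f q.out), Finset.sum_const, nsmul_eq_mul]
  · congr 2
    rw [← Nat.card_zmultiples, Nat.card_eq_fintype_card, Fintype.card_subtype]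
    apply Finset.card_bij (fun x _ => -q.out + x)
    · intro x hx
      simp only [Finset.mem_filter, Finset.mem_univ, true_and] at hx ⊢
      rw [← QuotientAddGroup.eq, hx, QuotientAddGroup.out_eq']
    · intro x _ y _ h
      exact add_left_cancel h
    · intro k hk
      simp only [Finset.mem_filter, Finset.mem_univ, true_and] at hk ⊢
      refine ⟨q.out + k, ?_, by simp⟩
      rw [QuotientAddGroup.mk_add_of_mem _ hk, QuotientAddGroup.out_eq']
  · intro x hx
    simp only [Finset.mem_filter, Finset.mem_univ, true_and] at hx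
    have : -q.out + x ∈ K := by rw [← QuotientAddGroup.eq, hx, QuotientAddGroup.out_eq']
    rw [← h1 _ this q.out]
    simp

end CfsgH5.RatZ
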