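import Cfsg.Agent.H5.SRing
import Cfsg.Agent.H5.RatZ

set_option autoImplicit false

/-! Schur rings over dihedral groups, I: multipliers and reduction to the rational case. -/

namespace CfsgH5.SRing.Dih

open DihedralGroup MonoidAlgebra CfsgH5.RatZ

variable {n : ℕ} [NeZero n]

theorem sum_dih {R : Type*} [AddCommMonoid R] (f : DihedralGroup n → R) :
    ∑ x, f x = ∑ i, f (r i) + ∑ i, f (sr i) := by
  rw [← Equiv.sum_comp equivSum.symm, Fintype.sum_sum_type]; rfl

theorem mul_r {R : Type*} [Semiring R] (f g : MonoidAlgebra R (DihedralGroup n)) (k : ZMod n) :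
    (f * g).coeff (r k) = ∑ i, f.coeff (r i) * g.coeff (r (k - i)) +
      ∑ i, f.coeff (sr i) * g.coeff (sr (i + k)) := by
  rw [cmul, sum_dih]
  simp only [inv_r, r_mul_r, inv_sr, sr_mul_r, neg_add_eq_sub]

theorem mul_sr {R : Type*} [Semiring R] (f g : MonoidAlgebra R (DihedralGroup n)) (k : ZMod n) :
    (f * g).coeff (sr k) = ∑ i, f.coeff (r i) * g.coeff (sr (k + i)) +
      ∑ i, f.coeff (sr i) * g.coeff (r (k - i)) := by
  rw [cmul, sum_dih]
  simp only [inv_r, r_mul_sr, inv_sr, sr_mul_sr, sub_neg_eq_add]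

/-- the rotation subgroup -/
def Rot (n : ℕ) : Subgroup (DihedralGroup n) where
  carrier := {x | ∃ i, x = r i}
  one_mem' := ⟨0, rfl⟩
  mul_mem' := by rintro _ _ ⟨i, rfl⟩ ⟨j, rfl⟩; exact ⟨i + j, rfl⟩
  inv_mem' := by rintro _ ⟨i, rfl⟩; exact ⟨-i, rfl⟩

omit [NeZero n] in
theorem Rot_ne : Rot n ≠ ⊤ := by
  intro h
  obtain ⟨i, hi⟩ : sr 0 ∈ Rot n := h ▸ Subgroup.mem_top _
  cases hi

omit [NeZero n] in
theorem r_eq_one {i : ZMod n} : r i = 1 ↔ i = 0 := by
  rw [one_def]; exact ⟨fun h => by cases h; rfl, fun h => by rw [h]⟩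

omit [NeZero n] in
theorem sr_ne_one (i : ZMod n) : sr i ≠ 1 := by
  rw [one_def]; intro h; cases h

omit [NeZero n] in
theorem unit_surj {u : ZMod n} (hu : IsUnit u) (j : ZMod n) : ∃ i, j = u * i := by
  obtain ⟨v, rfl⟩ := hu
  exact ⟨↑v⁻¹ * j, by simp⟩

variable (S : SR (DihedralGroup n))

theorem ex_sr {x : DihedralGroup n} (hx : x ≠ 1) : ∃ j, S.r x (sr j) := by
  by_contra h
  refine hx (S.eq_one_of_le Rot_ne fun y hy => ?_)
  rcases y with i | i
  · exact ⟨i, rfl⟩
  · exact absurd ⟨i, hy⟩ h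

theorem sym (x : DihedralGroup n) : S.r x x⁻¹ := by
  by_cases hx : x = 1
  · subst hx; simpa using S.refl 1
  obtain ⟨j, hj⟩ := ex_sr S hx
  exact S.trans hj (S.symm (S.inv hj))

theorem zero_of_sr {R : Type*} [Zero R] {f : DihedralGroup n → R} (hf : Inv S.r f)
    (h : ∀ i, f (sr i) = 0) {x : DihedralGroup n} (hx : x ≠ 1) : f x = 0 := by
  obtain ⟨j, hj⟩ := ex_sr S hx
  rw [hf _ _ hj, h]

theorem ex_r (hn : 2 ≤ n) (x : DihedralGroup n) : ∃ i, S.r x (r i) := by
  by_contra hc
  push Not at hc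
  rcases x with i | i
  · exact hc i (S.refl _)
  have h1 := (S.alg ℤ).mul_mem (S.ofF_mem (S.ind_inv ℤ (S.inv_cls (sr i))))
    (S.ofF_mem (S.ind_inv ℤ (S.inv_cls (sr i))))
  have h2 : ∀ y, S.r (sr i) y → y = sr i := by
    intro y hy
    rcases y with j | j
    · exact absurd hy (hc j)
    by_contra h3
    have h4 := zero_of_sr S h1 (fun k => by rw [mul_sr]; simp [ind, hc]) (x := r (j - i)) (by
      rw [Ne, r_eq_one, sub_eq_zero]; rintro rfl; exact h3 rfl)
    rw [mul_r] at h4
    simp only [coeff_ofF, ind, hc, if_false, zero_mul, Finset.sum_const_zero, zero_add] at h4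
    rw [Finset.sum_eq_zero_iff_of_nonneg (fun k _ => by split_ifs <;> simp)] at h4
    have := h4 i (by simp)
    simp [S.refl, hy] at this
  let K : Subgroup (DihedralGroup n) :=
    { carrier := {x | x = 1 ∨ x = sr i}
      one_mem' := Or.inl rfl
      mul_mem' := by rintro _ _ (rfl | rfl) (rfl | rfl) <;> simp
      inv_mem' := by rintro _ (rfl | rfl) <;> simp }
  refine sr_ne_one i (S.eq_one_of_le (K := K) (fun h => ?_) fun y hy => Or.inr (h2 y hy))
  have h3 : r 1 ∈ K := h ▸ Subgroup.mem_top _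
  rcases h3 with h3 | h3
  · rw [r_eq_one] at h3
    haveI : Fact (1 < n) := ⟨hn⟩
    exact one_ne_zero h3
  · cases h3

theorem ext_rot (hn : 2 ≤ n) {R : Type*} [CommRing R] {f g : MonoidAlgebra R (DihedralGroup n)}
    (hf : f ∈ S.alg R) (hg : g ∈ S.alg R) (h : ∀ i, f.coeff (r i) = g.coeff (r i)) : f = g := by
  apply ext'
  intro x
  obtain ⟨i, hi⟩ := ex_r S hn x
  rw [hf _ _ hi, hg _ _ hi, h]

theorem comm {R : Type*} [CommRing R] {f g : MonoidAlgebra R (DihedralGroup n)}
    (hf : f ∈ S.alg R) (hg : g ∈ S.alg R) : f * g = g * f := by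
  apply ext'
  intro z
  rw [(S.alg R).mul_mem hf hg _ _ (sym S z), cmul, cmul, ← Equiv.sum_comp (Equiv.mulLeft z⁻¹)]
  apply Finset.sum_congr rfl
  intro x _
  simp only [Equiv.coe_mulLeft, mul_inv_rev, inv_inv, mul_inv_cancel_right]
  rw [← hg _ _ (sym S x), hf _ _ (sym S (x⁻¹ * z)), mul_comm]
  simp

/-- rotation part -/
noncomputable def rp {R : Type*} [Semiring R] (f : MonoidAlgebra R (DihedralGroup n)) :
    MonoidAlgebra R (DihedralGroup n) :=
  ofF fun x => match x with
    | r i => f.coeff (r i)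
    | sr _ => 0

/-- reflection part -/
noncomputable def sp {R : Type*} [Semiring R] (f : MonoidAlgebra R (DihedralGroup n)) :
    MonoidAlgebra R (DihedralGroup n) :=
  ofF fun x => match x with
    | r _ => 0
    | sr i => f.coeff (sr i)

theorem pow_split (p : ℕ) [Fact p.Prime] {f : MonoidAlgebra (ZMod p) (DihedralGroup n)}
    (hf : f ∈ S.alg (ZMod p)) : f ^ p = rp f ^ p + sp f ^ p := by
  haveI := charP_alg (H := DihedralGroup n) p
  rw [← add_pow_char_of_commute]
  · congr 1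
    apply ext'
    rintro (i | i) <;> simp [rp, sp]
  · apply ext'
    rintro (k | k)
    · simp [mul_r, rp, sp]
    · simp only [mul_sr, rp, sp, coeff_ofF, mul_zero, zero_mul, Finset.sum_const_zero, add_zero,
        zero_add]
      rw [← Equiv.sum_comp (Equiv.addLeft k) (fun i => f.coeff (sr i) * f.coeff (r (k - i)))]
      apply Finset.sum_congr rfl
      intro i _
      rw [hf _ _ (sym S (r i)), mul_comm]
      simp

theorem rp_pow (p : ℕ) [Fact p.Prime] (f : MonoidAlgebra (ZMod p) (DihedralGroup n))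
    (y : DihedralGroup n) :
    (rp f ^ p).coeff y = ∑ i : ZMod n with r (i * (p : ZMod n)) = y, f.coeff (r i) := by
  classical
  rw [pow_char p, Finset.sum_filter, Finset.sum_filter, sum_dih]
  · simp [rp]
  · rintro (i | i) (j | j) h1 h2
    · simp [commute_iff_eq, add_comm]
    all_goals simp [rp] at h1 h2

theorem sp_odd_pow {R : Type*} [Semiring R] (f : MonoidAlgebra R (DihedralGroup n)) (k : ℕ) :
    ∀ i, (sp f ^ (2 * k + 1)).coeff (r i) = 0 := by
  induction k with
  | zero => simp [sp]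
  | succ k ih =>
    intro i
    rw [show 2 * (k + 1) + 1 = 2 + (2 * k + 1) by ring, pow_add, mul_r]
    simp only [ih, mul_zero, Finset.sum_const_zero, zero_add]
    apply Finset.sum_eq_zero
    intro j _
    rw [sq, mul_sr]
    simp [sp]

theorem frob (q : ℕ) [Fact q.Prime] (hq : 2 < q) (hu : IsUnit (q : ZMod n))
    {f : MonoidAlgebra (ZMod q) (DihedralGroup n)} (hf : f ∈ S.alg (ZMod q)) (i : ZMod n) :
    (f ^ q).coeff (r (q * i)) = f.coeff (r i) := by
  obtain ⟨k, hk⟩ := (Fact.out : q.Prime).odd_of_ne_two hq.ne'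
  have h1 : (sp f ^ q).coeff (r (q * i)) = 0 := by
    have := sp_odd_pow f k (q * i)
    rwa [← hk] at this
  rw [pow_split S q hf, coeff_add, Finsupp.add_apply, h1, add_zero, rp_pow,
    Finset.sum_eq_single_of_mem i (by simp [mul_comm])]
  intro j hj hji
  simp only [Finset.mem_filter, Finset.mem_univ, true_and, r.injEq] at hj
  rw [mul_comm] at hj
  exact absurd (hu.mul_left_cancel hj) hji

theorem rel_of_mul {u : ZMod n} (hu : IsUnit u) {i j : ZMod n}
    (h : S.r (r (u * i)) (r (u * j))) : S.r (r i) (r j) := by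
  obtain ⟨q, hq1, hq2, rfl⟩ := Nat.forall_exists_prime_gt_and_eq_mod hu 2
  haveI := Fact.mk hq2
  have h1 := S.ofF_mem (S.ind_inv (ZMod q) (S.inv_cls (r i)))
  have h2 := (S.alg (ZMod q)).pow_mem h1 q _ _ h
  rw [frob S q hq1 hu h1, frob S q hq1 hu h1] at h2
  by_contra h3
  simp [ind, S.refl, h3] at h2

theorem rel_mul {u : ZMod n} (hu : IsUnit u) {i j : ZMod n} (h : S.r (r i) (r j)) :
    S.r (r (u * i)) (r (u * j)) := by
  obtain ⟨v, rfl⟩ := hu
  apply rel_of_mul S (v⁻¹).isUnit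
  simpa using h

omit [NeZero n] in
theorem eq_of_forall_prime {a b : ℤ} (h : ∀ N, ∃ q > N, (a : ZMod q) = b) : a = b := by
  obtain ⟨q, hq, h1⟩ := h (b - a).natAbs
  rw [ZMod.intCast_eq_intCast_iff_dvd_sub] at h1
  have := Int.eq_zero_of_dvd_of_natAbs_lt_natAbs h1 (by simpa using hq)
  omega

theorem map_mem (q : ℕ) {f : MonoidAlgebra ℤ (DihedralGroup n)} (hf : f ∈ S.alg ℤ) :
    mapRingHom _ (Int.castRingHom (ZMod q)) f ∈ S.alg (ZMod q) := by
  intro x y h
  rw [coeff_mapRingHom, coeff_mapRingHom, hf x y h]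

theorem mul_rat (hn : 2 ≤ n) {f g : MonoidAlgebra ℤ (DihedralGroup n)} (hf : f ∈ S.alg ℤ)
    (hg : g ∈ S.alg ℤ) {u : ZMod n} (hu : IsUnit u) (hf' : ∀ i, f.coeff (r (u * i)) = f.coeff (r i))
    (hg' : ∀ i, g.coeff (r (u * i)) = g.coeff (r i)) (i : ZMod n) :
    (f * g).coeff (r (u * i)) = (f * g).coeff (r i) := by
  apply eq_of_forall_prime
  intro N
  obtain ⟨q, hq1, hq2, rfl⟩ := Nat.forall_exists_prime_gt_and_eq_mod hu (N + 2)
  haveI := Fact.mk hq2
  refine ⟨q, by omega, ?_⟩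
  let π := mapRingHom (DihedralGroup n) (Int.castRingHom (ZMod q))
  have key : ∀ f ∈ S.alg ℤ, (∀ i, f.coeff (r (q * i)) = f.coeff (r i)) → π f ^ q = π f := by
    intro f hf hf'
    apply ext_rot S hn ((S.alg _).pow_mem (map_mem S q hf) q) (map_mem S q hf)
    intro j
    obtain ⟨j, rfl⟩ := unit_surj hu j
    rw [frob S q (by omega) hu (map_mem S q hf), coeff_mapRingHom, coeff_mapRingHom, hf']
  have h1 := frob S q (by omega) hu (map_mem S q ((S.alg ℤ).mul_mem hf hg)) i
  rw [map_mul, Commute.mul_pow (comm S (map_mem S q hf) (map_mem S q hg)), key f hf hf',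
    key g hg hg', ← map_mul, coeff_mapRingHom, coeff_mapRingHom] at h1
  exact h1

/-- the rational Schur ring -/
def rat (hn : 2 ≤ n) : SR (DihedralGroup n) where
  r x y := ∃ i u, IsUnit u ∧ S.r x (r i) ∧ S.r y (r (u * i))
  refl x := by
    obtain ⟨i, hi⟩ := ex_r S hn x
    exact ⟨i, 1, isUnit_one, hi, by simpa using hi⟩
  symm := by
    rintro x y ⟨i, _, ⟨u, rfl⟩, h1, h2⟩
    exact ⟨u * i, ↑u⁻¹, Units.isUnit _, h2, by simpa using h1⟩
  trans := by
    rintro x y z ⟨i, u, hu, h1, h2⟩ ⟨j, v, hv, h3, h4⟩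
    refine ⟨i, v * u, hv.mul hu, h1, S.trans h4 ?_⟩
    rw [mul_assoc]
    exact rel_mul S hv (S.trans (S.symm h3) h2)
  one := by
    rintro x ⟨i, u, hu, h1, h2⟩
    have h3 := S.one (S.symm h2)
    rw [r_eq_one, hu.mul_right_eq_zero] at h3
    subst h3
    exact S.one h1
  inv := by
    rintro x y ⟨i, u, hu, h1, h2⟩
    exact ⟨i, u, hu, S.trans (S.symm (sym S x)) h1, S.trans (S.symm (sym S y)) h2⟩
  mul := by
    have key : ∀ f : DihedralGroup n → ℤ,
        Inv (fun x y => ∃ i u, IsUnit u ∧ S.r x (r i) ∧ S.r y (r (u * i))) f →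
        Inv S.r f ∧ ∀ u, IsUnit u → ∀ i, f (r (u * i)) = f (r i) := by
      intro f hf
      refine ⟨fun x y h => ?_, fun u hu i => (hf _ _ ⟨i, u, hu, S.refl _, S.refl _⟩).symm⟩
      obtain ⟨i, hi⟩ := ex_r S hn x
      exact hf _ _ ⟨i, 1, isUnit_one, hi, by simpa using S.trans (S.symm h) hi⟩
    rintro f g hf hg x y ⟨i, u, hu, h1, h2⟩
    obtain ⟨hf1, hf2⟩ := key f hf
    obtain ⟨hg1, hg2⟩ := key g hg
    have h3 := S.mul f g hf1 hg1
    rw [h3 _ _ h1, h3 _ _ h2]
    have h4 := mul_rat S hn (S.ofF_mem hf1) (S.ofF_mem hg1) hu (hf2 u hu) (hg2 u hu) i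
    rw [cmul, cmul] at h4
    exact h4.symm
  prim := by
    intro K hK
    refine S.prim K fun x y h => hK x y ?_
    obtain ⟨i, hi⟩ := ex_r S hn x
    exact ⟨i, 1, isUnit_one, hi, by simpa using S.trans (S.symm h) hi⟩

theorem rat_rat (hn : 2 ≤ n) {u : ZMod n} (hu : IsUnit u) (i : ZMod n) :
    (rat S hn).r (r i) (r (u * i)) := ⟨i, u, hu, S.refl _, S.refl _⟩

/-- evaluation at a linear character -/
theorem ev_mul {H R : Type*} [Group H] [Fintype H] [CommRing R] (χ : H →* R)
    (f g : MonoidAlgebra R H) :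
    ∑ x, (f * g).coeff x * χ x = (∑ x, f.coeff x * χ x) * ∑ x, g.coeff x * χ x := by
  simp only [cmul, Finset.sum_mul]
  rw [Finset.sum_comm]
  apply Finset.sum_congr rfl
  intro x _
  rw [Finset.mul_sum, ← Equiv.sum_comp (Equiv.mulLeft x)]
  apply Finset.sum_congr rfl
  intro y _
  simp only [Equiv.coe_mulLeft, inv_mul_cancel_left, map_mul]
  ring

theorem sum_pow' {H R : Type*} [Group H] [Fintype H] [CommRing R] (f : MonoidAlgebra R H) (k : ℕ) :
    ∑ x, (f ^ k).coeff x = (∑ x, f.coeff x) ^ k := by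
  classical
  induction k with
  | zero => simp [cone]
  | succ k ih =>
    have := ev_mul (1 : H →* R) (f ^ k) f
    simp only [MonoidHom.one_apply, mul_one] at this
    rw [pow_succ, this, ih, pow_succ]

theorem of_rat (hn : 2 ≤ n) (h : ∀ x y, x ≠ 1 → y ≠ 1 → (rat S hn).r x y) (x y : DihedralGroup n)
    (hx : x ≠ 1) (hy : y ≠ 1) : S.r x y := by
  classical
  let k : DihedralGroup n → ℕ := fun x => (Finset.univ.filter (S.r x)).card
  let a : DihedralGroup n → ℕ := fun x => (Finset.univ.filter (fun i => S.r x (r i))).card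
  have hk : ∀ y, y ≠ 1 → k y = k x ∧ a y = a x := by
    intro y hy
    obtain ⟨i, u, hu, h1, h2⟩ := h x y hx hy
    have h3 : ∀ j, S.r y (r (u * j)) ↔ S.r x (r j) := fun j =>
      ⟨fun e => S.trans h1 (rel_of_mul S hu (S.trans (S.symm h2) e)),
        fun e => S.trans h2 (rel_mul S hu (S.trans (S.symm h1) e))⟩
    constructor
    · apply Nat.cast_injective (R := ℤ)
      apply eq_of_forall_prime
      intro N
      obtain ⟨q, hq1, hq2, rfl⟩ := Nat.forall_exists_prime_gt_and_eq_mod hu (N + 2)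
      haveI := Fact.mk hq2
      refine ⟨q, by omega, ?_⟩
      have h4 := S.ofF_mem (S.ind_inv (ZMod q) (S.inv_cls x))
      have h5 := S.ofF_mem (S.ind_inv (ZMod q) (S.inv_cls y))
      have h6 := ext_rot S hn ((S.alg _).pow_mem h4 q) h5 (fun j => by
        obtain ⟨j, rfl⟩ := unit_surj hu j
        rw [frob S q (by omega) hu h4]
        simp only [coeff_ofF, ind, h3])
      have h7 := sum_pow' (ofF (ind (ZMod q) (S.r x))) q
      rw [h6, ZMod.pow_card] at h7
      simpa [ind, k] using h7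
    · symm
      apply Finset.card_bij (fun j _ => u * j)
      · intro j hj
        simpa [h3] using hj
      · intro j _ j' _ e
        exact hu.mul_left_cancel e
      · intro j hj
        obtain ⟨j, rfl⟩ := unit_surj hu j
        exact ⟨j, by simpa [h3] using hj, rfl⟩
  have h1 : ∑ y ∈ Finset.univ.erase 1, a y = ∑ i ∈ Finset.univ.erase 0, k (r i) := by
    simp only [a, k, Finset.card_filter]
    rw [Finset.sum_comm, ← Finset.sum_erase (s := Finset.univ) (a := (0 : ZMod n))]
    · apply Finset.sum_congr rfl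
      intro i hi
      rw [Finset.sum_erase]
      · apply Finset.sum_congr rfl
        intro y _
        exact if_congr ⟨S.symm, S.symm⟩ rfl rfl
      · rw [if_neg]
        intro e
        exact (Finset.mem_erase.1 hi).1 (r_eq_one.1 (S.one (S.symm e)))
    · apply Finset.sum_eq_zero
      intro y hy
      rw [if_neg]
      intro e
      exact (Finset.mem_erase.1 hy).1 (S.one e)
  rw [Finset.sum_congr rfl (fun y hy => (hk y (Finset.mem_erase.1 hy).1).2),
    Finset.sum_congr rfl (fun i hi => (hk (r i) (fun e => (Finset.mem_erase.1 hi).1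
      (r_eq_one.1 e))).1)] at h1
  simp only [Finset.sum_const, Finset.card_erase_of_mem (Finset.mem_univ _), Finset.card_univ,
    DihedralGroup.card, ZMod.card, smul_eq_mul] at h1
  have h2 : (2 * n - 1).Coprime (n - 1) := by
    rw [show 2 * n - 1 = 1 + 2 * (n - 1) by omega]
    simp
  have h3 : 2 * n - 1 ∣ k x := h2.dvd_of_dvd_mul_left ⟨_, h1.symm⟩
  have h4 : Finset.univ.filter (S.r x) = Finset.univ.erase 1 := by
    apply Finset.eq_of_subset_of_card_le
    · intro z hz
      simp only [Finset.mem_filter, Finset.mem_univ, true_and, Finset.mem_erase, and_true] at hz ⊢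
      rintro rfl
      exact hx (S.one hz)
    · rw [Finset.card_erase_of_mem (Finset.mem_univ _), Finset.card_univ, DihedralGroup.card]
      exact Nat.le_of_dvd (Finset.card_pos.2 ⟨x, by simp [S.refl]⟩) h3
  have h5 : y ∈ Finset.univ.filter (S.r x) := by simp [h4, hy]
  exact (Finset.mem_filter.1 h5).2

end CfsgH5.SRing.Dih
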