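import Cfsg.Agent.H5.SRingD1

set_option autoImplicit false

/-! Schur rings over dihedral groups, II: the arithmetic of the rational case. -/

namespace CfsgH5.SRing.Dih

open CfsgH5.RatZ

variable {n : ℕ} [NeZero n]

theorem ft_conv1 (A C : ZMod n → ℚ) (m : ZMod n) :
    ft (fun k => ∑ i, A i * C (k - i)) m = ft A m * ft C m := by
  simp only [ft]
  push_cast
  simp only [Finset.sum_mul]
  rw [Finset.sum_comm]
  apply Finset.sum_congr rfl
  intro i _
  rw [Finset.mul_sum, ← Equiv.sum_comp (Equiv.addLeft i)]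
  apply Finset.sum_congr rfl
  intro j _
  simp only [Equiv.coe_addLeft, add_sub_cancel_left, mul_add, ψ_add]
  ring

theorem ft_conv2 (A C : ZMod n → ℚ) (m : ZMod n) :
    ft (fun k => ∑ i, A i * C (k + i)) m = ft A (-m) * ft C m := by
  simp only [ft]
  push_cast
  simp only [Finset.sum_mul]
  rw [Finset.sum_comm]
  apply Finset.sum_congr rfl
  intro i _
  rw [Finset.mul_sum, ← Equiv.sum_comp (Equiv.addRight (-i))]
  apply Finset.sum_congr rfl
  intro j _
  simp only [Equiv.coe_addRight, neg_add_cancel_right, mul_add, ψ_add, mul_neg, neg_mul]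
  ring

theorem ft_add (A C : ZMod n → ℚ) (m : ZMod n) :
    ft (fun k => A k + C k) m = ft A m + ft C m := by
  simp [ft, add_mul, Finset.sum_add_distrib]

theorem ft_const (c : ℚ) {m : ZMod n} (hm : m ≠ 0) : ft (fun _ => c) m = 0 :=
  ft_shift _ (y := 1) (fun _ => rfl) (by simpa using hm)

theorem ft_delta (c : ℚ) (m : ZMod n) : ft (fun k => if k = 0 then c else 0) m = c := by
  rw [ft, Finset.sum_eq_single 0]
  · simp [ψ_zero]
  · intro k _ hk; simp [hk]
  · simp

theorem no_eight : ∀ B : Finset (ZMod 8), B.card = 4 →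
    (Finset.univ.filter (fun i => i ∈ B ∧ 4 + i ∈ B)).card = 0 →
    (Finset.univ.filter (fun i => i ∈ B ∧ 1 + i ∈ B)).card ≠
      (Finset.univ.filter (fun i => i ∈ B ∧ 5 + i ∈ B)).card := by
  decide +kernel

/-- the multiples of `s` form of the expansion coefficients, and the resulting periodicity -/
theorem period_of_vals {A : ZMod n → ℚ} (hA : IsRat A) (h01 : ∀ x, A x = 0 ∨ A x = 1)
    (hA0 : A 0 = 0) (hne : ∃ x, A x = 1) (s : ℕ) (hs : s ≠ 0)
    (hv : ∀ k, k ≠ 0 → ft A k = 0 ∨ ft A k = s ∨ ft A k = -s) :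
    s ∣ n ∧ (∃ z : ℤ, ∑ x, A x = z * s) ∧ ∀ y : ZMod n, (s : ZMod n) * y = 0 → ∀ x, A (x + y) = A x := by
  have hn := NeZero.ne n
  obtain ⟨α, hα1, hα2⟩ := expand hA
  let Λ := AddSubgroup.zmultiples (s : ℚ)
  have hΛ : ∀ q, q ∈ Λ ↔ ∃ z : ℤ, q = z * s := fun q => by
    simp only [Λ, AddSubgroup.mem_zmultiples_iff, zsmul_eq_mul, eq_comm]
  have h1 := mem_of_sum Λ (fun d => d * α d) (fun e => e ∣ n ∧ e < n)
    (fun d e hde he => ⟨hde.trans he.1, lt_of_le_of_lt (Nat.le_of_dvd (Nat.pos_of_ne_zero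
      (by rintro rfl; exact hn (by simpa using he.1))) hde) he.2⟩)
    (fun e he0 he => by
      have h2 : (e : ZMod n) ≠ 0 := by
        rw [Ne, ZMod.natCast_eq_zero_iff]
        exact fun h => absurd (Nat.le_of_dvd (Nat.pos_of_ne_zero he0) h) (by omega)
      have h3 := hv e h2
      rw [hα2 e he.1] at h3
      rw [hΛ]
      rcases h3 with h | h | h
      · exact ⟨0, by rw [Int.cast_zero, zero_mul]; exact_mod_cast h⟩
      · exact ⟨1, by rw [Int.cast_one, one_mul]; exact_mod_cast h⟩
      · exact ⟨-1, by rw [Int.cast_neg, Int.cast_one, neg_one_mul]; exact_mod_cast h⟩)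
  have h2 : ∀ d, d ∣ n → (n : ℚ) * α d = ((n / d : ℕ) : ℤ) • (d * α d) := by
    intro d hd
    obtain ⟨c, rfl⟩ := hd
    rw [Nat.mul_div_cancel_left _ (Nat.pos_of_ne_zero (left_ne_zero_of_mul hn))]
    simp; ring
  have h3 : ∀ d, d ∣ n → (d : ℚ) * α d ∈ Λ := by
    intro d hd
    rcases (Nat.le_of_dvd (Nat.pos_of_ne_zero hn) hd).eq_or_lt with rfl | h
    · have h4 := hα1 0
      simp only [mul_zero, if_true, hA0] at h4
      rw [← Nat.cons_self_properDivisors hn, Finset.sum_cons] at h4
      have h5 : (d : ℚ) * α d = -∑ c ∈ d.properDivisors, (d : ℚ) * α c := by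
        rw [← Finset.mul_sum]; linear_combination -(d : ℚ) * h4
      rw [h5]
      refine Λ.neg_mem (Λ.sum_mem fun c hc => ?_)
      rw [Nat.mem_properDivisors] at hc
      rw [h2 c hc.1]
      exact Λ.zsmul_mem (h1 c (by rintro rfl; exact hn (by simpa using hc.1)) hc) _
    · exact h1 d (by rintro rfl; exact hn (by simpa using hd)) ⟨hd, h⟩
  have hsn : s ∣ n := by
    obtain ⟨x, hx⟩ := hne
    have h4 : (n : ℚ) * A x ∈ Λ := by
      rw [hα1 x, Finset.mul_sum]
      refine Λ.sum_mem fun d hd => ?_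
      split_ifs
      · rw [h2 d (Nat.dvd_of_mem_divisors hd)]
        exact Λ.zsmul_mem (h3 d (Nat.dvd_of_mem_divisors hd)) _
      · simp
    rw [hx, mul_one, hΛ] at h4
    obtain ⟨z, hz⟩ := h4
    rw [← Int.natCast_dvd_natCast]
    exact ⟨z, by rw [mul_comm]; exact_mod_cast hz⟩
  refine ⟨hsn, ?_, ?_⟩
  · have h4 := hα2 n dvd_rfl
    rw [ZMod.natCast_self, ft_zero] at h4
    rw [← hΛ, Rat.cast_injective h4]
    exact Λ.sum_mem fun d hd => h3 d (Nat.dvd_of_mem_divisors hd)
  suffices H : ∀ t : ℕ, t ∣ s → ∀ y : ZMod n, (t : ZMod n) * y = 0 → ∀ x, A (x + y) = A x from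
    H s dvd_rfl
  intro t
  induction t using induction_on_primes with
  | zero => intro h; exact absurd (by simpa using h) hs
  | one => intro _ y hy x; rw [Nat.cast_one, one_mul] at hy; rw [hy, add_zero]
  | prime_mul l h hl ih =>
    intro hlh y hy x
    have hhs : h ∣ s := (dvd_mul_left h l).trans hlh
    have hhn : h ∣ n := hhs.trans hsn
    have ih' := ih hhs _ ((ann_witness hhn h).2 dvd_rfl)
    have h4 := mem_of_sum ⊥ (fun d => d * α d) (fun e => e ∣ n ∧ ¬ h ∣ e)
      (fun d e hde he => ⟨hde.trans he.1, fun h' => he.2 (h'.trans hde)⟩)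
      (fun e _ he => by
        have h5 := ft_shift A ih' (k := e) (by rw [Ne, ann_witness hhn]; exact he.2)
        rw [hα2 e he.1] at h5
        rw [AddSubgroup.mem_bot]
        exact_mod_cast h5)
    obtain ⟨j, n', hn', hjn⟩ := Nat.exists_eq_pow_mul_and_not_dvd hn l hl.ne_one
    let Λ' := AddSubgroup.zmultiples (l : ℚ)
    have h5 : (n' : ℚ) * (A (x + y) - A x) ∈ Λ' := by
      rw [hα1 (x + y), hα1 x, ← Finset.sum_sub_distrib, Finset.mul_sum]
      refine Λ'.sum_mem fun d hd => ?_
      have hd' := Nat.dvd_of_mem_divisors hd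
      have hd0 : d ≠ 0 := by rintro rfl; exact hn (by simpa using hd')
      by_cases c1 : h ∣ d
      swap
      · have h6 := h4 d hd0 ⟨hd', c1⟩
        simp only [AddSubgroup.mem_bot, mul_eq_zero, Nat.cast_eq_zero, hd0, false_or] at h6
        simp [h6]
      obtain ⟨d', rfl⟩ := c1
      by_cases c2 : l ∣ d'
      · obtain ⟨c, rfl⟩ := c2
        have h6 : ((h * (l * c) : ℕ) : ZMod n) * y = 0 := by
          push_cast at hy ⊢
          linear_combination (c : ZMod n) * hy
        simp only [mul_add, h6, add_zero, sub_self, mul_zero]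
        exact Λ'.zero_mem
      have h6 : (n' : ℚ) * α (h * d') ∈ Λ' := by
        obtain ⟨z, hz⟩ := (hΛ _).1 (h3 _ hd')
        obtain ⟨c, hc⟩ := hlh
        have h7 : d' ∣ n' := by
          have h8 : d' ∣ l ^ j * n' := hjn ▸ (dvd_mul_left d' h).trans hd'
          exact ((hl.coprime_iff_not_dvd.2 c2).symm.pow_right j).dvd_of_dvd_mul_left h8
        obtain ⟨c', rfl⟩ := h7
        have h8 : (h : ℚ) ≠ 0 := by exact_mod_cast left_ne_zero_of_mul hd0
        refine ⟨c' * z * c, ?_⟩
        rw [hc] at hz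
        push_cast at hz ⊢
        simp only [zsmul_eq_mul]
        push_cast
        apply mul_left_cancel₀ h8
        linear_combination -(c' : ℚ) * hz
      split_ifs
      · simp
      · simpa using h6
      · simpa using h6
      · simp
    have h6 : (n' : ℚ) ∉ Λ' := by
      rintro ⟨z, hz⟩
      apply hn'
      rw [← Int.natCast_dvd_natCast]
      refine ⟨z, ?_⟩
      simp only [zsmul_eq_mul] at hz
      rw [mul_comm]
      exact_mod_cast hz.symm
    rcases h01 (x + y) with e1 | e1 <;> rcases h01 x with e2 | e2 <;> rw [e1, e2] at h5 ⊢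
    · simp [h6] at h5
    · simp [h6] at h5

theorem arith_cases {n a b s p : ℕ} {μ : ℚ} (hp : 2 ≤ p) (hpa : p ∣ a) (hpn : p ∣ n) (ha : 1 ≤ a)
    (han : a < n) (hb : 1 ≤ b) (hs : a = b + s ∨ b = a + s) (hsa : s ∣ a) (hsn : s ∣ n) {N : ℕ}
    (h1 : n * a = a ^ 2 + N * s ^ 2) (hN : N + 1 ≤ n / s) (h2 : (a + b : ℚ) = s ^ 2 + μ)
    (h3 : (2 * a * b : ℚ) = μ * n) : n = 8 ∧ s = 2 ∧ b = 4 := by
  obtain ⟨t, rfl⟩ := hsa
  obtain ⟨m, rfl⟩ := hsn
  have hs0 : 0 < s := Nat.pos_of_ne_zero (by rintro rfl; simp at ha)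
  rw [Nat.mul_div_cancel_left _ hs0] at hN
  have ht : 1 ≤ t := Nat.pos_of_ne_zero (by rintro rfl; simp at ha)
  have htm : t < m := lt_of_mul_lt_mul_left han (Nat.zero_le _)
  have h4 : m * t = t ^ 2 + N := by
    apply Nat.eq_of_mul_eq_mul_left (pow_pos hs0 2)
    linarith
  have h5 : t = 1 ∨ t + 1 = m := by
    by_contra h
    push Not at h
    obtain ⟨u, rfl⟩ : ∃ u, t = u + 2 := ⟨t - 2, by omega⟩
    obtain ⟨v, rfl⟩ : ∃ v, m = u + 2 + (v + 2) := ⟨m - (u + 2) - 2, by omega⟩
    nlinarith
  have hps : p ∣ s := by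
    rcases h5 with rfl | rfl
    · simpa using hpa
    · rw [mul_add, mul_one] at hpn
      exact (Nat.dvd_add_right hpa).1 hpn
  have hs2 : 2 ≤ s := hp.trans (Nat.le_of_dvd hs0 hps)
  have h6 : (2 * (s * t) * b : ℤ) = ((s * t : ℤ) + b - s ^ 2) * (s * m) := by
    have : (2 * (s * t) * b : ℚ) = ((s * t : ℚ) + b - s ^ 2) * (s * m) := by
      push_cast at h2 h3
      rw [h3]; congr 1; linarith
    exact_mod_cast this
  have hs' : (s : ℤ) ≠ 0 := by omega
  have hm : 2 ≤ m := by omega
  have key2 : (s : ℤ) * m = 3 * m - 4 → s * m = 8 ∧ s = 2 ∧ m = 4 := by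
    intro h
    have : s = 2 := by
      by_contra h'
      have : (3 : ℤ) * m ≤ s * m := mul_le_mul_of_nonneg_right (by omega) (by omega)
      omega
    subst this
    omega
  rcases h5 with rfl | rfl
  · rcases hs with hs | hs
    · omega
    · subst hs
      obtain ⟨e1, e2, e3⟩ := key2 (by
        apply mul_left_cancel₀ hs'
        apply mul_left_cancel₀ hs'
        push_cast at h6
        linear_combination h6)
      omega
  · rcases hs with hs | hs
    · have hb' : (b : ℤ) = s * t - s := by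
        have : ((s * t : ℕ) : ℤ) = b + s := by exact_mod_cast hs
        push_cast at this; linarith
      obtain ⟨e1, e2, e3⟩ := key2 (by
        apply mul_left_cancel₀ hs'
        apply mul_left_cancel₀ hs'
        rw [hb'] at h6
        push_cast at h6 ⊢
        linear_combination h6)
      subst e2
      omega
    · subst hs
      exfalso
      have h7 : (s : ℤ) * (s * ((t + 1) * (s - 1))) = 0 := by
        push_cast at h6
        linear_combination h6
      simp only [mul_eq_zero, hs', false_or] at h7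
      omega

theorem arith {A B : ZMod n → ℚ} (hA : IsRat A) (h01 : ∀ x, A x = 0 ∨ A x = 1)
    (hB01 : ∀ x, B x = 0 ∨ B x = 1) (hA0 : A 0 = 0) (hne : ∃ x, A x = 1) (hneB : ∃ x, B x = 1)
    {p : ℕ} (hp : p.Prime) {e : ZMod n} (he : addOrderOf e = p) (hAe : ∀ x, A (x + e) = A x)
    {lam μ : ℚ}
    (h1 : ∀ k, ∑ i, A i * A (k - i) + ∑ i, B i * B (k + i) = (if k = 0 then lam else 0) + μ)
    (h2 : ∀ k, ∑ i, A i * B (k + i) + ∑ i, B i * A (k - i) = μ) : False := by
  classical
  have hn := NeZero.ne n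
  have hsym : ∀ x, A (-x) = A x := fun x => by simpa using hA (-1) x isUnit_one.neg
  have card01 : ∀ C : ZMod n → ℚ, (∀ x, C x = 0 ∨ C x = 1) →
      ∑ x, C x = (Finset.univ.filter (fun x => C x = 1)).card := by
    intro C hC
    rw [← Finset.sum_boole]
    apply Finset.sum_congr rfl
    intro x _
    rcases hC x with h | h <;> simp [h]
  set a := (Finset.univ.filter (fun x => A x = 1)).card with ha
  set b := (Finset.univ.filter (fun x => B x = 1)).card with hb
  have hsa : ∑ x, A x = a := card01 A h01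
  have hsb : ∑ x, B x = b := card01 B hB01
  have hAA : ∀ x, A x * A x = A x := fun x => by rcases h01 x with h | h <;> simp [h]
  have hBB : ∀ x, B x * B x = B x := fun x => by rcases hB01 x with h | h <;> simp [h]
  have f1 : ∀ m, ft A m * ft A m + ft B (-m) * ft B m = lam + ft (fun _ => μ) m := by
    intro m
    rw [← ft_conv1, ← ft_conv2, ← ft_add, ← ft_delta lam m, ← ft_add]
    simp only [h1]
  have f2 : ∀ m, ft A m * ft B m + ft B m * ft A m = ft (fun _ => μ) m := by
    intro m
    rw [← ft_neg A hsym m, ← ft_conv2, ft_neg A hsym m, ← ft_conv1, ← ft_add]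
    simp only [h2]
  have e1 : (a : ℚ) * a + b * b = lam + μ * n := by
    have := f1 0
    simp only [neg_zero, ft_zero, hsa, hsb, Finset.sum_const, Finset.card_univ, ZMod.card,
      nsmul_eq_mul] at this
    rw [mul_comm μ]
    exact_mod_cast this
  have e2 : (2 * a * b : ℚ) = μ * n := by
    have := f2 0
    simp only [ft_zero, hsa, hsb, Finset.sum_const, Finset.card_univ, ZMod.card,
      nsmul_eq_mul] at this
    have h3 : (a : ℚ) * b + b * a = n * μ := by exact_mod_cast this
    linarith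
  have e3 : (a + b : ℚ) = lam + μ := by
    have := h1 0
    simpa only [zero_sub, hsym, zero_add, hAA, hBB, hsa, hsb, if_true] using this
  obtain ⟨s, hs⟩ : ∃ s, a = b + s ∨ b = a + s := by
    rcases le_total a b with h | h
    · exact ⟨b - a, Or.inr (by omega)⟩
    · exact ⟨a - b, Or.inl (by omega)⟩
  have hlam : lam = s ^ 2 := by
    rcases hs with h | h
    · have : (a : ℚ) = b + s := by exact_mod_cast h
      rw [this] at e1 e2; linear_combination e2 - e1
    · have : (b : ℚ) = a + s := by exact_mod_cast h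
      rw [this] at e1 e2; linear_combination e2 - e1
  have hv : ∀ k, k ≠ 0 → ft A k = 0 ∨ ft A k = s ∨ ft A k = -s := by
    intro k hk
    have g1 := f1 k
    have g2 := f2 k
    rw [ft_const _ hk] at g1 g2
    rw [hlam] at g1
    push_cast at g1
    have : ft A k * ((ft A k - s) * (ft A k + s)) = 0 := by
      linear_combination ft A k * g1 - ft B (-k) / 2 * g2
    simpa only [mul_eq_zero, sub_eq_zero, add_eq_zero_iff_eq_neg] using this
  set N := ((Finset.univ.erase 0).filter (fun k => ft A k ≠ 0)).card with hN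
  have hpar : n * a = a ^ 2 + N * s ^ 2 := by
    have h3 := parseval A
    rw [← Finset.add_sum_erase _ _ (Finset.mem_univ 0), ft_zero, hsa] at h3
    simp only [hsym, hAA, hsa] at h3
    have h4 : ∑ k ∈ Finset.univ.erase 0, ft A k * ft A k = N * (s : ℂ) ^ 2 := by
      rw [hN, ← Finset.sum_boole, Finset.sum_mul]
      apply Finset.sum_congr rfl
      intro k hk
      by_cases h5 : ft A k = 0
      · simp [h5]
      · rcases hv k (Finset.mem_erase.1 hk).1 with h | h | h
        · exact absurd h h5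
        · rw [if_pos h5, h]; ring
        · rw [if_pos h5, h]; ring
    rw [h4] at h3
    apply Nat.cast_injective (R := ℂ)
    push_cast at h3 ⊢
    linear_combination -h3
  have ha1 : 1 ≤ a := Finset.card_pos.2 (by obtain ⟨x, hx⟩ := hne; exact ⟨x, by simp [hx]⟩)
  have hb1 : 1 ≤ b := Finset.card_pos.2 (by obtain ⟨x, hx⟩ := hneB; exact ⟨x, by simp [hx]⟩)
  have han : a < n := by
    conv_rhs => rw [← ZMod.card n, ← Finset.card_univ]
    apply Finset.card_lt_card
    rw [Finset.ssubset_univ_iff]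
    intro h
    have : (0 : ZMod n) ∈ Finset.univ.filter (fun x => A x = 1) := by
      rw [h]; exact Finset.mem_univ _
    simp [hA0] at this
  have hs0 : s ≠ 0 := by
    rintro rfl
    nlinarith
  obtain ⟨hsn, ⟨z, hz⟩, hper⟩ := period_of_vals hA h01 hA0 hne s hs0 hv
  have hsa' : s ∣ a := by
    rw [← Int.natCast_dvd_natCast]
    refine ⟨z, ?_⟩
    rw [hsa] at hz
    rw [mul_comm]
    exact_mod_cast hz
  have hNle : N + 1 ≤ n / s := by
    have h3 := hper _ ((ann_witness hsn s).2 dvd_rfl)
    rw [← card_ann (n := n) (Nat.div_dvd_of_dvd hsn), hN, ← Finset.card_insert_of_notMem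
      (a := (0 : ZMod n)) (by simp)]
    apply Finset.card_le_card
    intro k hk
    simp only [Finset.mem_insert, Finset.mem_filter, Finset.mem_erase, Finset.mem_univ, true_and,
      and_true] at hk ⊢
    rcases hk with rfl | hk
    · simp
    · by_contra h4
      exact hk.2 (ft_shift A h3 (by rwa [mul_comm]))
  have hpa : p ∣ a := by
    obtain ⟨c, hc⟩ := sum_period (R := ℤ) (e := e) (fun x => if A x = 1 then 1 else 0)
      (fun x => by simp only [hAe])
    rw [Finset.sum_boole, he] at hc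
    rw [← Int.natCast_dvd_natCast]
    exact ⟨c, hc⟩
  have hpn : p ∣ n := by simpa [he] using addOrderOf_dvd_card (x := e)
  obtain ⟨rfl, rfl, hb4⟩ := arith_cases hp.two_le hpa hpn ha1 han hb1 hs hsa' hsn hpar hNle
    (hlam ▸ e3) e2
  have h4 := hper 4 (by decide)
  have hR : ∀ k, ∑ i, B i * B (k + i) = (Finset.univ.filter (fun i =>
      i ∈ Finset.univ.filter (fun x => B x = 1) ∧
        k + i ∈ Finset.univ.filter (fun x => B x = 1))).card := by
    intro k
    rw [← Finset.sum_boole]
    apply Finset.sum_congr rfl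
    intro i _
    rcases hB01 i with h | h <;> rcases hB01 (k + i) with h' | h' <;> simp [h, h']
  have hT : ∀ k, ∑ i, A i * A (k + 4 - i) = ∑ i, A i * A (k - i) := by
    intro k
    apply Finset.sum_congr rfl
    intro i _
    rw [add_sub_right_comm, h4]
  have g0 := h1 0
  have g4 := h1 (0 + 4)
  have g1 := h1 1
  have g5 := h1 (1 + 4)
  rw [hT] at g4 g5
  rw [if_neg (by decide)] at g4 g1 g5
  simp only [zero_add, hBB, hsb, if_true, hlam, hb4] at g0 g4
  apply no_eight _ hb4
  · apply Nat.cast_injective (R := ℚ)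
    rw [← hR]
    push_cast at g0 ⊢
    linarith
  · apply Nat.cast_injective (R := ℚ)
    rw [← hR, ← hR]
    norm_num at g5 g1 ⊢
    linarith

end CfsgH5.SRing.Dih
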