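import Cfsg.Agent.H5.SRingD2

set_option autoImplicit false

/-! Schur rings over dihedral groups, III: Wielandt's theorem. -/

namespace CfsgH5.SRing.Dih

open DihedralGroup MonoidAlgebra CfsgH5.RatZ

variable {n : ℕ} [NeZero n] (S : SR (DihedralGroup n))

theorem set_cases (hrat : ∀ u, IsUnit u → ∀ i, S.r (r i) (r (u * i))) {p : ℕ} (hp : p.Prime)
    {e : ZMod n} (he : addOrderOf e = p) {T : DihedralGroup n → Prop} (hT : Inv S.r T)
    (h : ∀ i, T (sr (i + e)) ↔ T (sr i)) : (∀ x, x ≠ 1 → ¬ T x) ∨ ∀ x, x ≠ 1 → T x := by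
  classical
  haveI := Fact.mk hp
  have hf := S.ofF_mem (S.ind_inv (ZMod p) hT)
  set f := ofF (ind (ZMod p) T) with hfd
  have h1 : sp f * sp f = 0 := by
    apply ext'
    rintro (k | k)
    · rw [mul_r]
      obtain ⟨c, hc⟩ := sum_period (e := e) (fun i => f.coeff (sr i) * f.coeff (sr (i + k)))
        (fun i => by simp only [hfd, coeff_ofF, ind, h, add_right_comm i e k])
      rw [he, ZMod.natCast_self, zero_mul] at hc
      simpa [sp] using hc
    · simp [mul_sr, sp]
  have h2 : f ^ p = rp f ^ p := by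
    rw [pow_split S p hf]
    obtain ⟨k, hk⟩ : ∃ k, p = 2 + k := ⟨p - 2, by have := hp.two_le; omega⟩
    have : sp f ^ (2 + k) = 0 := by rw [pow_add, sq, h1, zero_mul]
    rw [← hk] at this
    rw [this, add_zero]
  have hpe : p • e = 0 := he ▸ addOrderOf_nsmul_eq_zero e
  have he0 : e ≠ 0 := by rintro rfl; exact hp.one_lt.ne (by simpa using he)
  have h3 : ∀ j, p • j ≠ 0 → T (r j) → T (r (e + j)) := by
    intro j hj hTj
    have h4 := zero_of_sr S ((S.alg _).pow_mem hf p) (fun i => by rw [h2, rp_pow]; simp)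
      (x := r (p • j)) (by rwa [Ne, r_eq_one])
    rw [h2, rp_pow] at h4
    have h5 := sum_ind (ZMod p) (fun i : ZMod n => p • i = p • j) (fun i => T (r i))
    refine fiber_full_add hp.pos (fun i => T (r i)) hTj ((ZMod.natCast_eq_zero_iff _ _).1 ?_) hpe
    rw [← h5, ← h4]
    apply Finset.sum_congr
    · ext i; simp [mul_comm]
    · intro i _; rfl
  have hone : ∀ x y, S.r x y → (x = 1 ↔ y = 1) := fun x y h =>
    ⟨fun e => S.one (S.symm (e ▸ h)), fun e => S.one (e ▸ h)⟩
  have hre : r e ≠ 1 := by rwa [Ne, r_eq_one]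
  by_cases hc : ∃ i, i ≠ 0 ∧ p • i = 0 ∧ T (r i)
  · obtain ⟨i, hi0, hip, hiT⟩ := hc
    rcases S.stab_cases (T := fun x => T x ∨ x = 1)
      (fun x y h => by simp only [hT x y h, hone x y h]) hre (by
        rintro (j | j) hj
        · rw [r_mul_r]
          by_cases c1 : p • j = 0
          · by_cases c2 : e + j = 0
            · exact Or.inr (r_eq_one.2 c2)
            · obtain ⟨u, hu, h4⟩ := exists_unit (x := i) (y := e + j) (by
                rw [addOrderOf_eq_prime hip hi0,
                  addOrderOf_eq_prime (by rw [nsmul_add, hpe, c1, add_zero]) c2])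
              left
              rw [h4, ← hT _ _ (hrat u hu i)]
              exact hiT
          · refine Or.inl (h3 j c1 (hj.resolve_right ?_))
            rw [r_eq_one]
            rintro rfl
            simp at c1
        · left
          rw [r_mul_sr, ← h, sub_add_cancel]
          exact hj.resolve_right (sr_ne_one j)) with h4 | h4
    · exact absurd (Or.inr rfl) (h4 1)
    · exact Or.inr fun x hx => (h4 x).resolve_right hx
  · push Not at hc
    rcases S.stab_cases (T := fun x => T x ∧ x ≠ 1)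
      (fun x y h => by simp only [hT x y h, Ne, hone x y h]) hre (by
        rintro (j | j) ⟨hj, hj1⟩
        · rw [Ne, r_eq_one] at hj1
          have c1 : p • j ≠ 0 := fun c => hc j hj1 c hj
          refine ⟨h3 j c1 hj, ?_⟩
          rw [r_mul_r, Ne, r_eq_one]
          intro c
          apply c1
          have := congrArg (p • ·) c
          simpa [hpe] using this
        · refine ⟨?_, sr_ne_one _⟩
          rw [r_mul_sr, ← h, sub_add_cancel]
          exact hj) with h4 | h4
    · exact Or.inl fun x hx h5 => h4 x ⟨h5, hx⟩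
    · exact absurd rfl (h4 1).2

theorem const_of (hrat : ∀ u, IsUnit u → ∀ i, S.r (r i) (r (u * i))) {p : ℕ} (hp : p.Prime)
    {e : ZMod n} (he : addOrderOf e = p) {R : Type*} {f : DihedralGroup n → R} (hf : Inv S.r f)
    (h : ∀ i, f (sr (i + e)) = f (sr i)) {x : DihedralGroup n} (hx : x ≠ 1) : f x = f (sr 0) := by
  rcases set_cases S hrat hp he (T := fun y => f y = f (sr 0))
    (fun x y h => by simp only [hf x y h]) (fun i => by simp only [h]) with h1 | h1
  · exact absurd rfl (h1 _ (sr_ne_one 0))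
  · exact h1 x hx

theorem no_set (hn : 2 ≤ n) (hrat : ∀ u, IsUnit u → ∀ i, S.r (r i) (r (u * i))) {p : ℕ}
    (hp : p.Prime) {e : ZMod n} (he : addOrderOf e = p) {T : DihedralGroup n → Prop}
    (hT : Inv S.r T) (hT1 : ¬ T 1) (h : ∀ i, T (r (i + e)) ↔ T (r i)) (x : DihedralGroup n) :
    ¬ T x := by
  classical
  intro hx
  have hx1 : x ≠ 1 := by rintro rfl; exact hT1 hx
  have hf := S.ofF_mem (S.ind_inv ℚ hT)
  set f := ofF (ind ℚ T) with hfd
  have hfe : ∀ i, f.coeff (r (i + e)) = f.coeff (r i) := fun i => by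
    simp only [hfd, coeff_ofF, ind, h]
  have h1 : ∀ y, y ≠ 1 → (f * f).coeff y = (f * f).coeff (sr 0) := by
    intro y hy
    refine const_of S hrat hp he ((S.alg ℚ).mul_mem hf hf) (fun k => ?_) hy
    rw [mul_sr, mul_sr]
    congr 1
    · rw [← Equiv.sum_comp (Equiv.addRight e) (fun i => f.coeff (r i) * f.coeff (sr (k + i)))]
      apply Finset.sum_congr rfl
      intro i _
      simp only [Equiv.coe_addRight, hfe]
      congr 3
      ring
    · apply Finset.sum_congr rfl
      intro i _
      rw [add_sub_right_comm, hfe]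
  obtain ⟨i, hi⟩ := ex_r S hn x
  obtain ⟨j, hj⟩ := ex_sr S hx1
  have h01 : ∀ y, f.coeff y = 0 ∨ f.coeff y = 1 := fun y => by
    simp only [hfd, coeff_ofF, ind]; split_ifs <;> simp
  refine arith (A := fun i => f.coeff (r i)) (B := fun i => f.coeff (sr i))
    (fun u x hu => (hf _ _ (hrat u hu x)).symm) (fun _ => h01 _) (fun _ => h01 _)
    (by simpa [hfd, ind] using hT1) ⟨i, by simpa [hfd, ind, ← hT _ _ hi] using hx⟩
    ⟨j, by simpa [hfd, ind, ← hT _ _ hj] using hx⟩ hp he hfe
    (lam := (f * f).coeff 1 - (f * f).coeff (sr 0)) (μ := (f * f).coeff (sr 0))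
    (fun k => ?_) (fun k => ?_)
  · have h2 := mul_r f f k
    simp only [add_comm _ k] at h2
    rw [← h2]
    split_ifs with hk
    · subst hk; simp
    · rw [h1 _ (by rwa [Ne, r_eq_one]), zero_add]
  · rw [← mul_sr, h1 _ (sr_ne_one k)]

theorem idem_bound (hn : 2 ≤ n) (hrat : ∀ u, IsUnit u → ∀ i, S.r (r i) (r (u * i)))
    {f : MonoidAlgebra ℚ (DihedralGroup n)} (hf : f ∈ S.alg ℚ) (hff : f * f = f)
    (hs : ∑ x, f.coeff x = 0) (h0 : f ≠ 0) : (n : ℚ) ≤ 2 * n * f.coeff 1 := by
  classical
  have hn0 := NeZero.ne n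
  let A : ZMod n → ℚ := fun i => f.coeff (r i)
  let B : ZMod n → ℚ := fun i => f.coeff (sr i)
  have hA : IsRat A := fun u x hu => (hf _ _ (hrat u hu x)).symm
  have hsym : ∀ x, A (-x) = A x := fun x => by simpa using hA (-1) x isUnit_one.neg
  have f1 : ∀ m, ft A m * ft A m + ft B (-m) * ft B m = ft A m := by
    intro m
    rw [← ft_conv1, ← ft_conv2, ← ft_add]
    congr 1
    ext k
    have h2 := mul_r f f k
    simp only [add_comm _ k, hff] at h2
    exact h2.symm
  have f2 : ∀ m, ft A m * ft B m + ft B m * ft A m = ft B m := by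
    intro m
    rw [← ft_neg A hsym m, ← ft_conv2, ft_neg A hsym m, ← ft_conv1, ← ft_add]
    congr 1
    ext k
    have h2 := mul_sr f f k
    simp only [hff] at h2
    exact h2.symm
  have hv : ∀ k, ft A k = 0 ∨ 2 * ft A k = 1 ∨ ft A k = 1 := by
    intro k
    have : ft A k * ((2 * ft A k - 1) * (ft A k - 1)) = 0 := by
      linear_combination (2 * ft A k - 1) * f1 k - ft B (-k) * f2 k
    simpa only [mul_eq_zero, sub_eq_zero] using this
  obtain ⟨α, hα1, hα2⟩ := expand hA
  let Λ : ℕ → AddSubgroup ℚ := fun s => AddSubgroup.zmultiples (s : ℚ)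
  have hΛ : ∀ s q, q ∈ Λ s ↔ ∃ z : ℤ, q = z * s := fun s q => by
    simp only [Λ, AddSubgroup.mem_zmultiples_iff, zsmul_eq_mul, eq_comm]
  have h1 := mem_of_sum (Λ 1) (fun d => 2 * (d * α d)) (fun e => e ∣ n)
    (fun d e hde he => hde.trans he)
    (fun e he0 he => by
      have h3 := hv e
      rw [hα2 e he] at h3
      rw [hΛ, ← Finset.mul_sum]
      generalize ∑ d ∈ e.divisors, (d : ℚ) * α d = c at h3
      rcases h3 with h | h | h
      · exact ⟨0, by simpa using h⟩
      · exact ⟨1, by rw [Int.cast_one, one_mul]; exact_mod_cast h⟩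
      · have : c = 1 := by exact_mod_cast h
        exact ⟨2, by simp [this]⟩)
  have h2 : ∀ d c, d * c ∣ n → 2 * (n : ℚ) * α d ∈ Λ c := by
    intro d c hd
    obtain ⟨z, hz⟩ := (hΛ _ _).1 (h1 d (by rintro rfl; exact hn0 (by simpa using hd))
      ((dvd_mul_right d c).trans hd))
    obtain ⟨m, hm⟩ := hd
    rw [hΛ]
    refine ⟨z * m, ?_⟩
    rw [hm]
    push_cast at hz ⊢
    linear_combination (c * m : ℚ) * hz
  have h3 : ∀ x, 2 * (n : ℚ) * f.coeff x ∈ Λ 1 := by
    intro x
    obtain ⟨i, hi⟩ := ex_r S hn x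
    rw [hf _ _ hi]
    change 2 * (n : ℚ) * A i ∈ Λ 1
    rw [hα1, Finset.mul_sum]
    refine (Λ 1).sum_mem fun d hd => ?_
    split_ifs
    · exact h2 d 1 (by simpa using Nat.dvd_of_mem_divisors hd)
    · simp
  have h4 : ∀ p j : ℕ, p.Prime → p ^ j ∣ n → ∀ x,
      2 * (n : ℚ) * f.coeff x - 2 * n * f.coeff 1 ∈ Λ (p ^ j) := by
    intro p j hp hj x
    rcases Nat.eq_zero_or_pos j with rfl | hj0
    · simpa using (Λ 1).sub_mem (h3 x) (h3 1)
    haveI := Fact.mk hp
    obtain ⟨e, he⟩ := exists_prime_addOrderOf_dvd_card (G := ZMod n) p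
      (by rw [ZMod.card]; exact (dvd_pow_self p hj0.ne').trans hj)
    have h5 : ∀ i, 2 * (n : ℚ) * A (i + e) - 2 * n * A i ∈ Λ (p ^ j) := by
      intro i
      rw [hα1 (i + e), hα1 i, ← mul_sub, ← Finset.sum_sub_distrib, Finset.mul_sum]
      refine (Λ _).sum_mem fun d hd => ?_
      by_cases c : p ∣ d
      · have : (d : ZMod n) * e = 0 := by rw [mul_eq_zero_iff, he]; exact c
        simp only [mul_add, this, add_zero, sub_self, mul_zero]
        exact (Λ _).zero_mem
      · have h6 := h2 d (p ^ j) (((hp.coprime_iff_not_dvd.2 c).symm.pow_right j).mul_dvd_of_dvd_of_dvd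
          (Nat.dvd_of_mem_divisors hd) hj)
        split_ifs
        · simp
        · simpa using h6
        · simpa using h6
        · simp
    by_contra hc
    refine no_set S hn hrat hp he
      (T := fun y => 2 * (n : ℚ) * f.coeff y - 2 * n * f.coeff 1 ∉ Λ (p ^ j))
      (fun x y h => by simp only [hf x y h]) (by simp) (fun i => not_congr ?_) x hc
    constructor
    · intro h
      have := (Λ _).sub_mem h (h5 i)
      simpa [A] using this
    · intro h
      have := (Λ _).add_mem h (h5 i)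
      simpa [A] using this
  have h5 : ∀ x, ∃ z : ℤ, 2 * (n : ℚ) * f.coeff x - 2 * n * f.coeff 1 = z * n := by
    intro x
    obtain ⟨z, hz⟩ := (hΛ _ _).1 ((Λ 1).sub_mem (h3 x) (h3 1))
    rw [Nat.cast_one, mul_one] at hz
    have h6 : n ∣ z.natAbs := by
      rw [Nat.dvd_iff_prime_pow_dvd_dvd]
      intro p k hp hk
      obtain ⟨w, hw⟩ := (hΛ _ _).1 (h4 p k hp hk x)
      rw [← Int.natCast_dvd]
      refine ⟨w, ?_⟩
      rw [hz] at hw
      rw [mul_comm]
      exact_mod_cast hw
    obtain ⟨w, hw⟩ := Int.natCast_dvd.2 h6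
    exact ⟨w, by rw [hz, hw]; push_cast; ring⟩
  have hnq : (0 : ℚ) < n := by exact_mod_cast Nat.pos_of_ne_zero hn0
  have h6 : ∀ y, y ≠ 1 → f.coeff y < f.coeff 1 := by
    intro y hy
    have e1 : f.coeff y = ∑ x, f.coeff x * f.coeff (y⁻¹ * x) := by
      conv_lhs => rw [← hff, cmul]
      apply Finset.sum_congr rfl
      intro x _
      rw [hf _ _ (sym S (x⁻¹ * y))]
      simp
    have e2 : f.coeff 1 = ∑ x, f.coeff x * f.coeff x := by
      conv_lhs => rw [← hff, cmul]
      apply Finset.sum_congr rfl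
      intro x _
      rw [mul_one, ← hf _ _ (sym S x)]
    have e3 : f.coeff 1 = ∑ x, f.coeff (y⁻¹ * x) * f.coeff (y⁻¹ * x) := by
      rw [e2, ← Equiv.sum_comp (Equiv.mulLeft y⁻¹)]
      rfl
    have e4 : 2 * (f.coeff 1 - f.coeff y) = ∑ x, (f.coeff x - f.coeff (y⁻¹ * x)) ^ 2 := by
      have : ∑ x, (f.coeff x - f.coeff (y⁻¹ * x)) ^ 2 = ∑ x, f.coeff x * f.coeff x +
          ∑ x, f.coeff (y⁻¹ * x) * f.coeff (y⁻¹ * x) - 2 * ∑ x, f.coeff x * f.coeff (y⁻¹ * x) := by
        rw [Finset.mul_sum, ← Finset.sum_add_distrib, ← Finset.sum_sub_distrib]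
        apply Finset.sum_congr rfl
        intro x _
        ring
      rw [this, ← e1, ← e2, ← e3]
      ring
    by_contra hc
    have e5 : ∑ x, (f.coeff x - f.coeff (y⁻¹ * x)) ^ 2 = 0 :=
      le_antisymm (by linarith) (Finset.sum_nonneg fun x _ => sq_nonneg _)
    rw [Finset.sum_eq_zero_iff_of_nonneg (fun x _ => sq_nonneg _)] at e5
    rcases S.stab_cases (T := fun x => f.coeff x = f.coeff 1) (fun x y h => by simp only [hf x y h])
      (inv_ne_one.2 hy) (fun x hx => by
        have := e5 x (Finset.mem_univ _)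
        rw [sq_eq_zero_iff, sub_eq_zero] at this
        rw [← this, hx]) with h | h
    · exact h 1 rfl
    · simp only [h, Finset.sum_const, Finset.card_univ, DihedralGroup.card, nsmul_eq_mul,
        mul_eq_zero, Nat.cast_eq_zero] at hs
      apply h0
      apply ext'
      intro x
      rw [h x, hs.resolve_left (by omega)]
      simp
  have h7 : ∀ y ∈ Finset.univ.erase (1 : DihedralGroup n),
      2 * (n : ℚ) * f.coeff y ≤ 2 * n * f.coeff 1 - n := by
    intro y hy
    obtain ⟨z, hz⟩ := h5 y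
    have h8 := h6 y (Finset.mem_erase.1 hy).1
    have h9 : (z : ℚ) * n < 0 := by nlinarith
    have h10 : z < 0 := by
      have := neg_of_mul_neg_left h9 hnq.le
      exact_mod_cast this
    have h11 : (z : ℚ) ≤ -1 := by exact_mod_cast (by omega : z ≤ -1)
    nlinarith
  have h8 := Finset.sum_le_card_nsmul _ _ _ h7
  rw [← Finset.add_sum_erase _ _ (Finset.mem_univ 1)] at hs
  rw [← Finset.mul_sum, Finset.card_erase_of_mem (Finset.mem_univ _), Finset.card_univ,
    DihedralGroup.card, nsmul_eq_mul, Nat.cast_sub (by omega), eq_neg_of_add_eq_zero_right hs] at h8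
  obtain ⟨z, hz⟩ := (hΛ _ _).1 (h3 1)
  rw [Nat.cast_one, mul_one] at hz
  rw [mul_neg, hz] at h8
  rw [hz]
  push_cast at h8
  have h9 : 2 * (n : ℚ) - 1 ≤ 2 * z := by
    apply le_of_mul_le_mul_left _ hnq
    linarith
  have h10 : 2 * (n : ℤ) - 1 ≤ 2 * z := by exact_mod_cast h9
  exact_mod_cast (by omega : (n : ℤ) ≤ z)

/-- the sign character -/
def sg (n : ℕ) : DihedralGroup n →* ℚ where
  toFun x := match x with
    | r _ => 1
    | sr _ => -1
  map_one' := rfl
  map_mul' := by rintro (i | i) (j | j) <;> simp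

theorem rank_two_rat (hn : 2 ≤ n) (hrat : ∀ u, IsUnit u → ∀ i, S.r (r i) (r (u * i)))
    (x y : DihedralGroup n) (hx : x ≠ 1) (hy : y ≠ 1) : S.r x y := by
  classical
  have hnq : (0 : ℚ) < n := by exact_mod_cast (by omega : 0 < n)
  let ε : MonoidAlgebra ℚ (DihedralGroup n) → ℚ := fun f => ∑ x, f.coeff x * sg n x
  have εmul : ∀ f g, ε (f * g) = ε f * ε g := ev_mul (sg n)
  let c : DihedralGroup n → ℚ := fun x => (Finset.univ.filter (S.r x)).card
  have hc : ∀ x, 0 < c x := fun x => by
    simp only [c]; exact_mod_cast Finset.card_pos.2 ⟨x, by simp [S.refl]⟩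
  have hcls : ∀ x y, S.r x y → S.r x = S.r y := fun x y h =>
    funext fun z => propext ⟨fun e => S.trans (S.symm h) e, fun e => S.trans h e⟩
  let w : MonoidAlgebra ℚ (DihedralGroup n) := ofF fun x => (∑ y with S.r x y, sg n y) / c x
  have hw : w ∈ S.alg ℚ := fun x y h => by simp only [w, c, coeff_ofF, hcls x y h]
  have hip : ∀ f ∈ S.alg ℚ, ∑ x, w.coeff x * f.coeff x = ε f := by
    intro f hf
    simp only [w, ε, coeff_ofF, Finset.sum_div, Finset.sum_mul]
    rw [Finset.sum_comm' (t' := Finset.univ) (s' := fun y => Finset.univ.filter (S.r y))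
      (by intro x y; simp only [Finset.mem_univ, Finset.mem_filter, true_and, and_true]
          exact ⟨S.symm, S.symm⟩)]
    apply Finset.sum_congr rfl
    intro y _
    rw [Finset.sum_congr rfl (g := fun _ => sg n y / c y * f.coeff y), Finset.sum_const,
      nsmul_eq_mul]
    · have := (hc y).ne'
      change c y * _ = _
      field_simp
    · intro x hx
      have h := (Finset.mem_filter.1 hx).2
      simp only [c, hcls y x h, hf y x h]
  have hw1 : w.coeff 1 = 1 := by
    have : Finset.univ.filter (S.r 1) = {1} := by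
      ext z
      simp only [Finset.mem_filter, Finset.mem_univ, true_and, Finset.mem_singleton]
      exact ⟨fun h => S.one (S.symm h), by rintro rfl; exact S.refl _⟩
    simp [w, c, this]
  have hmul : ∀ f ∈ S.alg ℚ, f * w = ε f • w := by
    intro f hf
    set g := f * w - ε f • w with hg
    have hgm : g ∈ S.alg ℚ :=
      (S.alg ℚ).sub_mem ((S.alg ℚ).mul_mem hf hw) ((S.alg ℚ).smul_mem hw _)
    have e1 : ∑ x, (f * w).coeff x * g.coeff x = ε f * ε g := by
      rw [← εmul, ← hip _ ((S.alg ℚ).mul_mem hf hgm)]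
      simp only [cmul, Finset.sum_mul, Finset.mul_sum]
      rw [Finset.sum_comm, ← Equiv.sum_comp (Equiv.inv _)]
      conv_rhs => rw [Finset.sum_comm]
      apply Finset.sum_congr rfl
      intro u _
      rw [← Equiv.sum_comp (Equiv.mulLeft u⁻¹)]
      apply Finset.sum_congr rfl
      intro v _
      simp only [Equiv.inv_apply, Equiv.coe_mulLeft, inv_inv, mul_inv_cancel_left,
        ← hf _ _ (sym S u)]
      ring
    have e2 : ∑ x, g.coeff x * g.coeff x = 0 := by
      have : ∑ x, g.coeff x * g.coeff x =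
          ∑ x, (f * w).coeff x * g.coeff x - ε f * ∑ x, w.coeff x * g.coeff x := by
        rw [Finset.mul_sum, ← Finset.sum_sub_distrib]
        apply Finset.sum_congr rfl
        intro x _
        conv_lhs => enter [1]; rw [hg]
        simp only [coeff_sub, coeff_smul, Finsupp.sub_apply, Finsupp.smul_apply, smul_eq_mul]
        ring
      rw [this, e1, hip g hgm, sub_self]
    rw [Finset.sum_eq_zero_iff_of_nonneg (fun x _ => mul_self_nonneg _)] at e2
    rw [← sub_eq_zero, ← hg]
    apply ext'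
    intro x
    simpa using e2 x (Finset.mem_univ _)
  have hεw : 0 < ε w := by
    rw [← hip w hw]
    exact Finset.sum_pos' (fun x _ => mul_self_nonneg _) ⟨1, Finset.mem_univ _, by simp [hw1]⟩
  set e1 := (ε w)⁻¹ • w with he1
  have he1m : e1 ∈ S.alg ℚ := (S.alg ℚ).smul_mem hw _
  have hmul1 : ∀ f ∈ S.alg ℚ, f * e1 = ε f • e1 := by
    intro f hf
    rw [he1, mul_smul_comm, hmul f hf, smul_comm]
  have h11 : e1 * e1 = e1 := by
    conv_lhs => enter [1]; rw [he1]
    rw [smul_mul_assoc, hmul1 w hw, smul_smul, inv_mul_cancel₀ hεw.ne', one_smul]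
  set e0 : MonoidAlgebra ℚ (DihedralGroup n) := ofF fun _ => (2 * n : ℚ)⁻¹ with he0
  have he0m : e0 ∈ S.alg ℚ := fun _ _ _ => rfl
  have hmul0 : ∀ f, f * e0 = (∑ x, f.coeff x) • e0 := by
    intro f
    apply ext'
    intro z
    simp [cmul, he0, Finset.sum_mul]
  have hs0 : ∑ x, e0.coeff x = 1 := by
    simp only [he0, coeff_ofF, Finset.sum_const, Finset.card_univ, DihedralGroup.card, nsmul_eq_mul]
    push_cast
    field_simp
  have h00 : e0 * e0 = e0 := by rw [hmul0, hs0, one_smul]
  have h01 : e0 * e1 = 0 := by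
    rw [hmul1 e0 he0m]
    have : ε e0 = 0 := by
      have s1 : ∀ i : ZMod n, sg n (r i) = 1 := fun _ => rfl
      have s2 : ∀ i : ZMod n, sg n (sr i) = -1 := fun _ => rfl
      simp [ε, he0, sum_dih, s1, s2]
    rw [this, zero_smul]
  have h10 : e1 * e0 = 0 := by rw [comm S he1m he0m, h01]
  have hs1 : ∑ x, e1.coeff x = 0 := by
    have := congrArg (fun f => f.coeff 1) (hmul0 e1)
    simp only [h10] at this
    simp only [he0, coeff_smul, Finsupp.smul_apply, coeff_ofF, smul_eq_mul] at this
    simpa [hnq.ne'] using this.symm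
  have hb1 := idem_bound S hn hrat he1m h11 hs1 (by
    intro h
    have := congrArg (fun f => f.coeff 1) h
    simp [he1, hw1, hεw.ne'] at this)
  have h' : 1 - e0 - e1 = 0 := by
    by_contra h
    have hb2 := idem_bound S hn hrat ((S.alg ℚ).sub_mem ((S.alg ℚ).sub_mem (S.alg ℚ).one_mem he0m)
      he1m) (by simp only [sub_mul, mul_sub, one_mul, mul_one, h00, h01, h10, h11]; abel)
      (by simp only [coeff_sub, Finsupp.sub_apply, Finset.sum_sub_distrib, hs0, hs1, cone]; simp) h
    simp only [coeff_sub, Finsupp.sub_apply, coeff_one_one, he0, coeff_ofF, mul_sub] at hb2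
    rw [mul_inv_cancel₀ (by positivity)] at hb2
    linarith
  have hf := S.ofF_mem (S.ind_inv ℚ (S.inv_cls x))
  have h2 := hmul1 _ hf
  rw [sub_eq_zero] at h'
  rw [← h', mul_sub, mul_one, hmul0] at h2
  have h3 := congrArg (fun f => f.coeff x) h2
  have h4 := congrArg (fun f => f.coeff y) h2
  simp only [coeff_sub, coeff_smul, Finsupp.sub_apply, Finsupp.smul_apply, smul_eq_mul, cone,
    he0, coeff_ofF, if_neg hx, if_neg hy] at h3 h4
  have h5 : ind ℚ (S.r x) y = ind ℚ (S.r x) x := by linarith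
  by_contra h6
  simp [ind, h6, S.refl] at h5

/-- Wielandt's theorem: primitive Schur rings over dihedral groups have rank two. -/
theorem rank_two (x y : DihedralGroup n) (hx : x ≠ 1) (hy : y ≠ 1) : S.r x y := by
  by_cases hn : 2 ≤ n
  · exact of_rat S hn (rank_two_rat (rat S hn) hn (fun u hu i => rat_rat S hn hu i)) x y hx hy
  · obtain rfl : n = 1 := by have := NeZero.ne n; omega
    have : x = y := by revert x y; decide
    exact this ▸ S.refl x

end CfsgH5.SRing.Dih
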