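import Cfsg.Agent.H5.Wong2
import Cfsg.Agent.H5.PSL2Cent

/-! Wong's theorem on subdegree three, part 4: maximal `S₄` in `PSL(2,q)`. -/

set_option autoImplicit false
set_option linter.style.haveILetI false
set_option linter.unusedSectionVars false

namespace CfsgH5.Wong

open Subgroup CfsgH6 Equiv Matrix
open scoped MatrixGroups

variable {F : Type} [Field F]

theorem quat_expand {I J : Matrix (Fin 2) (Fin 2) F} (hI : I.det = 1) (hJ : J.det = 1)
    (tI : I.trace = 0) (tJ : J.trace = 0) (tK : (I * J).trace = 0) (X Y : Matrix (Fin 2) (Fin 2) F) :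
    2 * (X * Y).trace = X.trace * Y.trace - (X * I).trace * (Y * I).trace -
      (X * J).trace * (Y * J).trace - (X * (I * J)).trace * (Y * (I * J)).trace := by
  simp only [det_fin_two, trace_fin_two, mul_apply, Fin.sum_univ_two] at *
  grind

theorem nu_facts {I J : Matrix (Fin 2) (Fin 2) F} (hI : I.det = 1) (hJ : J.det = 1)
    (tI : I.trace = 0) (tJ : J.trace = 0) (tK : (I * J).trace = 0) {a b : F}
    (h : a ^ 2 + b ^ 2 = -1) : (I + a • J + b • (I * J)).trace = 0 ∧
      (I + a • J + b • (I * J)).det = 0 ∧ ((I + a • J + b • (I * J)) * I).trace = -2 := by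
  simp only [det_fin_two, trace_fin_two, mul_apply, Fin.sum_univ_two, Matrix.add_apply,
    Matrix.smul_apply, smul_eq_mul] at *
  refine ⟨?_, ?_, ?_⟩ <;> grind

theorem exists_uni {ν : Matrix (Fin 2) (Fin 2) F} (h1 : ν.trace = 0) (h2 : ν.det = 0) :
    ∃ U : Multiplicative F →* SL(2, F),
      ∀ c, (U (.ofAdd c) : Matrix (Fin 2) (Fin 2) F) = 1 + c • ν := by
  have νν : ν * ν = 0 := by
    simp only [det_fin_two, trace_fin_two] at h1 h2
    ext x y
    fin_cases x <;> fin_cases y <;> simp [mul_apply, Fin.sum_univ_two] <;> grind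
  refine ⟨MonoidHom.mk' (fun c => ⟨1 + c.toAdd • ν, by
    simp only [det_fin_two, trace_fin_two, Matrix.add_apply, Matrix.smul_apply, smul_eq_mul] at *
    simp
    grind⟩) fun c d => Subtype.ext ?_, fun _ => rfl⟩
  change 1 + (c.toAdd + d.toAdd) • ν = (1 + c.toAdd • ν) * (1 + d.toAdd • ν)
  simp [mul_add, add_mul, νν, add_smul, add_assoc, add_comm, add_left_comm]

theorem tr_cases (h2 : (2 : F) ≠ 0) {A : SL(2, F)} (h : pmk F A ^ 3 = 1 ∨ pmk F A ^ 4 = 1) :
    let t := (A : Matrix (Fin 2) (Fin 2) F).trace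
    t = 2 ∨ t = -2 ∨ t = 0 ∨ t ^ 2 = 1 ∨ t ^ 2 = 2 := by
  intro t
  have ht : t = A 0 0 + A 1 1 := trace_fin_two _
  by_cases hA : A ∈ center SL(2, F)
  · rcases sl2_mem_center.1 hA with rfl | rfl
    · left; rw [ht]; simp; norm_num
    · right; left; rw [ht]; simp [sl2_neg_apply]; norm_num
  have hd := sl2_det A
  rcases h with h | h
  · rw [← map_pow, pmk_eq_one] at h
    have h3 : (A * A * A) 0 1 = 0 ∧ (A * A * A) 1 0 = 0 ∧ (A * A * A) 0 0 = (A * A * A) 1 1 := by
      rw [← pow_three']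
      rcases sl2_mem_center.1 h with c | c <;> rw [c] <;> simp [sl2_neg_apply]
    simp only [sl2_mul_apply] at h3
    obtain ⟨a, b, c⟩ := h3
    right; right; right; left
    rw [ht]
    rcases sl2_not_center hA with d | d | d <;> apply mul_left_cancel₀ d <;> grind
  · by_cases hB : A * A ∈ center SL(2, F)
    · right; right; left
      exact ht ▸ trace_of_sq h2 hA (by rw [← map_mul, pmk_eq_one]; exact hB)
    · have := trace_of_sq h2 hB (by
        rw [← h]; simp only [map_mul, pow_succ, pow_zero, one_mul, mul_assoc])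
      simp only [sl2_mul_apply] at this
      right; right; right; right
      rw [ht]; grind

theorem not_coatom [Fintype F] (h2 : (2 : F) ≠ 0) {e : S4 →* PSL(2, F)} (he : Function.Injective e)
    (K : Subfield F) (hK : K ≠ ⊤) {τ : F} (hτ : τ ^ 2 = 2) (τK : τ ∈ K) : ¬ IsCoatom e.range := by
  intro hmax
  obtain ⟨p, _, -, hp, -⟩ := FiniteField.card' F
  haveI := Fact.mk hp
  have hp2 : p.Coprime 2 := (Nat.coprime_primes hp Nat.prime_two).2 fun c => h2 (by
    exact_mod_cast c ▸ CharP.cast_eq_zero F p)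
  obtain ⟨i, hi⟩ := pmk_surj (e z0)
  obtain ⟨j, hj⟩ := pmk_surj (e v0)
  have tr0 : ∀ (A : SL(2, F)) (σ : S4), pmk F A = e σ → σ ≠ 1 → σ * σ = 1 →
      (A : Matrix (Fin 2) (Fin 2) F).trace = 0 := fun A σ a b c => by
    rw [trace_fin_two]
    exact trace_of_sq h2 (fun d => b (he (by rw [← a, pmk_eq_one.2 d, map_one])))
      (by rw [a, ← map_mul, c, map_one])
  have tI := tr0 i _ hi (by decide) (by decide)
  have tJ := tr0 j _ hj (by decide) (by decide)
  have tK := tr0 (i * j) (z0 * v0) (by rw [map_mul, map_mul, hi, hj]) (by decide) (by decide)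
  rw [Matrix.SpecialLinearGroup.coe_mul] at tK
  let H := e.range.comap (pmk F)
  have iH : i ∈ H := ⟨_, hi.symm⟩
  have jH : j ∈ H := ⟨_, hj.symm⟩
  have two : (2 : F) ∈ K := by exact_mod_cast natCast_mem K 2
  have trH : ∀ w ∈ H, (w : Matrix (Fin 2) (Fin 2) F).trace ∈ K := by
    rintro w ⟨σ, hσ⟩
    rcases tr_cases h2 (A := w) (by
      rw [← hσ, ← map_pow, ← map_pow]
      exact ((by decide +kernel : ∀ σ : S4, σ ^ 3 = 1 ∨ σ ^ 4 = 1) σ).imp
        (fun c => by rw [c, map_one]) fun c => by rw [c, map_one]) with c | c | c | c | c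
    · exact c ▸ two
    · exact c ▸ neg_mem two
    · exact c ▸ zero_mem _
    · rcases sq_eq_one_iff.1 c with c | c <;> rw [c]
      exacts [one_mem _, neg_mem (one_mem _)]
    · rcases sq_eq_sq_iff_eq_or_eq_neg.1 (c.trans hτ.symm) with c | c <;> rw [c]
      exacts [τK, neg_mem τK]
  let R : Subgroup SL(2, F) :=
    { carrier := {g | ∀ w ∈ H, ((g * w : SL(2, F)) : Matrix (Fin 2) (Fin 2) F).trace ∈ K}
      one_mem' := fun w hw => by simpa using trH w hw
      mul_mem' := fun {a b} ha hb w hw => by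
        have := quat_expand i.2 j.2 tI tJ tK a (b * w : SL(2, F))
        rw [← eq_inv_mul_iff_mul_eq₀ h2] at this
        rw [mul_assoc, Matrix.SpecialLinearGroup.coe_mul, this]
        have a1 := ha 1 (one_mem _)
        have a2 := ha i iH
        have a3 := ha j jH
        have a4 := ha _ (mul_mem iH jH)
        have b1 := hb w hw
        have b2 := hb _ (mul_mem hw iH)
        have b3 := hb _ (mul_mem hw jH)
        have b4 := hb _ (mul_mem hw (mul_mem iH jH))
        simp only [mul_one, Matrix.SpecialLinearGroup.coe_mul, Matrix.mul_assoc] at *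
        exact mul_mem (inv_mem two) (sub_mem (sub_mem (sub_mem (mul_mem a1 b1)
          (mul_mem a2 b2)) (mul_mem a3 b3)) (mul_mem a4 b4))
      inv_mem' := fun {a} ha w hw => by
        have := ha w⁻¹ (inv_mem hw)
        rw [Matrix.SpecialLinearGroup.coe_mul, trace_mul_comm, ← Matrix.SpecialLinearGroup.coe_mul,
          show w⁻¹ * a = (a⁻¹ * w)⁻¹ by group, Matrix.SpecialLinearGroup.coe_inv, adjugate_fin_two,
          trace_fin_two] at this
        rw [trace_fin_two]
        simpa [add_comm] using this }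
  have hle : e.range ≤ R.map (pmk F) := fun x hx => by
    obtain ⟨g, rfl⟩ := pmk_surj x
    exact ⟨g, fun w hw => trH _ (mul_mem hx hw), rfl⟩
  rcases hle.eq_or_lt with c | c
  swap
  · obtain ⟨t, ht⟩ : ∃ t, t ∉ K := by
      by_contra d
      push Not at d
      exact hK (eq_top_iff.2 fun t _ => d t)
    obtain ⟨g, a, b⟩ : pmk F (CfsgH7.sl2Companion t) ∈ R.map (pmk F) := hmax.2 _ c ▸ mem_top _
    have := a 1 (one_mem _)
    rw [mul_one, trace_fin_two] at this
    rcases pmk_eq.1 b with rfl | rfl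
    · exact ht (by simpa [CfsgH7.sl2Companion] using this)
    · rw [Matrix.SpecialLinearGroup.coe_neg] at this
      exact ht (by simpa [CfsgH7.sl2Companion] using this)
  obtain ⟨a, b, hab⟩ := CharP.sq_add_sq F p (-1)
  have hν := nu_facts i.2 j.2 tI tJ tK (a := a) (b := b) (by exact_mod_cast hab)
  obtain ⟨U, hU'⟩ := exists_uni hν.1 hν.2.1
  have hU : ∀ c : F, pmk F (U (.ofAdd c)) = 1 → c = 0 := fun c d => by
    rcases sl2_mem_center.1 (pmk_eq_one.1 d) with d | d
    · have := congrArg (fun A : SL(2, F) => ((A : Matrix (Fin 2) (Fin 2) F) * i).trace) d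
      rw [hU', add_mul, smul_mul_assoc, trace_add, trace_smul, hν.2.2] at this
      simpa [h2] using this
    · have := congrArg (fun A : SL(2, F) => (A : Matrix (Fin 2) (Fin 2) F).trace) d
      simp only [hU', trace_add _ (c • _), trace_smul, hν.1, Matrix.SpecialLinearGroup.coe_neg]
        at this
      simp at this
      exact absurd (mul_self_eq_zero.1 (by linear_combination this)) h2
  have mU : ∀ c ∈ K, ∃ σ : S4, σ ^ 3 = 1 ∧ e σ = pmk F (U (.ofAdd c)) := fun t ht => by
    obtain ⟨σ, hσ⟩ : pmk F (U (.ofAdd t)) ∈ e.range := c ▸ ⟨_, fun w hw => by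
      have d1 := trH _ hw
      have d2 := trH _ (mul_mem iH hw)
      have d3 := trH _ (mul_mem jH hw)
      have d4 := trH _ (mul_mem (mul_mem iH jH) hw)
      simp only [hU', Matrix.SpecialLinearGroup.coe_mul, add_mul, one_mul,
        smul_mul_assoc, trace_add, trace_smul, smul_eq_mul] at d1 d2 d3 d4 ⊢
      exact add_mem d1 (mul_mem ht (add_mem (add_mem d2 (mul_mem (natCast_mem K a) d3))
        (mul_mem (natCast_mem K b) d4))), rfl⟩
    refine ⟨σ, ((by decide +kernel : ∀ σ : S4, σ ^ 3 = 1 ∨ σ ^ 2 ^ 2 = 1) σ).elim id fun d => ?_, hσ⟩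
    have : σ ^ p = 1 := he (by
      rw [map_pow, hσ, ← map_pow, ← map_pow, ← ofAdd_nsmul, nsmul_eq_mul, CharP.cast_eq_zero]; simp)
    rw [eq_one_of_coprime_of_pow (hp2.coprime_dvd_left (orderOf_dvd_of_pow_eq_one this)) d, one_pow]
  obtain ⟨σ, a1, a2⟩ := mU 1 (one_mem _)
  obtain ⟨ς, b1, b2⟩ := mU τ τK
  rcases (by decide +kernel : ∀ a : S4, a ^ 3 = 1 → ∀ b : S4, b ^ 3 = 1 → a * b = b * a →
    a = 1 ∨ b = 1 ∨ b * a⁻¹ = 1 ∨ b * a = 1) σ a1 ς b1 (he (by
      rw [map_mul, map_mul, a2, b2, ← (pmk F).map_mul, ← (pmk F).map_mul, ← U.map_mul, ← U.map_mul,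
        mul_comm]))
    with d | d | d | d
  · exact one_ne_zero (hU 1 (by rw [← a2, d, map_one]))
  · have := hU τ (by rw [← b2, d, map_one])
    exact h2 (by rw [← hτ, this]; ring)
  · have := hU (τ - 1) (by
      rw [sub_eq_add_neg, ofAdd_add, ofAdd_neg, map_mul, map_mul, map_inv, map_inv, ← a2, ← b2,
        ← map_inv, ← map_mul, d, map_one])
    exact one_ne_zero (α := F) (by linear_combination -hτ + (τ + 1) * this)
  · have := hU (τ + 1) (by rw [ofAdd_add, map_mul, map_mul, ← a2, ← b2, ← map_mul, d, map_one])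
    exact one_ne_zero (α := F) (by linear_combination -hτ + (τ - 1) * this)

theorem prime_card [Fintype F] (h : Fintype.card F % 16 = 1 ∨ Fintype.card F % 16 = 15)
    {e : S4 →* PSL(2, F)} (he : Function.Injective e) (hmax : IsCoatom e.range) :
    (Fintype.card F).Prime := by
  obtain ⟨p, _, n, hp, hn⟩ := FiniteField.card' F
  haveI := Fact.mk hp
  have hp2 : p ≠ 2 := by
    rintro rfl
    have : 2 ∣ Fintype.card F := hn ▸ dvd_pow_self 2 n.ne_zero
    omega
  have h2 : (2 : F) ≠ 0 := fun c => hp2 ((Nat.prime_dvd_prime_iff_eq hp Nat.prime_two).1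
    ((CharP.cast_eq_zero_iff F p 2).1 (by exact_mod_cast c)))
  obtain ⟨τ, hτ⟩ := (FiniteField.isSquare_two_iff (F := F)).2 (by omega)
  have key : ∀ m : ℕ, 0 < m → τ ^ p ^ m = τ → (n : ℕ) ≤ m := fun m hm a => by
    by_contra c
    refine not_coatom h2 he ((iterateFrobenius F p m).eqLocusField (RingHom.id F)) (fun d => ?_)
      (τ := τ) (by rw [hτ, sq]) a hmax
    obtain ⟨g, hg⟩ := IsCyclic.exists_ofOrder_eq_natCard (α := Fˣ)
    have h1 : (g : F) ^ p ^ m = g := (d ▸ Subfield.mem_top (g : F) :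
      (g : F) ∈ (iterateFrobenius F p m).eqLocusField (RingHom.id F))
    have h3 := Nat.one_lt_pow hm.ne' hp.one_lt
    have h4 : g ^ (p ^ m - 1) = 1 := by
      rw [← mul_left_inj g, ← pow_succ, Nat.sub_add_cancel h3.le, one_mul]
      exact Units.ext (by simpa using h1)
    have h5 := Nat.le_of_dvd (by omega) (orderOf_dvd_of_pow_eq_one h4)
    rw [hg, Nat.card_units, Nat.card_eq_fintype_card, hn] at h5
    have := Nat.pow_lt_pow_right hp.one_lt (not_le.1 c)
    omega
  by_cases c : τ ^ p = τ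
  · have := key 1 one_pos (by rwa [pow_one])
    have := n.pos
    rwa [hn, show (n : ℕ) = 1 by omega, pow_one]
  have h3 : τ ^ p = -τ := (sq_eq_sq_iff_eq_or_eq_neg.1 (by
    rw [← pow_mul, mul_comm, pow_mul, sq, ← hτ]
    exact map_ofNat (frobenius F p) 2)).resolve_left c
  have h4 := key 2 two_pos (by rw [sq, pow_mul, h3, (hp.odd_of_ne_two hp2).neg_pow, h3, neg_neg])
  have := n.pos
  rcases (show (n : ℕ) = 1 ∨ (n : ℕ) = 2 by omega) with d | d
  · rwa [hn, d, pow_one]
  exfalso
  rw [hn, d] at h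
  obtain ⟨a, ha⟩ := (ZMod.exists_sq_eq_two_iff hp2).2 (by
    rw [Nat.pow_mod] at h
    have : p % 8 = p % 16 % 8 := (Nat.mod_mod_of_dvd p (by norm_num)).symm
    rw [this]
    have : p % 16 < 16 := Nat.mod_lt _ (by norm_num)
    generalize p % 16 = j at *
    interval_cases j <;> simp_all)
  have h5 := congrArg (ZMod.castHom (dvd_refl p) F) ha
  rw [map_mul, map_ofNat, hτ, mul_self_eq_mul_self_iff] at h5
  have h6 : ZMod.castHom (dvd_refl p) F a ^ p = ZMod.castHom (dvd_refl p) F a := by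
    rw [← map_pow, ZMod.pow_card]
  rcases h5 with d | d
  · exact c (by rw [d, h6])
  · exact c (by rw [d, (hp.odd_of_ne_two hp2).neg_pow, h6])

end CfsgH5.Wong
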