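import Cfsg.Agent.H5.Xp1

set_option autoImplicit false
set_option linter.unusedSectionVars false

/-! Extremely primitive groups of affine type: the socle of the stabiliser is simple. -/

namespace CfsgH5.Xp
open Subgroup CfsgH5 CfsgH6 CfsgFT
open scoped commutatorElement

universe u
variable {G : Type u} [Group G] [Finite G] {V H L A U X Y K : Subgroup G} {p : ℕ} {v w g s : G}

structure XQ (p : ℕ) (V H L A : Subgroup G) : Prop where
  x : XP p V H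
  le : L ≤ H
  mL : MinNrm L H
  leA : A ≤ L
  mA : MinNrm A L
  ne : A ≠ L

/-- diagonal type -/
def TD (L A : Subgroup G) (v : G) : Prop := L ≤ (L ⊓ C A) ⊔ L ⊓ C1 v

/-- product type -/
def TP (L A : Subgroup G) (v : G) : Prop := ∀ a ∈ A, ∀ b ∈ L ⊓ C A, a * b ∈ C1 v → a ∈ C1 v

namespace XQ
variable (h : XQ p V H L A)
include h

theorem leH : A ≤ H := h.leA.trans h.le

theorem cjL (hg : g ∈ H) : cj g A ≤ L := (cj_mono h.leA).trans (h.mL.nrm.cj_eq hg).le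

theorem cj_or (hg : g ∈ H) : cj g A = A ∨ cj g A ≤ C A := by
  have m : MinNrm (cj g A) L := by simpa only [h.mL.nrm.cj_eq hg] using h.mA.cjj g
  rcases m.le_or_inf_eq_bot h.mA.nrm with e | e
  · exact .inl (eq_of_le_of_card_eq e (card_cj _ _))
  · exact .inr (le_C_of_inf_eq_bot (h.mA.nrm.mono (h.cjL hg)) (m.nrm.mono h.leA) e)

theorem exists_cj : ∃ g ∈ H, cj g A ≤ C A := by
  by_contra! c
  refine h.ne ((h.mL.eq_bot_or_eq h.leA fun g hg x hx => ?_).resolve_left h.mA.ne_bot)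
  exact ((h.cj_or hg).resolve_right (c g hg)).le (conj_mem_cj.2 hx)

theorem nsol : ¬ Group.IsSolvable A := fun hs => by
  have a : A ≤ Fit L := (h.mA.le_Z_Fit h.leA hs).trans inf_le_left
  rcases h.mL.eq_bot_or_eq (Fit_le L) h.mL.nrm.Fit with e | e
  · exact h.mA.ne_bot (eq_bot_iff.2 (a.trans e.le))
  · exact h.x.not_solv h.le h.mL (e ▸ solvable_of_nilpotent (nilpotent_Fit L))

theorem nrmB : Nrm L (L ⊓ C A) := (Nrm.self L).inf h.mA.nrm.C

theorem L_le : L ≤ A ⊔ L ⊓ C A := by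
  have a : A ≤ L ⊓ cor H (A ⊔ L ⊓ C A) := fun x hx => ⟨h.leA hx, fun g hg => by
    rcases h.cj_or hg with e | e
    · exact mem_sup_left (e.le (conj_mem_cj.2 hx))
    · exact mem_sup_right ⟨h.cjL hg (conj_mem_cj.2 hx), e (conj_mem_cj.2 hx)⟩⟩
  rcases h.mL.eq_bot_or_eq (X := L ⊓ cor H (A ⊔ L ⊓ C A)) inf_le_left
    (h.mL.nrm.inf nrm_cor) with e | e
  · exact absurd (eq_bot_iff.2 (a.trans e.le)) h.mA.ne_bot
  · exact e.ge.trans (inf_le_right.trans cor_le)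

theorem simple (hK : K ≤ A) (hn : Nrm A K) : K = ⊥ ∨ K = A :=
  h.mA.eq_bot_or_eq hK ((hn.sup_left
    (nrm_of_le_C (inf_le_right.trans (C_anti hK)))).mono h.L_le)

theorem not_le (hv : v ∈ V) (h1 : v ≠ 1) : ¬ A ≤ C1 v := fun e => by
  have : V ≤ C A := h.x.irr h.le h.mL.nrm h.mL.ne_bot hv h1 fun l hl =>
    h.mA.nrm.C l hl v (le_C1_iff.1 e)
  exact h.mA.ne_bot (eq_bot_iff.2 ((le_inf h.leH (le_C_symm this)).trans h.x.faith.le))

theorem dich (hv : v ∈ V) (h1 : v ≠ 1) : TD L A v ∨ TP L A v := by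
  obtain ⟨R, hR⟩ : ∃ R, R = L ⊓ cor (H ⊓ C1 v) ((L ⊓ C A) ⊔ L ⊓ C1 v) := ⟨_, rfl⟩
  have rL : R ≤ L := hR ▸ inf_le_left
  have nR : Nrm (H ⊓ C1 v) R := hR ▸ (h.mL.nrm.mono inf_le_left).inf nrm_cor
  rcases h.x.max v hv h1 (R ⊔ H ⊓ C1 v) le_sup_right (sup_le (rL.trans h.le) inf_le_left)
    with e | e
  · refine .inr fun a ha b hb c => ((le_sup_left.trans e.le) (show a ∈ R from hR ▸
      ⟨h.leA ha, fun g hg => ?_⟩)).2
    rcases h.cj_or hg.1 with e | e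
    · have b1 : g * b⁻¹ * g⁻¹ ∈ L ⊓ C A :=
        ⟨h.mL.nrm g hg.1 _ (inv_mem hb.1), by
          rw [← e, ← cj_C]; exact conj_mem_cj.2 (inv_mem hb.2)⟩
      have b2 : g * (a * b) * g⁻¹ ∈ L ⊓ C1 v :=
        ⟨h.mL.nrm g hg.1 _ (mul_mem (h.leA ha) hb.1), Nrm.self (C1 v) g hg.2 _ c⟩
      have := mul_mem (mem_sup_right (S := L ⊓ C A) b2) (mem_sup_left (T := L ⊓ C1 v) b1)
      rwa [show g * (a * b) * g⁻¹ * (g * b⁻¹ * g⁻¹) = g * a * g⁻¹ by group] at this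
    · exact mem_sup_left ⟨h.cjL hg.1 (conj_mem_cj.2 ha), e (conj_mem_cj.2 ha)⟩
  · refine .inl fun x hx => ?_
    obtain ⟨r, a, m, b, rfl⟩ := (mem_sup_nrm' nR).1 (e.ge (h.le hx))
    exact mul_mem (cor_le (hR ▸ a).2)
      (mem_sup_right ⟨(mul_mem_cancel_left (rL a)).1 hx, b.2⟩)

theorem tdec (d : TD L A v) (hg : g ∈ L) : ∃ b ∈ L ⊓ C A, ∃ l ∈ L ⊓ C1 v, g = b * l :=
  (mem_sup_nrm' (h.nrmB.mono inf_le_left)).1 (d hg)

theorem td_inf (hv : v ∈ V) (h1 : v ≠ 1) (d : TD L A v) {a : G} (ha : a ∈ A) (e : a ∈ C1 v) :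
    a = 1 := by
  have n : Nrm L (A ⊓ C1 v) := ((nrm_of_le_C (inf_le_right.trans (C_anti inf_le_left))).sup_left
    ((h.mA.nrm.mono inf_le_left).inf (Nrm.of_le inf_le_right))).mono d
  rcases h.mA.eq_bot_or_eq inf_le_left n with c | c
  · exact mem_bot.1 (c.le ⟨ha, e⟩)
  · exact absurd (c.ge.trans inf_le_right) (h.not_le hv h1)

theorem exists_td : ∃ w ∈ V, w ≠ 1 ∧ TD L A w := by
  obtain ⟨a, ha, a1, a2⟩ := exists_inv h.nsol
  obtain ⟨g, hg, e⟩ := h.exists_cj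
  obtain ⟨b, hb⟩ : ∃ b, b = g * a * g⁻¹ := ⟨_, rfl⟩
  have bL : b ∈ L ⊓ C A := hb ▸ ⟨h.cjL hg (conj_mem_cj.2 ha), e (conj_mem_cj.2 ha)⟩
  have b1 : b ≠ 1 := by rw [hb]; simpa using a1
  have b2 : b * b = 1 := by
    rw [hb, show g * a * g⁻¹ * (g * a * g⁻¹) = g * (a * a) * g⁻¹ by group, a2]; simp
  have bH := h.le bL.1
  have aH := h.leH ha
  have ab : a * b = b * a := mem_C.1 bL.2 a ha
  obtain ⟨y, hy, c⟩ : ∃ y ∈ V, a ∉ C1 (y * (b * y * b⁻¹)) := by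
    by_contra! c
    obtain ⟨K, hK⟩ : ∃ K : Subgroup G, ∀ x, x ∈ K ↔
        x ∈ A ∧ ∀ y ∈ V, x ∈ C1 (y * (b * y * b⁻¹)) :=
      ⟨A ⊓ ⨅ y : V, C1 (y * (b * y * b⁻¹)), fun x => by simp [mem_iInf]⟩
    have n : Nrm A K := fun k hk x hx => (hK _).2 ⟨Nrm.self A k hk x ((hK x).1 hx).1,
      fun y hy => by
        have := ((hK x).1 hx).2 _ (h.x.nrm.conj' (h.leH hk) hy)
        have kb : k * b = b * k := mem_C.1 bL.2 k hk
        rw [← conj_mem_cj (g := k), cj_C1] at this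
        rwa [show k * (k⁻¹ * y * k * (b * (k⁻¹ * y * k) * b⁻¹)) * k⁻¹ =
          y * ((k * b) * k⁻¹ * y * k * (k * b)⁻¹) by group, kb,
          show y * ((b * k) * k⁻¹ * y * k * (b * k)⁻¹) = y * (b * y * b⁻¹) by group] at this⟩
    rcases h.simple (fun x hx => ((hK x).1 hx).1) n with e | e
    · exact a1 (mem_bot.1 (e.le ((hK a).2 ⟨ha, c⟩)))
    · refine b1 (mem_bot.1 (h.x.faith.le ⟨bH, mem_C.2 fun y hy => ?_⟩))
      have : y * (b * y * b⁻¹) = 1 := by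
        by_contra c1
        exact h.not_le (mul_mem hy (h.x.nrm b bH y hy)) c1 fun x hx => ((hK x).1 (e.ge hx)).2 y hy
      rw [← h.x.sq hy, mul_left_cancel_iff] at this
      exact (mem_C1.1 (mem_C1_iff_conj.2 this)).symm
  have abH := mul_mem aH bH
  have y1 := h.x.nrm a aH y hy
  have y2 := h.x.nrm b bH y hy
  have y3 := h.x.nrm _ abH y hy
  have c1 : a ∉ C1 (y * (a * b * y * (a * b)⁻¹)) := fun c1 => c (by
    rw [mem_C1_iff_conj] at c1 ⊢
    have e1 : a * y * a⁻¹ * (b * y * b⁻¹) = y * (a * b * y * (a * b)⁻¹) := by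
      rw [← c1]
      calc _ = a * y * a⁻¹ * ((a * a) * b * y * b⁻¹ * (a * a)⁻¹) := by rw [a2]; group
        _ = _ := by group
    calc _ = a * y * a⁻¹ * (a * b * y * (a * b)⁻¹) := by group
      _ = (a * y * a⁻¹) * (y * y) * (a * b * y * (a * b)⁻¹) := by rw [h.x.sq hy, mul_one]
      _ = (a * y * a⁻¹) * y * (y * (a * b * y * (a * b)⁻¹)) := by group
      _ = y * (a * y * a⁻¹ * (a * y * a⁻¹)) * (b * y * b⁻¹) := by
        rw [← e1, h.x.ab.comm y1 hy]; group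
      _ = _ := by rw [h.x.sq y1, mul_one])
  have z1 : y * (a * b * y * (a * b)⁻¹) ≠ 1 := fun e => c1 (by rw [e, C1_one]; trivial)
  refine ⟨_, mul_mem hy y3, z1, (h.dich (mul_mem hy y3) z1).resolve_right fun d =>
    c1 (d a ha b bL ?_)⟩
  have q : a * b * (a * b) = 1 := by
    calc _ = a * (b * a) * b := by group
      _ = a * a * (b * b) := by rw [← ab]; group
      _ = 1 := by rw [a2, b2, mul_one]
  rw [mem_C1_iff_conj]
  calc _ = a * b * y * (a * b)⁻¹ * ((a * b * (a * b)) * y * (a * b * (a * b))⁻¹) := by group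
    _ = _ := by rw [q, one_mul, inv_one, mul_one, h.x.ab.comm y3 hy]

/-- elements of `A` of order greater than two fix no vector. -/
theorem fpf (hs : s ∈ A) (h2 : s * s ≠ 1) (hv : v ∈ V) (e : s ∈ C1 v) : v = 1 := by
  obtain ⟨w, hw, w1, d⟩ := h.exists_td
  have sH := h.leH hs
  have sw := h.x.nrm s sH w hw
  have uV := mul_mem hw sw
  have u1 : w * (s * w * s⁻¹) ≠ 1 := fun c => by
    rw [← h.x.sq hw, mul_left_cancel_iff] at c
    exact h2 (by rw [h.td_inf hw w1 d hs (mem_C1_iff_conj.2 c), mul_one])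
  have d2 : TD L A (w * (s * w * s⁻¹)) := (h.dich uV u1).resolve_right fun c => by
    obtain ⟨b, b1, l, l1, e1⟩ := h.tdec d (h.leA hs)
    have sb : s * b⁻¹ = b⁻¹ * s := mem_C.1 (inv_mem b1.2) s hs
    have e2 : s * b⁻¹ = l := by rw [sb, e1]; group
    have ls : l * s = s * l := by rw [← e2, mul_assoc, ← sb]
    have := c s hs b⁻¹ (inv_mem b1) (by
      rw [e2, mem_C1_iff_conj]
      calc _ = (l * w * l⁻¹) * ((l * s) * w * (l * s)⁻¹) := by group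
        _ = (l * w * l⁻¹) * (s * (l * w * l⁻¹) * s⁻¹) := by rw [ls]; group
        _ = _ := by rw [mem_C1_iff_conj.1 l1.2])
    rw [mem_C1_iff_conj, show s * (w * (s * w * s⁻¹)) * s⁻¹ =
      (s * w * s⁻¹) * (s * s * w * (s * s)⁻¹) by group, h.x.ab.comm hw sw,
      mul_left_cancel_iff] at this
    exact h2 (h.td_inf hw w1 d (mul_mem hs hs) (mem_C1_iff_conj.2 this))
  obtain ⟨J, hJ⟩ : ∃ J : Subgroup G, ∀ x, x ∈ J ↔ ∃ y ∈ V, x = y * (s * y * s⁻¹) :=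
    ⟨{ carrier := {x | ∃ y ∈ V, x = y * (s * y * s⁻¹)}
       mul_mem' := by
        rintro _ _ ⟨y, hy, rfl⟩ ⟨z, hz, rfl⟩
        refine ⟨y * z, mul_mem hy hz, ?_⟩
        calc _ = y * (s * y * s⁻¹ * z) * (s * z * s⁻¹) := by group
          _ = _ := by rw [h.x.ab.comm (h.x.nrm s sH y hy) hz]; group
       one_mem' := ⟨1, one_mem _, by simp⟩
       inv_mem' := by
        rintro _ ⟨y, hy, rfl⟩
        refine ⟨y⁻¹, inv_mem hy, ?_⟩
        rw [h.x.ab.comm hy (h.x.nrm s sH y hy)]; group }, fun _ => Iff.rfl⟩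
  have vJ : V ≤ J := h.x.irr h.le h.mL.nrm h.mL.ne_bot uV u1 fun g hg => by
    obtain ⟨b, b1, l, l1, rfl⟩ := h.tdec d2 hg
    refine (hJ _).2 ⟨b * w * b⁻¹, h.x.nrm b (h.le b1.1) w hw, ?_⟩
    have sb : s * b = b * s := mem_C.1 b1.2 s hs
    calc _ = b * (l * (w * (s * w * s⁻¹)) * l⁻¹) * b⁻¹ := by group
      _ = b * w * b⁻¹ * ((b * s) * w * (b * s)⁻¹) := by rw [mem_C1_iff_conj.1 l1.2]; group
      _ = _ := by rw [← sb]; group
  obtain ⟨f, hf⟩ : ∃ f : V → V, ∀ y, (f y : G) = y * (s * y * s⁻¹) :=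
    ⟨fun y => ⟨_, mul_mem y.2 (h.x.nrm s sH y y.2)⟩, fun _ => rfl⟩
  have : Function.Injective f := Finite.injective_iff_surjective.2 fun x => by
    obtain ⟨y, hy, e⟩ := (hJ _).1 (vJ x.2)
    exact ⟨⟨y, hy⟩, Subtype.ext (by rw [hf, e])⟩
  have := @this ⟨v, hv⟩ 1 (Subtype.ext (by
    rw [hf, hf, mem_C1_iff_conj.1 e, h.x.sq hv]; simp))
  exact congrArg Subtype.val this

theorem false : False := by
  haveI := Fact.mk Nat.prime_two
  obtain ⟨S, hS⟩ := exists_sylIn 2 A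
  have sH := hS.le.trans h.leH
  have e2 : ∀ x ∈ S, x * x = 1 := fun x hx => by
    by_contra c
    obtain ⟨v, a, b, e⟩ := h.x.fix (zpowers_le.2 (sH hx)) (hS.isPGroup.to_le (zpowers_le.2 hx))
    exact b (h.fpf (hS.le hx) c a (e (mem_zpowers x)))
  have ab : Ab S := ab_iff.2 fun x hx y hy => by
    have ix := inv_eq_of_mul_eq_one_right (e2 x hx)
    have iy := inv_eq_of_mul_eq_one_right (e2 y hy)
    rw [← inv_eq_of_mul_eq_one_right (e2 _ (mul_mem hx hy)), mul_inv_rev, ix, iy]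
  have np : ¬ IsPGroup 2 ↥(A ⊓ N S) := fun c => by
    have e := hS.eq_of_le inf_le_left c (le_inf hS.le (le_N S))
    have pn := hS.pNil_of_le_C Nat.prime_two (e.le.trans ab)
    rcases h.mA.eq_bot_or_eq (Opi_le {2}ᶜ A) (h.mA.nrm.Opi _) with a | a
    · have := (pn.sdp Nat.prime_two hS).sup
      rw [show Opc 2 A = ⊥ from a, bot_sup_eq] at this
      exact h.nsol (this ▸ solvable_of_isPGroup Nat.prime_two hS.isPGroup)
    · exact not_dvd_card_Opc Nat.prime_two A (by rw [show Opc 2 A = A from a]; exact two_dvd h.nsol)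
  obtain ⟨r, hr, rd, r2⟩ : ∃ r : ℕ, r.Prime ∧ r ∣ Nat.card ↥(A ⊓ N S) ∧ r ≠ 2 := by
    by_contra! c
    exact np (isPGroup_of_card_eq (Nat.eq_prime_pow_of_unique_prime_dvd (card_ne_zero _)
      fun {d} a b => c d a b))
  obtain ⟨s, hs, os⟩ := exists_mem_orderOf_eq hr rd
  obtain ⟨g, hg, e⟩ := h.exists_cj
  have sA : zpowers s ≤ A := zpowers_le.2 hs.1
  have cs : Nat.card (zpowers s) = r := by rw [Nat.card_zpowers, os]
  have pS : IsPGroup r (zpowers s) := isPGroup_of_card_eq_prime cs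
  have pT : IsPGroup r (cj g (zpowers s)) := isPGroup_of_card_eq_prime (by rw [card_cj, cs])
  have tB : cj g (zpowers s) ≤ L ⊓ C A := (cj_mono sA).trans (le_inf (h.cjL hg) e)
  have st : zpowers s ≤ C (cj g (zpowers s)) :=
    le_C_symm ((tB.trans inf_le_right).trans (C_anti sA))
  have fp : ∀ x ∈ zpowers s, ∀ v ∈ V, v ≠ 1 → x ∈ C1 v → x = 1 := fun x hx v hv h1 c => by
    by_contra x1
    refine h1 (h.fpf (sA hx) (fun q => ?_) hv c)
    have o2 : orderOf x = 2 := orderOf_eq_prime (by rwa [sq]) x1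
    have := orderOf_dvd_card' hx
    rw [o2, cs] at this
    exact r2 ((Nat.prime_dvd_prime_iff_eq Nat.prime_two hr).1 this).symm
  have nc : ¬ IsCyclic ↥(zpowers s ⊔ cj g (zpowers s)) := fun c => by
    have := eq_of_isCyclic_of_card_eq c le_sup_left le_sup_right (card_cj _ _)
    have s1 : s ∈ C A := (tB (this.ge (mem_zpowers s))).2
    rcases h.mA.eq_bot_or_eq (Z_le A) h.mA.nrm.Z with a | a
    · rw [mem_bot.1 (a.le ⟨hs.1, s1⟩), orderOf_one] at os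
      exact hr.one_lt.ne os
    · exact h.nsol (solvable_of_ab (Z_eq_self.1 a))
  have nU : Nrm (zpowers s ⊔ cj g (zpowers s)) (V ⊓ C S) :=
    ((h.x.nrm.mono (sA.trans h.leH)).inf (nrm_of_le_N (zpowers_le.2 hs.2)).C).sup_left
      ((h.x.nrm.mono (tB.trans (inf_le_left.trans h.le))).inf
        (nrm_of_le_C ((tB.trans inf_le_right).trans (C_anti hS.le))).C)
  obtain ⟨a, a1, a2, a3⟩ := exists_inf_C1_ne_bot
    (Ab.sup (ab_zpowers s) ((ab_zpowers s).cjj g) st) nc nU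
    (coprime_of_isPGroup_ne Nat.prime_two hr r2.symm (h.x.pg2.to_le inf_le_left)
      (isPGroup_sup hr pS pT (.inl (nrm_of_le_C st))))
    (inf_C_ne_bot_of_isPGroup Nat.prime_two h.x.pg2 hS.isPGroup (h.x.nrm.mono sH) h.x.min.ne_bot)
  obtain ⟨⟨c, ⟨c1, c2⟩, c5⟩, c6⟩ := ne_bot_iff_exists_ne_one.1 a3
  have c4 : c ≠ 1 := fun e => c6 (Subtype.ext e)
  have c3 := mem_C1_comm.1 c5
  obtain ⟨x, hx, y, hy, rfl⟩ := (mem_sup_nrm (nrm_of_le_C st)).1 a1
  have tp := (h.dich c1 c4).resolve_left fun d => hS.ne_bot Nat.prime_two (two_dvd h.nsol)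
    (eq_bot_iff.2 fun z hz => mem_bot.2 (h.td_inf c1 c4 d (hS.le hz) (le_C1_iff.2 c2 hz)))
  have x1 := fp x hx c c1 c4 (tp x (sA hx) y (tB hy) c3)
  rw [x1, one_mul] at a2 c3
  have cj1 : ∀ z : G, g⁻¹ * z * g = 1 → z = 1 := fun z q => by
    rw [show z = g * (g⁻¹ * z * g) * g⁻¹ by group, q]; simp
  have := fp _ (mem_cj.1 hy) _ (h.x.nrm.conj' hg c1) (fun q => c4 (cj1 _ q)) (by
    have := conj_mem_cj (g := g⁻¹) |>.2 c3
    rw [cj_C1] at this
    simpa using this)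
  exact a2 (cj1 _ this)

end XQ

theorem XP.main (h : XP p V H) : ∃ L ≤ H, Nrm H L ∧ MinNrm L L ∧ ¬ Ab L ∧ H ⊓ C L = ⊥ := by
  have h0 : H ≠ ⊥ := fun e => h.nsol (e ▸ solvable_bot)
  obtain ⟨L, a, b⟩ := exists_minNrm h0 (Nrm.self H)
  obtain ⟨A, c, d⟩ := exists_minNrm b.ne_bot (Nrm.self L)
  have e : A = L := by
    by_contra e
    exact XQ.false ⟨h, a, b, c, d, e⟩
  exact ⟨L, a, b.nrm, e ▸ d, fun q => h.not_solv a b (solvable_of_ab q), h.cent_bot a b⟩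

end CfsgH5.Xp
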